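import Cfsg.Agent.Lib.PF.DefsFT
import Cfsg.Agent.Lib.ZB.Defs

/-!
# The types of maximal subgroups: the interface between B&G Section 16 and Peterfalvi Section 8

`Cfsg.IsOfTypeI` asks for `O_{p'}(M)` (and not `O_{p'}(M_F)`) to be cyclic, which the local analysis
does not give.  Here type I means "not of type `P`", and `A(M)`, `A₀(M)` are defined accordingly.
-/

set_option autoImplicit false
set_option linter.unusedVariables false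

namespace Cfsg.Lib.BG.Z.PF

open Subgroup
open Cfsg.Lib.PF
open scoped Cfsg.Lib.Transfer

variable {G : Type*} [Group G]

open scoped Classical in
/-- `A(M)`. -/
noncomputable def ftA (M : Subgroup G) : Set G :=
  if IsOfTypeP M then
    {a | a ∈ ⁅M, M⁆ ∧ a ≠ 1 ∧ ∃ x ∈ typeCore M, x ≠ 1 ∧ a * x = x * a}
  else
    {a | a ∈ M ∧ a ≠ 1 ∧ ∃ x ∈ 𝐇(M), x ≠ 1 ∧ a * x = x * a}

/-- `A₀(M)`. -/
noncomputable def ftA0 (M : Subgroup G) : Set G :=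
  ftA M ∪ {v | ∃ W₁ U W₂ : Subgroup G, IsTypePWith M W₁ U W₂ ∧
    ∃ m ∈ M, ∃ w ∈ W₁ ⊔ W₂, w ∉ W₁ ∧ w ∉ W₂ ∧ v = m * w * m⁻¹}

/-- The maximal subgroup `L` supports `M` (Peterfalvi (8.14)). -/
def FtSupports (L M : Subgroup G) : Prop :=
  Mx L ∧ ∃ x ∈ ftA0 M, ¬ 𝐂[x] ≤ M ∧ 𝐂[x] ≤ L

theorem mem_ftA_of_typeI {M : Subgroup G} (h : TypeI M) {a : G} : a ∈ ftA M ↔
    a ∈ M ∧ a ≠ 1 ∧ ∃ x ∈ 𝐇(M), x ≠ 1 ∧ a * x = x * a := by
  rw [ftA, if_neg h]; rfl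

theorem mem_ftA_of_typeP {M : Subgroup G} (h : IsOfTypeP M) {a : G} : a ∈ ftA M ↔
    a ∈ ⁅M, M⁆ ∧ a ≠ 1 ∧ ∃ x ∈ typeCore M, x ≠ 1 ∧ a * x = x * a := by
  rw [ftA, if_pos h]; rfl

theorem ftA0_of_typeI {M : Subgroup G} (h : TypeI M) : ftA0 M = ftA M := by
  rw [ftA0, Set.union_eq_left]
  rintro v ⟨W₁, U, W₂, hP, -⟩
  exact absurd ⟨W₁, U, W₂, hP⟩ h

theorem ftA_subset_ftA0 (M : Subgroup G) : ftA M ⊆ ftA0 M := Set.subset_union_left

/-- `M` is a maximal subgroup of type `P` with data `U`, `W₁`, `W₂` (Coq `of_typeP M U defW`). -/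
structure FTP (M U W₁ W₂ : Subgroup G) : Prop where
  max : Mx M
  P : IsTypePWith M W₁ U W₂

theorem FTP.typeP {M U W₁ W₂ : Subgroup G} (h : FTP M U W₁ W₂) : IsOfTypeP M := ⟨W₁, U, W₂, h.P⟩

theorem FTP.not_typeI {M U W₁ W₂ : Subgroup G} (h : FTP M U W₁ W₂) : ¬ TypeI M :=
  fun h' => h' h.typeP

theorem exists_FTP {M : Subgroup G} (hM : Mx M) (h : ¬ TypeI M) :
    ∃ U W₁ W₂, FTP M U W₁ W₂ := by
  obtain ⟨W₁, U, W₂, hP⟩ : IsOfTypeP M := not_not.1 h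
  exact ⟨U, W₁, W₂, hM, hP⟩

/-- Peterfalvi (8.8)(b) and (13.1)(a,b) (Coq `typeP_pair` with both `of_typeP`). -/
structure FTPair (S T U V W₁ W₂ : Subgroup G) : Prop where
  left : FTP S U W₁ W₂
  right : FTP T V W₂ W₁
  inf : S ⊓ T = W₁ ⊔ W₂
  typeII : IsOfTypeII S ∨ IsOfTypeII T
  cover : ∀ M : Subgroup G, Mx M → TypeI M ∨ Cj S M ∨ Cj T M

theorem FTPair.symm {S T U V W₁ W₂ : Subgroup G} (h : FTPair S T U V W₁ W₂) :
    FTPair T S V U W₂ W₁ where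
  left := h.right
  right := h.left
  inf := by rw [inf_comm, h.inf, sup_comm]
  typeII := h.typeII.symm
  cover M hM := by
    rcases h.cover M hM with h | h | h
    · exact Or.inl h
    · exact Or.inr (Or.inr h)
    · exact Or.inr (Or.inl h)

end Cfsg.Lib.BG.Z.PF
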