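import Cfsg.Agent.Lib.ZQ.FpfChar

/-!
# No maximal subgroup is supported by another one; `U` acts regularly on `S_F`
-/

set_option autoImplicit false
set_option linter.unusedVariables false
set_option linter.style.haveILetI false

namespace Cfsg.Lib.BG.Z.PF

open Subgroup
open Cfsg.Lib.PF
open Cfsg.Lib.Transfer (conj_sup)
open scoped Cfsg.Lib.Transfer

variable {G : Type*} [Group G] [Finite G] [Sz G] {S L M E U W₁ W₂ : Subgroup G} {x : G}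

theorem two_mul_card_compl_le {p : ℕ} [hp : Fact p.Prime] {P : Subgroup G}
    (hE : Frob 𝐇(L) E L) (hP : Syl p P M) (hPH : P ≤ 𝐇(L)) (hA : Elem p 2 (omegaOne p P) P)
    (hx : x ∈ omegaOne p P) (hx1 : x ≠ 1) (hC : 𝐂[x] ≤ M) (hN : E ⊓ 𝐍(zpowers x) = ⊥)
    (hL : Loc L) : 2 * Nat.card E ≤ p + 1 := by
  have hLE : Loc E := hL.mono hE.sd.right_le
  have hLP : Loc P := hL.mono (hPH.trans (MF_le L))
  have hPO : P ≤ 𝐎({p}, 𝐇(L)) := nil_le_pcore (MF_nil L) hPH hP.pi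
  have hPe : P = 𝐎({p}, 𝐇(L)) ⊓ M := hP.eq_of_le_pgroup (le_inf hPO hP.le) inf_le_right
    (pgroup_of_le (pcore_pgroup p _) inf_le_left)
  set T := omegaOne p 𝐙(𝐎({p}, 𝐇(L))) with hT
  have hT1 : T ≠ ⊥ := Ohm1_center_ne_bot (pcore_pgroup p _)
    (ne_bot_of_mem (hPO (hA.le hx)) hx1)
  have hTe : IsElementaryAbelian p T := elab_Ohm1_center p _
  have hTP : T ≤ P := by
    rw [hPe]
    refine le_inf ((Ohm1_le p _).trans inf_le_left) (((Ohm1_le p _).trans inf_le_right).trans ?_)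
    exact (cent_le_cent1 (hPO (hA.le hx))).trans hC
  have hTA : T ≤ omegaOne p P := elab_le_Ohm1 hTe hTP
  have hET : E ≤ 𝐍(T) := norm_Ohm1 (norm_center (norm_pcore hE.sd.norm _)) p
  have hreg : SemiReg T E := fun z hz hz1 =>
    eq_bot_mono (hE.reg z hz hz1) (inf_le_inf_right _ (hTP.trans hPH))
  have hp3 := mFT_three_le (hA.dvd_card two_ne_zero)
  rcases hTA.eq_or_lt with e | hlt
  · exact two_mul_card_le_of_reg (mFT_odd E) (by omega) (e ▸ hA.top) hET hreg (e ▸ hx) hx1 hN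
  · have h2 := regular_norm_dvd_pred hET hreg
    rw [(hA.one_of_lt hT1 hlt).card_one] at h2
    have := two_mul_add_one_le_of_odd (mFT_odd E)
      ((mFT_odd P).of_dvd_nat (hA.dvd_card two_ne_zero)) (by omega) h2
    omega

theorem FTP.cent1_eq_bot (h : FTP S U W₁ W₂) (hx : x ∈ U) (hx1 : x ≠ 1)
    (he : 𝐇(S) ⊓ 𝐂[x] = ⊥ ∨ 𝐇(S) ⊓ 𝐂[x] = 𝐇(S)) : 𝐇(S) ⊓ 𝐂[x] = ⊥ :=
  he.resolve_right fun e => hx1 (mem_bot.1 (h.cent_eq_bot.le
    ⟨hx, le_cent1_iff.1 (e.ge.trans inf_le_right)⟩))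

theorem FTP.norm_inf_cent1 (h : FTP S U W₁ W₂) (hx : x ∈ U) : U ≤ 𝐍(𝐇(S) ⊓ 𝐂[x]) :=
  norm_inf (h.U_le'.trans (MF_nml S).norm)
    (norm_cent1 (le_cent1_iff.2 (abelian_cent h.U_abelian hx)))

theorem FTP.not_norm_zpowers (h : FTP S U W₁ W₂) (hx : x ∈ U) (hx1 : x ≠ 1)
    (hC : 𝐇(S) ⊓ 𝐂[x] ≠ ⊥) : ¬ W₁ ≤ 𝐍(zpowers x) := fun hn => by
  refine hC (h.cent1_eq_bot hx hx1 (h.pcore_bot.chief.min _ ?_ bot_le inf_le_left))
  refine (TypeP.sd_Fcore h.P).sup.ge.trans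
    (sup_le (abelian_norm h.MF_elem.1 inf_le_left) (sup_le (h.norm_inf_cent1 hx) ?_))
  rw [← cent_zpowers]
  exact norm_inf (h.W₁_le'.trans (MF_nml S).norm) (norm_cent hn)

theorem cent_le_of_typeI_prime (hL : Mx L) (h1 : TypeI L) (hx : x ∈ 𝐇(L)) {p : ℕ} (hp : p.Prime)
    (hxp : orderOf x = p) : 𝐂[x] ≤ L := by
  by_contra hCL
  haveI := Fact.mk hp
  have hF := frobKer_of_typeI hL h1
  have hx1 : x ≠ 1 := fun e => hp.one_lt.ne (by rw [← hxp, e, orderOf_one])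
  obtain ⟨-, S, hS, -, hsd, -, -, ⟨hA, hA1⟩, hty, -⟩ :=
    support_facts hL (sharp_MF_subset_ftA0 hL ⟨hx, hx1⟩) hCL
  have h2 : IsOfTypeII S := hty.resolve_left fun h' => hA1 (by
    rw [typeA1_of_typeI hS.max h', ← ftA_of_frobKer hS.max (frobKer_of_typeI hS.max h')]
    exact hA)
  obtain ⟨U, W₁, W₂, h, e⟩ : ∃ U W₁ W₂, FTP S U W₁ W₂ ∧ L ⊓ S = U ⊔ W₁ := by
    obtain ⟨U, W₁, W₂, h⟩ := exists_FTP hS.max (not_typeI_of_typeII h2)
    have hH : Hall {q | q ∣ Nat.card 𝐇(S)}ᶜᶜ 𝐇(S) S := by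
      rw [compl_compl]; exact Hall.of_coprime (MF_le S) (MF_coprime S)
    obtain ⟨s, hs, e⟩ := (Hall.of_sd_right (TypeP.sd_Fcore h.P) hH).exists_conj_eq
      (Hall.of_sd_right hsd hH) (mmax_sol hS.max)
    have h' := h.conj s
    rw [conj_eq_of_mem hs] at h'
    exact ⟨_, _, _, h', by rw [e, conj_sup]⟩
  have hUW : U ⊔ W₁ ≤ L := e.ge.trans inf_le_left
  obtain ⟨hxd, -, g, hg, hg1, hxg⟩ := h.mem_ftA.1 hA
  rw [typeCore_of_typeII hS.max h2] at hg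
  have hC : 𝐇(S) ⊓ 𝐂[x] ≠ ⊥ := ne_bot_of_mem ⟨hg, mem_cent1.2 hxg.symm⟩ hg1
  have hxU : x ∈ U := by
    obtain ⟨u, hu, w, hw, rfl⟩ := (TypeP.sd_compl h.P).mem
      (e.le ⟨MF_le L hx, der_le S hxd⟩)
    have : w ∈ ⁅S, S⁆ ⊓ W₁ :=
      ⟨(mul_mem_cancel_left ((TypeP.sd_core h.P).right_le hu)).1 hxd, hw⟩
    rw [(TypeP.sd_der h.P).inf, mem_bot] at this
    rwa [this, mul_one]
  have hUH : U ≤ 𝐇(L) := fun u hu => hF.cent x hx hx1 u (hUW (mem_sup_left hu))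
    (le_cent_iff.1 (abelian_cent h.U_abelian) u hu x hxU)
  have hFr := h.frob_compl
  have hq := h.primes.1
  have hW₁ : 𝐇(L) ⊓ W₁ = ⊥ := by
    rw [inf_comm]
    refine inf_eq_bot_of_prime hq fun hle => hFr.ker_ne ?_
    exact eq_bot_mono (B13.U_cent_bot h)
      (le_inf le_rfl (nil_cent_of_coprime (MF_nil L) hUH hle (B13.coprime_U_W₁ h)))
  have hW₁L : W₁ ≤ L := le_sup_right.trans hUW
  have hH : Hall {r | r ∣ Nat.card 𝐇(L)} 𝐇(L) L := Hall.of_coprime (MF_le L) (MF_coprime L)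
  have hc := regular_norm_coprime (hW₁L.trans (MF_nml L).norm) (hF.semiReg hW₁L hW₁)
  obtain ⟨E, hE, hWE⟩ := Hall.exists_ge (π := {r | r ∣ Nat.card 𝐇(L)}ᶜ) (mmax_sol hL) hW₁L
    (PiNat.of_coprime hc.symm)
  have hsdE := hH.sd (MF_nml L).norm hE
  have hnn := h.not_norm_zpowers hxU hx1 hC
  have hX := Elem.zpowers hxU hxp
  have hN : E ⊓ 𝐍(zpowers x) = ⊥ := by
    have h3 : 𝐍(zpowers x) ≤ S := hS.ge (cent_zpowers x ▸ cent_le_norm _)
      (loc_norm (by simpa using hx1) (hL.MF_D.elt hx).zpowers)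
    have h4 : (U ⊔ W₁) ⊓ E = W₁ := by
      rw [modular_right hWE hFr.sd.norm, eq_bot_mono hsdE.inf (inf_le_inf_right _ hUH), bot_sup_eq]
    refine eq_bot_mono (inf_eq_bot_of_prime hq hnn) (le_inf ?_ inf_le_right)
    rw [← h4, ← e]
    exact le_inf (le_inf (inf_le_left.trans hE.le) (inf_le_right.trans h3)) inf_le_left
  have hR : Syl p 𝐎({p}, U) U := nil_pcore_Hall (abelian_nil h.U_abelian) {p}
  have hXR : zpowers x ≤ 𝐎({p}, U) := nil_le_pcore (abelian_nil h.U_abelian) hX.le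
    (PiGrp.p_iff.2 hX.pgroup)
  have hWR : W₁ ≤ 𝐍(𝐎({p}, U)) := norm_pcore hFr.sd.norm _
  generalize 𝐎({p}, U) = R at hR hXR hWR
  have hRS : Syl p R S := Syl.of_Hall hR (B13.hall_U h) (hX.dvd_card one_ne_zero)
  have hRc : ¬ IsCyclic R := fun hc => hnn (by
    rw [← cyclic_Ohm1_eq hc (hX.of_le hXR)]; exact norm_Ohm1 hWR p)
  obtain ⟨hab, hr⟩ := (typeI_II_facts hS.max (.inr ⟨h2, TypeP.sd_core h.P⟩)).1 p R hp hR.pgroup hR.le
  have hΩ : Elem p 2 (omegaOne p R) R := by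
    have := abelian_elem_Ohm1 (p := p) hab
    rwa [le_antisymm hr (mFT_two_le_rk hR.pgroup hRc (hS.max.sub hRS.le))] at this
  refine h.typeII_char_contradiction hL hF hp hx hxp hS.le hCL
    (hΩ.card ▸ card_le_of_le (hΩ.le.trans (hR.le.trans hUH))) ?_
  rw [hsdE.relIndex_left]
  exact two_mul_card_compl_le (hF.frob hsdE) hRS (hR.le.trans hUH) hΩ
    (elab_le_Ohm1 hX.elem hXR (mem_zpowers x)) hx1 hS.le hN hL.loc

/-- A maximal subgroup of type I is not supported. -/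
theorem cent_le_of_typeI (hL : Mx L) (h1 : TypeI L) (hx : x ∈ 𝐇(L)) (hx1 : x ≠ 1) :
    𝐂[x] ≤ 𝐇(L) := by
  obtain ⟨p, hp, hd⟩ := Nat.exists_prime_and_dvd (orderOf_eq_one_iff.not.2 hx1)
  obtain ⟨z, hz, hzp⟩ := exists_orderOf_prime (H := zpowers x) hp (by rwa [Nat.card_zpowers])
  have h2 := cent_le_of_typeI_prime hL h1 (zpowers_le.2 hx hz) hp hzp
  have h3 : 𝐂[x] ≤ 𝐂[z] := by rw [← cent_zpowers x]; exact cent_le_cent1 hz
  exact fun y hy => (frobKer_of_typeI hL h1).cent x hx hx1 y (h2 (h3 hy)) (mem_cent1.1 hy)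

theorem FTP.reg_U (h : FTP S U W₁ W₂) : SemiReg 𝐇(S) U := by
  intro x hx hx1
  by_cases h2 : IsOfTypeII S
  swap
  · exact h.cent1_eq_bot hx hx1
      ((h.type34_structure h2).2.2.1 _ (h.norm_inf_cent1 hx) bot_le inf_le_left)
  by_contra hC
  have hUD : PiGrp (DD G) U := piD_of_cent1 hx1 (eltD_of_inf_cent1 h.max.MF_D hC)
    (le_cent1_iff.2 (abelian_cent h.U_abelian hx))
  obtain ⟨L, hL, hUL⟩ := mmax_exists (loc_norm (ne_bot_of_mem hx hx1) hUD)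
  obtain ⟨T, V, hT⟩ := h.exists_pair
  obtain ⟨h1, hUH, -⟩ := hT.typeII_support_facts h2 hL hUL hUD
  have hu := (typeI_II_facts h.max (.inr ⟨h2, TypeP.sd_core h.P⟩)).2 {x}
    (Set.singleton_subset_iff.2 ⟨hx, hx1⟩) (Set.singleton_nonempty x) hC
  obtain rfl := hu.uniq L hL ((cent_le_of_typeI hL h1 (hUH hx) hx1).trans (MF_le L))
  exact h.not_typeI h1

end Cfsg.Lib.BG.Z.PF
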