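import Cfsg.Agent.Lib.ZQ.Sec13Bridge

/-!
# A maximal subgroup of type II supports no maximal subgroup: the character-theoretic part

The argument of Peterfalvi (12.13)-(12.16), applied to a maximal subgroup `S` of type `P`.
-/

set_option autoImplicit false
set_option linter.unusedVariables false

namespace Cfsg.Lib.BG.Z.PF

open Subgroup
open Cfsg.Lib.PF
open scoped Classical Cfsg.Lib.Transfer ComplexConjugate

theorem apply_mul_of_prop {X : Type*} [Group X] [Finite X] {K P : Subgroup X} {f : X → ℂ}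
    (hPK : P ≤ K) (hf : f ∈ CF K) {c : ℂ}
    (h : ∀ θ ∈ Irr K, ¬ P ≤ cfker θ → cfdot K f θ = c * θ 1) {y g : X} (hy : y ≠ 1) (hg : g ∈ P)
    (hyg : y * g ≠ 1) : f (y * g) = f y := by
  have key := CF.apply_mul_of_orth (ψ := f - c • ∑ χ ∈ Irr K, χ 1 • χ) hPK
    (sub_mem hf (Submodule.smul_mem _ _ (Submodule.sum_mem _ fun χ hχ =>
      Submodule.smul_mem _ _ (Irr.mem_CF hχ)))) (fun θ hθ hk => by
    rw [cfdot_sub_left, h θ hθ hk, cfdot_smul_left, cfdot_sum_left, Finset.sum_eq_single θ,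
      cfdot_smul_left, Irr.cfdot_self hθ, mul_one, sub_self]
    · intro χ hχ hne
      rw [cfdot_smul_left, Irr.cfdot_ne hχ hθ hne, mul_zero]
    · exact fun h => absurd hθ h) y hg
  rw [sum_Irr_apply_one_smul] at key
  simpa [cf1_of_not_mem (H := ⊥) (mt mem_bot.1 hy), cf1_of_not_mem (H := ⊥) (mt mem_bot.1 hyg)]
    using key

theorem final_ineq_II {e h k y m n : ℝ} (he : 3 ≤ e) (hh : 0 < h) (hk : 5 ≤ k) (hy : 0 < y)
    (hm : m = k * y) (hy3 : 3 * y ≤ h * e) (hn : (e - 1) ^ 2 ≤ n ^ 2)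
    (hc : m⁻¹ * ((k - 1) * n ^ 2) + (1 - e / h) ≤ 1) : False := by
  subst hm
  have hm : 0 < k * y := by positivity
  have h1 : (k - 1) * n ^ 2 ≤ e / h * (k * y) := by
    rw [← inv_mul_le_iff₀' hm] <;> linarith
  have h2 : e / h * (k * y) * 3 ≤ e * e * k := by
    rw [div_mul_eq_mul_div, div_mul_eq_mul_div, div_le_iff₀ hh]
    have : 0 ≤ e * k := by positivity
    nlinarith
  have h3 : (k - 1) * (e - 1) ^ 2 ≤ (k - 1) * n ^ 2 := mul_le_mul_of_nonneg_left hn (by linarith)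
  have h4 : 4 * (e * e) ≤ 9 * (e - 1) ^ 2 := by nlinarith
  have h5 : (k - 1) * (4 * (e * e)) ≤ (k - 1) * (9 * (e - 1) ^ 2) :=
    mul_le_mul_of_nonneg_left h4 (by linarith)
  have h6 : 0 < e * e := by positivity
  nlinarith

variable {G : Type*} [Group G] [Finite G] [Sz G] {S L U W₁ W₂ : Subgroup G} {χ ξ α : G → ℂ}
  {τ₁ τ₂ : (G → ℂ) →ₗ[ℂ] (G → ℂ)}

namespace FTP

variable (h : FTP S U W₁ W₂)
include h

theorem Z0_core_mem (hα : α ∈ Z0 (seqIndD ⁅S, S⁆ S 𝐇(S) ⊥)) : α ∈ CFon S (ftA0 S) := by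
  refine CFon.mono (ftA_subset_ftA0 S) (CFon.of_insert_one (ZS.mem_CFon (fun φ hφ => ?_) hα.1) hα.2)
  obtain ⟨θ, hθ, -, hk, rfl⟩ := mem_seqIndD.1 hφ
  exact h.prDadeF.ind_mem_CFon hθ hk

theorem cfdot_typeI_irr (hL : RefI L τ₁ χ)
    (hc : CoherentWith S ⊤ (seqIndD ⁅S, S⁆ S 𝐇(S) ⊥) (ftDade S) τ₂)
    (hξ : ξ ∈ seqIndD ⁅S, S⁆ S 𝐇(S) ⊥) (hi : ξ ∈ Irr S) : cfdot ⊤ (τ₂ ξ) (τ₁ χ) = 0 := by
  by_contra hne
  have hF := frobKer_of_typeI hL.max hL.typeI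
  have hχi := frob_seqInd_subset hF hL.mem
  have hS := h.max
  have hk : ¬ 𝐇(S) ≤ cfker ξ :=
    SeqInd.not_le_cfker (Nml.der_self S).le (TypeP.sd_core h.P).left_le (MF_nml S).norm hξ
  obtain ⟨ε, hε, e⟩ := (hc.isDirr hξ hi).exists_sign_of_cfdot_ne_zero
    (hL.coh.isDirr hL.mem hχi) hne
  have e' : τ₂ (star ξ) = ε • τ₁ (star χ) := by
    rw [← CoherentWith.star_map (ftDade_hyp hS) hc (fun _ => SeqInd.star_mem) hξ hi
      (h.star_ne_of_mem hξ), e, star_smul, CoherentWith.star_map (ftDadeF_hyp hL.max) hL.coh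
      (fun _ => SeqInd.star_mem) hL.mem hχi
      (SeqInd.star_ne (MF_le L) (MF_nml L).norm (mFT_odd L hL.max.loc) le_rfl hL.mem)]
    rcases hε with rfl | rfl <;> simp
  have hZ : ξ - star ξ ∈ Z0 (seqIndD ⁅S, S⁆ S 𝐇(S) ⊥) := sub_mem_Z0 (mem_ZS_of_mem hξ)
    (mem_ZS_of_mem (SeqInd.star_mem hξ)) (Irr.isChar hi).conj_apply_one.symm
  have e2 : ftDade S (ξ - star ξ) = ε • ftDadeF L (χ - star χ) := by
    rw [← hc.agree _ hZ, ← hL.coh.map_sub (mem_ZS_of_mem hL.mem)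
      (mem_ZS_of_mem (SeqInd.star_mem hL.mem)) (Irr.isChar hχi).conj_apply_one.symm, map_sub,
      map_sub, e, e', smul_sub]
  obtain ⟨ζ, hζ, hζξ⟩ := SeqInd.exists_over (MF_le S) (MF_nml S).norm le_rfl bot_le
    (MF_nml S).norm hi bot_le hk
  have hβ := seqInd_sub_star_mem_CFon hζ
  have h0 : cfdot ⊤ (ftDadeF L (χ - star χ)) (ftDade S (ζ - star ζ)) = 0 := by
    refine cfdot_eq_zero_of_disjoint fun g _ => ?_
    by_cases hg : g ∈ classSupp (sharp 𝐇(S)) ⊤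
    · obtain ⟨a, ha, y, hy, rfl⟩ := hg
      exact .inl (h.ftDadeF_apply_eq_zero hL.max hL.typeI _ (.inl ⟨a, ha.1, y, hy, rfl⟩))
    · exact .inr (h.ftDade_apply_eq_zero (sharp_MF_subset_ftA0 hS) hβ hg)
  have hζc := SeqInd.isChar (MF_le S) hζ
  have h3 : cfdot S (star ζ) ξ = 0 := hζc.cfdot_eq_zero_of_constituent hζc.star hi hζξ
    (SeqInd.cfdot_star (MF_le S) (MF_nml S).norm (mFT_odd S) le_rfl hζ)
  have h4 : cfdot ⊤ (ftDade S (ξ - star ξ)) (ftDade S (ζ - star ζ)) = 2 * cfdot S ζ ξ := by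
    rw [Dade.isometry (ftDade_hyp hS) (h.Z0_core_mem hZ) (CFon.mono (sharp_MF_subset_ftA0 hS) hβ)]
    rw [cfdot_sub_left, cfdot_sub_right, cfdot_sub_right, cfdot_star_swap, cfdot_star_left,
      cfdot_symm_zero h3, ZI.cfdot_comm (Irr.mem_ZI hi) hζc.mem_ZI]
    simp only [map_zero]; ring
  rw [e2, cfdot_smul_left, h0, mul_zero] at h4
  exact hζξ (by simpa using h4.symm)

/-- The analogue of Peterfalvi (12.4), (12.5). -/
theorem typeI_apply_mul (hL : RefI L τ₁ χ) {y g : G} (hy : y ∈ ⁅S, S⁆) (hy1 : y ≠ 1)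
    (hg : g ∈ 𝐇(S)) (hyg : y * g ≠ 1) : τ₁ χ (y * g) = τ₁ χ y := by
  obtain ⟨τ₂, hc, hμ⟩ := h.exists_coherent_muj
  have hψ : τ₁ χ ∈ CF ⊤ := ZI.mem_CF (hL.coh.mem_ZI χ hL.mem)
  have hd := (Nml.der_self S).le
  have hP := (TypeP.sd_core h.P).left_le
  have ho : ∀ ξ ∈ seqIndD ⁅S, S⁆ S 𝐇(S) ⊥, cfdot ⊤ (τ₂ ξ) (τ₁ χ) = 0 := by
    intro ξ hξ
    rcases h.prDadeF.mem_Irr_or_eq_muj hξ with hi | ⟨j, hj, rfl⟩
    · exact h.cfdot_typeI_irr hL hc hξ hi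
    · have h1 : ∀ k, cfdot ⊤ (∑ i, eta ⊤ W₁ W₂ i k) (τ₁ χ) = 0 := fun k => by
        rw [cfdot_sum_left]
        exact Finset.sum_eq_zero fun i _ => cfdot_symm_zero (h.cfdot_typeI_eta hL hL.mem i k)
      rcases hμ j hj with e | e
      · rw [e, h1]
      · rw [e, cfdot_neg_left, h1, neg_zero]
  have key : ∀ θ ∈ Irr ⁅S, S⁆, ¬ 𝐇(S) ≤ cfker θ → ∀ θ' ∈ Irr ⁅S, S⁆, ¬ 𝐇(S) ≤ cfker θ' →
      θ' 1 * cfdot ⁅S, S⁆ θ (τ₁ χ) = θ 1 * cfdot ⁅S, S⁆ θ' (τ₁ χ) := by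
    intro θ hθ hk θ' hθ' hk'
    have m := SeqInd.ind_mem (L := S) hθ bot_le hk
    have m' := SeqInd.ind_mem (L := S) hθ' bot_le hk'
    obtain ⟨a, ha⟩ := ZI.exists_apply_one (SeqInd.isChar hd m).mem_ZI
    obtain ⟨b, hb⟩ := ZI.exists_apply_one (SeqInd.isChar hd m').mem_ZI
    have hZ := cross_mem_Z0 (mem_ZS_of_mem m) (mem_ZS_of_mem m') hb ha
    have e := congrArg (fun φ => cfdot ⊤ φ (τ₁ χ)) (hc.agree _ hZ)
    simp only [map_sub τ₂, map_smul τ₂, cfdot_sub_left, cfdot_smul_left, ho _ m, ho _ m',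
      h.ftDade_eq_ind (h.Z0_core_mem hZ), cfdot_ind_left le_top _ hψ,
      cfdot_ind_left_of_le₂ hd le_top _ hψ] at e
    rw [ind_one _ hd, ind_one _ hd] at e
    have h0 := relIndex_cast_ne_zero ⁅S, S⁆ S
    refine mul_left_cancel₀ h0 ?_
    linear_combination -e
  obtain ⟨c, hc⟩ : ∃ c : ℂ, ∀ θ ∈ Irr ⁅S, S⁆, ¬ 𝐇(S) ≤ cfker θ →
      cfdot ⁅S, S⁆ θ (τ₁ χ) = c * θ 1 := by
    by_cases hex : ∃ θ ∈ Irr ⁅S, S⁆, ¬ 𝐇(S) ≤ cfker θ
    · obtain ⟨θ', hθ', hk'⟩ := hex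
      refine ⟨cfdot ⁅S, S⁆ θ' (τ₁ χ) / θ' 1, fun θ hθ hk => ?_⟩
      have := Irr.apply_one_ne_zero hθ'
      field_simp
      linear_combination key θ hθ hk θ' hθ' hk'
    · exact ⟨0, fun θ hθ hk => absurd ⟨θ, hθ, hk⟩ hex⟩
  have := apply_mul_of_prop (f := res ⁅S, S⁆ (τ₁ χ)) (c := conj c) hP (res_mem_CF le_top hψ)
    (fun θ hθ hk => by
      rw [cfdot_res_left, ← cfdot_conj, hc θ hθ hk, map_mul, (Irr.isChar hθ).conj_apply_one])
    hy1 hg hyg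
  rwa [res_of_mem _ hy, res_of_mem _ (mul_mem hy (hP hg))] at this

/-- The analogue of Peterfalvi (12.13)-(12.16). -/
theorem typeII_char_contradiction (hL : Mx L) (hF : FrobKer L 𝐇(L)) {p : ℕ} (hp : p.Prime) {x : G}
    (hx : x ∈ 𝐇(L)) (hxp : orderOf x = p) (hCM : 𝐂[x] ≤ S) (hCL : ¬ 𝐂[x] ≤ L)
    (hp2 : p ^ 2 ≤ Nat.card 𝐇(L)) (he : 2 * 𝐇(L).relIndex L ≤ p + 1) : False := by
  have hM := h.max
  have hL1 := typeI_of_frobKer hL hF
  have hx1 : x ≠ 1 := fun e => hp.one_lt.ne (by rw [← hxp, e, orderOf_one])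
  obtain ⟨-, N, hN, hRx, hsd, -, -, ⟨hxA, hxA1⟩, hty, -⟩ :=
    support_facts hL (sharp_MF_subset_ftA0 hL ⟨hx, hx1⟩) hCL
  obtain rfl := hN.uniq S hM hCM
  have h2 := hty.resolve_left h.not_typeI
  obtain ⟨hxd, -, g, hg, hg1, hxg⟩ := h.mem_ftA.1 hxA
  rw [typeCore_of_typeII hM h2] at hg
  have hxL : x ∈ L := MF_le L hx
  have hxK : x ∉ 𝐇(S) := fun h => hxA1 (sharp_MF_subset_typeA1 hM ⟨h, hx1⟩)
  have hxu : ∀ u ∈ 𝐇(S), x * u ≠ 1 := fun u hu e =>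
    hxK (by rw [eq_inv_of_mul_eq_one_left e]; exact inv_mem hu)
  have hnc : ¬ Cj L S := fun h' => TypeP.not_frobKer h.P (frobKer_of_cj h' hF)
  obtain ⟨τ₁, hcoh⟩ := frob_coherent hL hF
  obtain ⟨χ, hχ, hχ1⟩ := exists_ref_lin hL
  have hR : RefI L τ₁ χ := ⟨hL, hL1, hcoh, hχ, hχ1⟩
  have hχi := frob_seqInd_subset hF hχ
  have dψ := hcoh.isDirr hχ hχi
  set e := 𝐇(L).relIndex L with he'
  have he3 : 3 ≤ e := by
    obtain ⟨m, hm⟩ := (mFT_odd L).of_dvd_nat (Subgroup.relIndex_dvd_card 𝐇(L) L)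
    have := hF.one_lt_relIndex
    omega
  have he3' : (3 : ℝ) ≤ e := by exact_mod_cast he3
  have hh0 := card_pos_real 𝐇(L)
  obtain ⟨a, -, hρ, nρ⟩ := exists_invDade_map_eq (ftDadeF_hyp hL) hcoh hχi hχ hχ1
  have ha : a = 0 := by
    by_contra ha
    have h2 := Dade.cfnorm_invDade_le (ftDadeF_hyp hL) dψ.mem_CF
    rw [nρ, dψ.cfnorm_eq] at h2
    have h3 : (a : ℝ) ^ 2 * ((Nat.card 𝐇(L) - 1) / e) - 2 * a ≤ e := by
      rw [← div_le_div_iff_of_pos_right hh0]; linarith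
    have h4 : (p : ℝ) ^ 2 ≤ Nat.card 𝐇(L) := by exact_mod_cast hp2
    have h5 : 2 * (e : ℝ) ≤ p + 1 := by exact_mod_cast he
    have h6 : 2 * ((p : ℝ) - 1) ≤ (Nat.card 𝐇(L) - 1) / e := by
      rw [le_div_iff₀ (by linarith)]; nlinarith
    have h7 : (a : ℝ) ≤ (a : ℝ) ^ 2 := by exact_mod_cast Int.le_self_sq a
    have h8 : (1 : ℝ) ≤ (a : ℝ) ^ 2 := by
      exact_mod_cast Int.add_one_le_of_lt (show (0 : ℤ) < a ^ 2 by positivity)
    nlinarith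
  subst ha
  have h14 : τ₁ χ (x * g) = χ x := by
    have h2 := hρ x ⟨hx, hx1⟩
    rw [Dade.invDade_eq_of_const (A := sharp 𝐇(L)) (H := supportR L) ⟨hx, hx1⟩ fun u hu =>
      h.typeI_apply_mul hR hxd hx1 (hRx ▸ hu).1 (hxu u (hRx ▸ hu).1)] at h2
    rw [h.typeI_apply_mul hR hxd hx1 hg (hxu g hg), h2, Int.cast_zero, add_zero]
  have h15 : ∀ y ∈ sharp 𝐇(S), invDade (sharp 𝐇(S)) (supportR S) (τ₁ χ) y = τ₁ χ y := by
    intro y hy
    refine Dade.invDade_eq_of_const hy fun u hu => ?_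
    rw [h.supportR_eq_bot (sharp_MF_subset_ftA0 hM hy), mem_bot] at hu
    rw [hu, mul_one]
  have hconst : ∀ y ∈ sharp 𝐇(S), τ₁ χ y = τ₁ χ g := fun y hy => by
    have := h.typeI_apply_mul hR ((TypeP.sd_core h.P).left_le hg) hg1
      (mul_mem (inv_mem hg) hy.1) (by rw [mul_inv_cancel_left]; exact hy.2)
    rwa [mul_inv_cancel_left] at this
  obtain ⟨n, hn⟩ := ZI.exists_int_of_const (A := sharp 𝐇(S)) (g := g)
    dψ.mem_ZI (fun k hk => ⟨pow_mem hg k, fun h => by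
    obtain ⟨m, hm⟩ := exists_pow_eq_self_of_coprime (hk.coprime_dvd_right (orderOf_dvd_natCard g))
    exact hg1 (by rw [← hm, Set.mem_singleton_iff.1 h, one_pow])⟩) hconst
  have hpn : (p : ℤ) ∣ n - e := by
    obtain ⟨ω₁, i₁, e₁⟩ := ZI.sub_eq_one_sub_mul dψ.mem_ZI hp (mem_top x) (mem_top g) hxp hxg
    obtain ⟨ω₂, i₂, e₂⟩ := ZI.sub_eq_one_sub_mul (Irr.mem_ZI hχi) hp hxL L.one_mem hxp (by simp)
    refine prime_dvd_of_eq_one_sub_mul hp (i₂.sub i₁) ?_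
    rw [h14, hn] at e₁
    rw [mul_one, hχ1] at e₂
    push_cast
    linear_combination e₂ - e₁
  have hk : 5 ≤ Nat.card 𝐇(S) := by
    rw [h.card_MF]
    calc 5 ≤ 3 ^ 3 := by norm_num
      _ ≤ Nat.card W₂ ^ 3 := Nat.pow_le_pow_left h.three_le_p _
      _ ≤ _ := Nat.pow_le_pow_right Nat.card_pos h.three_le_q
  have hle := cfnorm_invDade_add_le (ftDadeF_hyp hM) (ftDadeF_hyp hL) (by
    have := disjoint_ftSupp_typeA1 hL hM hnc
    rw [typeA1_of_typeI hL hL1, typeA1_def, typeCore_of_typeII hM h2] at this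
    exact this.symm) dψ.mem_CF
  have hlow : (Nat.card S : ℝ)⁻¹ * (((Nat.card 𝐇(S) : ℝ) - 1) * (n : ℝ) ^ 2) ≤
      cfnorm S (invDade (sharp 𝐇(S)) (supportR S) (τ₁ χ)) := by
    rw [cfnorm_def]
    refine mul_le_mul_of_nonneg_left (le_trans (le_of_eq ?_) (Finset.sum_le_sum_of_subset_of_nonneg
      (s := fs (sharp 𝐇(S))) (fs_subset_fs.2 fun y hy => MF_le S hy.1)
      fun _ _ _ => sq_nonneg _)) (by positivity)
    have h2 := sum_fs_diff_singleton (A := (𝐇(S) : Set G)) (one_mem _) fun _ => (n : ℝ) ^ 2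
    simp only [Finset.sum_const, card_fs_subgroup, nsmul_eq_mul] at h2
    rw [sum_fs_congr (g := fun _ => (n : ℝ) ^ 2) fun y hy => by
      rw [h15 y hy, hconst y hy, hn, Complex.norm_intCast, sq_abs]]
    simp only [Finset.sum_const, nsmul_eq_mul]
    linarith
  rw [nρ, dψ.cfnorm_eq] at hle
  have h3 : 3 * Nat.card ↥(L ⊓ S) ≤ Nat.card 𝐇(L) * e := by
    rw [he', card_mul_relIndex' (MF_le L), ← card_mul_relIndex' (inf_le_left : L ⊓ S ≤ L), mul_comm]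
    refine Nat.mul_le_mul_left _ ?_
    obtain ⟨m, hm⟩ := (mFT_odd L).of_dvd_nat (Subgroup.relIndex_dvd_card (L ⊓ S) L)
    have : (L ⊓ S).relIndex L ≠ 1 := fun e => hCL (by
      rw [← hL.eq_of_le hM.loc ((relIndex_eq_one.1 e).trans inf_le_right)]; exact hCM)
    omega
  exact final_ineq_II (n := n) he3' hh0 (k := Nat.card 𝐇(S)) (by exact_mod_cast hk)
    (card_pos_real (L ⊓ S)) (m := Nat.card S) (by exact_mod_cast hsd.card.symm)
    (by exact_mod_cast h3) (sq_le_of_dvd_sub hpn he (by omega)) (by simp at hle; linarith)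

end FTP

end Cfsg.Lib.BG.Z.PF
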