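import Cfsg.Agent.Lib.ZQ.Fpf

/-!
# S3823: the components of the prime graph inside `DD G` are cliques (final theorem of the ZB/ZQ port)
-/

set_option autoImplicit false
set_option linter.unusedVariables false
set_option linter.style.haveILetI false

namespace Cfsg.Lib.BG.Z

open Subgroup
open Cfsg.Lib.PF
open scoped Cfsg.Lib.Transfer

variable {G : Type*} [Group G] {π : Set ℕ} {p q a b : ℕ} {H M S U W₁ W₂ : Subgroup G}

theorem clique_of_closed (hp : p ∈ π) (hcl : ∀ a ∈ π, ∀ b, Adj G a b → b ∈ π)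
    (hq : ∀ a ∈ π, ∀ b ∈ π, a ≠ b → Adj G a b) (h : Relation.ReflTransGen (Adj G) p q)
    (hpq : p ≠ q) : Adj G p q := by
  refine hq p hp q ?_ hpq
  clear hpq
  induction h with
  | refl => exact hp
  | tail _ h ih => exact hcl _ ih _ h

theorem Adj.symm' (h : Adj G a b) : Adj G b a :=
  let ⟨h1, h2, h3, x, y, hx, hy, hc⟩ := h
  ⟨h2, h1, h3.symm, y, x, hy, hx, hc.symm⟩

theorem conj_comm_conj {g x y : G} (h : y * x = x * y) :
    g * y * g⁻¹ * (g * x * g⁻¹) = g * x * g⁻¹ * (g * y * g⁻¹) := by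
  calc _ = g * (y * x) * g⁻¹ := by group
    _ = _ := by rw [h]; group

theorem conj_ne_one' {g x : G} (h : x ≠ 1) : g * x * g⁻¹ ≠ 1 := by
  simpa [mul_inv_eq_iff_eq_mul] using h

variable [Finite G]

theorem Adj.exists_mem (h : Adj G a b) (hH : Hall π H ⊤) (hπ : a ∈ π) :
    ∃ x ∈ H, x ≠ 1 ∧ ∃ y : G, orderOf y = b ∧ y * x = x * y := by
  obtain ⟨ha, hb, -, x, y, hx, hy, hc⟩ := h
  haveI := Fact.mk ha
  obtain ⟨P, hP⟩ := Syl.exists a H
  obtain ⟨g, -, hg⟩ := (hP.of_Hall hH hπ).exists_conj_le (Elem.zpowers (mem_top x) hx).pgroup le_top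
  exact ⟨g * x * g⁻¹, hP.le (hg (Transfer.conj_mem_conj.2 (mem_zpowers x))),
    conj_ne_one' fun e => ha.one_lt.ne (by rw [← hx, e, orderOf_one]), g * y * g⁻¹,
    by rw [B13.orderOf_conj', hy], conj_comm_conj hc.symm⟩

theorem clique_of_nil (hn : Group.IsNilpotent H) (hH : Hall {r | r ∣ Nat.card H} H ⊤)
    (hC : ∀ x ∈ H, x ≠ 1 → ∀ y : G, (orderOf y).Prime → y * x = x * y → orderOf y ∣ Nat.card H)
    (hp : p.Prime) (hd : p ∣ Nat.card H) (h : Relation.ReflTransGen (Adj G) p q) (hpq : p ≠ q) :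
    Adj G p q := by
  refine clique_of_closed (π := {r | r.Prime ∧ r ∣ Nat.card H}) ⟨hp, hd⟩ (fun a ha b hab => ?_)
    (fun a ha b hb hab => ?_) h hpq
  · obtain ⟨x, hx, hx1, y, rfl, hc⟩ := hab.exists_mem hH ha.2
    exact ⟨hab.2.1, hC x hx hx1 y hab.2.1 hc⟩
  · obtain ⟨x, hx, hxa⟩ := exists_orderOf_prime ha.1 ha.2
    obtain ⟨y, hy, hyb⟩ := exists_orderOf_prime hb.1 hb.2
    refine ⟨ha.1, hb.1, hab, x, y, hxa, hyb, ?_⟩
    exact le_cent_iff.1 (nil_cent_of_coprime hn (zpowers_le.2 hx) (zpowers_le.2 hy) (by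
      rw [Nat.card_zpowers, Nat.card_zpowers, hxa, hyb]
      exact (Nat.coprime_primes ha.1 hb.1).2 hab)) x (mem_zpowers x) y (mem_zpowers y)

variable [Sz G]

namespace PF.FTP

variable (h : FTP S U W₁ W₂)
include h

theorem dvd_cases (hb : b.Prime) (hd : b ∣ Nat.card S) :
    b = Nat.card W₂ ∨ b ∣ Nat.card U ∨ b = Nat.card W₁ := by
  rw [h.b13_card] at hd
  rcases (Nat.Prime.dvd_mul hb).1 hd with hd | hd
  · rcases (Nat.Prime.dvd_mul hb).1 hd with hd | hd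
    · exact .inl ((Nat.prime_dvd_prime_iff_eq hb h.primes.2).1 (hb.dvd_of_dvd_pow hd))
    · exact .inr (.inl hd)
  · exact .inr (.inr ((Nat.prime_dvd_prime_iff_eq hb h.primes.1).1 hd))

theorem p_dvd : Nat.card W₂ ∣ Nat.card 𝐇(S) := card_dvd h.W₂_le'

theorem eq_of_adj (hab : Adj G (Nat.card W₂) b) : b = Nat.card W₁ := by
  obtain ⟨x, hx, hx1, y, rfl, hc⟩ := hab.exists_mem (MF_Hall_top h.max) h.p_dvd
  have hy : y ∈ S :=
    h.cent_le_of_mem_ftA0 (sharp_MF_subset_ftA0 h.max ⟨hx, hx1⟩) (mem_cent1.2 hc)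
  have hb := hab.2.1
  rcases h.dvd_cases hb (orderOf_dvd_natCard S hy) with e | e | e
  · exact absurd e.symm hab.2.2.1
  · obtain ⟨g, hg, hle⟩ := (B13.hall_U h).exists_conj_le (mmax_sol h.max) (zpowers_le.2 hy)
      (PiGrp.of_card_prime (by rwa [Nat.card_zpowers]) (by rwa [Nat.card_zpowers]))
    refine absurd (mem_bot.1 ((h.reg_U _ (hle (Transfer.conj_mem_conj.2 (mem_zpowers y)))
      (conj_ne_one' fun e => hb.one_lt.ne (by rw [e, orderOf_one]))).le
      ⟨conj_mem_of_norm ((MF_nml S).norm hg) hx, mem_cent1.2 (conj_comm_conj hc.symm)⟩))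
      (conj_ne_one' hx1)
  · exact e

theorem adj_pq : Adj G (Nat.card W₂) (Nat.card W₁) := by
  obtain ⟨x, hx, hxa⟩ := exists_orderOf_prime h.primes.2 dvd_rfl
  obtain ⟨y, hy, hyb⟩ := exists_orderOf_prime h.primes.1 dvd_rfl
  exact ⟨h.primes.2, h.primes.1, h.cycTI.card_ne.symm, x, y, hxa, hyb,
    (h.primeTI.comm₁₂ y hy x hx).symm⟩

theorem clique_p (hr : Relation.ReflTransGen (Adj G) (Nat.card W₂) q) (hpq : Nat.card W₂ ≠ q) :
    Adj G (Nat.card W₂) q := by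
  obtain ⟨T, V, hT⟩ := h.exists_pair
  refine clique_of_closed (π := {Nat.card W₂, Nat.card W₁}) (.inl rfl) ?_ ?_ hr hpq
  · rintro _ (rfl | rfl) b hab
    · exact .inr (h.eq_of_adj hab)
    · exact .inl (hT.right.eq_of_adj hab)
  · rintro _ (rfl | rfl) _ (rfl | rfl) hab
    · exact absurd rfl hab
    · exact h.adj_pq
    · exact h.adj_pq.symm'
    · exact absurd rfl hab

theorem clique_U (h2 : ¬ IsOfTypeII S) (hp : p.Prime) (hd : p ∣ Nat.card U)
    (hr : Relation.ReflTransGen (Adj G) p q) (hpq : p ≠ q) : Adj G p q := by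
  have hUd := (TypeP.sd_core h.P).right_le
  refine clique_of_nil (abelian_nil h.U_abelian) ?_ (fun x hx hx1 y hb hc => ?_) hp hd hr hpq
  · refine ((B13.hall_U h).of_le hUd (der_le S)).trans (Hall.of_coprime le_top ?_)
      fun r hr => Nat.dvd_trans hr (card_dvd hUd)
    rw [relIndex_top_right, ← h.typeCore_eq_der h2]
    exact typeCore_hall h.max
  have hy : y ∈ S := h.cent_le_of_mem_ftA0 (ftA_subset_ftA0 S (h.ftA_eq h2 ▸ ⟨hUd hx, hx1⟩))
    (mem_cent1.2 hc)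
  have hy1 : y ≠ 1 := fun e => hb.one_lt.ne (by rw [e, orderOf_one])
  rcases h.dvd_cases hb (orderOf_dvd_natCard S hy) with e | e | e
  · have : zpowers y ≤ 𝐇(S) := le_MF_of_coprime (zpowers_le.2 hy) (by
      rw [Nat.card_zpowers, e]; exact (MF_coprime S).coprime_dvd_left h.p_dvd)
    exact absurd (mem_bot.1 ((h.reg_U x hx hx1).le ⟨this (mem_zpowers y), mem_cent1.2 hc⟩)) hy1
  · exact e
  · have hW : Hall {r | r ∣ Nat.card W₁} W₁ S := Hall.of_coprime h.W₁_le' (by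
      rw [(TypeP.sd_der h.P).relIndex_right]; exact TypeP.coprime_der h.P)
    obtain ⟨g, hg, hle⟩ := hW.exists_conj_le (mmax_sol h.max) (zpowers_le.2 hy)
      (PiGrp.of_card_prime (by rwa [Nat.card_zpowers]) (by rw [Nat.card_zpowers]; exact e.dvd))
    have h3 : g * x * g⁻¹ ∈ ⁅S, S⁆ ⊓ 𝐂(W₁) := by
      refine ⟨conj_mem_of_norm ((Nml.der_self S).norm hg) (hUd hx), ?_⟩
      rw [← zpowers_eq_of_prime h.primes.1 (hle (Transfer.conj_mem_conj.2 (mem_zpowers y)))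
        (conj_ne_one' hy1), cent_zpowers]
      exact mem_cent1.2 (conj_comm_conj hc.symm)
    rw [TypeP.cent_der h.P] at h3
    have h4 := conj_mem_of_norm' ((MF_nml S).norm hg) (h.W₂_le' h3)
    refine absurd (mem_bot.1 ((TypeP.sd_core h.P).inf.le ⟨?_, hx⟩)) hx1
    simpa [mul_assoc] using h4

end PF.FTP

open PF in
/-- Main theorem of the port (owner helper3). -/
theorem DD_clique {G : Type*} [Group G] [Sz G] {p q : ℕ} (hp : p ∈ DD G)
    (h : Relation.ReflTransGen (Adj G) p q) (hpq : p ≠ q) : Adj G p q := by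
  haveI : Finite G := Sz.fin
  obtain ⟨M, hM, hd⟩ := exists_max_dvd_typeCore hp.1 hp.2.1 hp
  by_cases h1 : TypeI M
  · rw [typeCore_of_typeI hM h1] at hd
    exact clique_of_nil (MF_nil M) (MF_Hall_top hM) (fun x hx hx1 y _ hc =>
      orderOf_dvd_natCard _ (cent_le_of_typeI hM h1 hx hx1 (mem_cent1.2 hc))) hp.1 hd h hpq
  obtain ⟨U, W₁, W₂, hP⟩ := exists_FTP hM h1
  by_cases e : p = Nat.card W₂
  · subst e; exact hP.clique_p h hpq
  have hn : ¬ p ∣ Nat.card W₂ ^ Nat.card W₁ := fun h' =>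
    e ((Nat.prime_dvd_prime_iff_eq hp.1 hP.primes.2).1 (hp.1.dvd_of_dvd_pow h'))
  by_cases h2 : IsOfTypeII M
  · rw [typeCore_of_typeII hM h2, hP.card_MF] at hd
    exact absurd hd hn
  · rw [hP.typeCore_eq_der h2, hP.b13_card_der] at hd
    exact hP.clique_U h2 hp.1 (((Nat.Prime.dvd_mul hp.1).1 hd).resolve_left hn) h hpq

end Cfsg.Lib.BG.Z
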