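import Cfsg.Agent.Lib.PF.Sec8Type
import Cfsg.Agent.Lib.ZQ.Sec8Fcore
import Cfsg.Agent.Lib.PF.Sec3Omega
import Cfsg.Agent.Lib.ZB.T16_2

/-!
# Peterfalvi (8.6)-(8.13): the types of maximal subgroups (interface with B&G, Section 16)
-/

set_option autoImplicit false
set_option linter.unusedVariables false
set_option linter.unusedSectionVars false
set_option linter.style.haveILetI false

namespace Cfsg.Lib.BG.Z.PF

open Subgroup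
open Cfsg.Lib.PF
open scoped Cfsg.Lib.Transfer

variable {G : Type*} [Group G] [Finite G] [Sz G] {M N L S T U V W₁ W₂ : Subgroup G}

omit [Sz G] in
theorem FTP.U_le' (h : FTP M U W₁ W₂) : U ≤ M := (TypeP.sd_core h.P).right_le.trans (der_le M)
omit [Sz G] in
theorem FTP.W₁_le' (h : FTP M U W₁ W₂) : W₁ ≤ M := (TypeP.sd_der h.P).right_le
omit [Sz G] in
theorem FTP.W₂_le' (h : FTP M U W₁ W₂) : W₂ ≤ 𝐇(M) := TypeP.W₂_le h.P
theorem FTP.W₁_D (h : FTP M U W₁ W₂) : PiGrp (DD G) W₁ := kappa_piD (of_typePWith h.max h.P).2.1.pi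
omit [Finite G] [Sz G] in
theorem FtSupports.mx (h : FtSupports L M) : Mx L := h.1

macro_rules
  | `(tactic| dd) => `(tactic| first
    | with_reducible assumption
    | with_reducible exact Mx.loc (by with_reducible assumption)
    | with_reducible exact Mx.loc (FTP.max (by with_reducible assumption))
    | with_reducible exact Mx.loc (FTP.max (PCore.ftp (by with_reducible assumption)))
    | with_reducible exact sigma_D (by with_reducible assumption)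
    | (saturate 3 [FTP.max, PCore.ftp, FTPair.left, FTPair.right, FTP.U_le', FTP.W₁_le', FTP.W₂_le', FTP.W₁_D,
        FtSupports.mx]; dd_fwd; dd_bwd)
    | (dd_fwd; dd_bwd)
    | (dd_fwd; saturate 2 [tau2_pure]; dd_fwd; dd_bwd))

/-! ### The five types -/

theorem typeI_iff (hM : Mx M) : TypeI M ↔ TypeF M := not_isOfTypeP_iff hM

theorem type_cases (hM : Mx M) :
    TypeI M ∨ IsOfTypeII M ∨ IsOfTypeIII M ∨ IsOfTypeIV M ∨ IsOfTypeV M := by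
  rw [typeI_iff hM, isOfTypeII_iff hM, ← or_assoc (a := IsOfTypeIII M), isOfTypeIII_or_IV_iff hM,
    isOfTypeV_iff hM]
  rcases mmax_type_cases hM with h | h | h <;> tauto

/-- A maximal subgroup of type I is of type `F`. -/
theorem typeF_of_typeI (hM : Mx M) (h : TypeI M) : IsOfTypeF M :=
  ((typeI_iff hM).1 h).isOfTypeF

theorem max_MF_ne_bot (hM : Mx M) : 𝐇(M) ≠ ⊥ := Fcore_ne_bot hM

theorem norm_MF_eq (hM : Mx M) : 𝐍(𝐇(M)) = M := norm_Fcore_eq hM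

theorem MF_le_typeCore (hM : Mx M) : 𝐇(M) ≤ typeCore M :=
  typeCore_eq_Msigma hM ▸ Fcore_sub_Msigma hM

theorem typeCore_le_der (hM : Mx M) : typeCore M ≤ ⁅M, M⁆ :=
  typeCore_eq_Msigma hM ▸ Msigma_der1 hM

omit [Finite G] [Sz G] in
theorem typeCore_nml (M : Subgroup G) : Nml (typeCore M) M := by
  rw [typeCore]
  split_ifs
  · exact Nml.der_self M
  · exact Fcore_nml M

theorem typeCore_eq_sigmaCore (hM : Mx M) : typeCore M = sigmaCore M := typeCore_eq_Msigma hM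

theorem typeCore_of_typeI (hM : Mx M) (h : TypeI M) : typeCore M = 𝐇(M) :=
  (typeCore_eq_Msigma hM).trans (Fcore_eq_of_notP1 (Or.inl ((typeI_iff hM).1 h))).symm

theorem typeCore_of_typeII (hM : Mx M) (h : IsOfTypeII M) : typeCore M = 𝐇(M) :=
  (typeCore_eq_Msigma hM).trans (Fcore_eq_of_notP1 (Or.inr ((isOfTypeII_iff hM).1 h))).symm

omit [Finite G] [Sz G] in
theorem not_typeI_of_typeII (h : IsOfTypeII M) : ¬ TypeI M :=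
  let ⟨W₁, U, W₂, h, _⟩ := h
  fun h' => h' ⟨W₁, U, W₂, h⟩

theorem not_typeII_of_typeIII (hM : Mx M) (h : IsOfTypeIII M) : ¬ IsOfTypeII M := fun h' =>
  (isOfTypeIII_or_IV_iff hM).1 (Or.inl h) (Fcore_eq_of_notP1 (Or.inr ((isOfTypeII_iff hM).1 h')))

/-- A maximal subgroup that is a Frobenius group with kernel `M_F` is of type I
(Coq `FT_Frobenius_type1`). -/
theorem typeI_of_frobKer (hM : Mx M) (h : FrobKer M 𝐇(M)) : TypeI M :=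
  let _ := hM
  fun ⟨_, _, _, h'⟩ => TypeP.not_frobKer h' h

namespace FTP

variable (h : FTP M U W₁ W₂)
include h

theorem bgP : TypeP M := (of_typePWith h.max h.P).1

theorem hall : Hall (kappa M) W₁ M := (of_typePWith h.max h.P).2.1

theorem Kstar_eq : sigmaCore M ⊓ 𝐂(W₁) = W₂ := (of_typePWith h.max h.P).2.2

theorem exists_dual : ∃ T, S14.Dual M W₁ T W₂ := h.Kstar_eq ▸ S14.exists_dual h.bgP h.hall

theorem P1_of_not_typeII (h2 : ¬ IsOfTypeII M) : TypeP1 M :=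
  by_contra fun h1 => h2 ((isOfTypeII_iff h.max).2 ⟨h.bgP, h1⟩)

theorem type_cases : IsOfTypeII M ∨ IsOfTypeIII M ∨ IsOfTypeIV M ∨ IsOfTypeV M :=
  (PF.type_cases h.max).resolve_left h.not_typeI

theorem typeV_iff : IsOfTypeV M ↔ U = ⊥ := by
  rw [isOfTypeV_iff h.max, typePWith_eq_bot_iff h.max h.P]

/-- Coq `compl_of_typeII_IV`. -/
theorem typeII_IV (hV : ¬ IsOfTypeV M) :
    U ≠ ⊥ ∧ (Nat.card W₁).Prime ∧ NormedTI (sharp 𝐅(M)) ⊤ M := by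
  refine ⟨mt h.typeV_iff.2 hV, ?_⟩
  by_cases h1 : TypeP1 M
  · have hne : 𝐇(M) ≠ sigmaCore M := fun e => hV ((isOfTypeV_iff h.max).2 ⟨h1, e⟩)
    exact ⟨(typeIII_IV_facts h.max hne h.P).2.1, normedTI_of_BG (Fitting_TI_of_ne h.max hne)⟩
  · have h2 : TypeP2 M := ⟨h.bgP, h1⟩
    exact ⟨(h2.typeII_facts h.P).2.1, normedTI_of_BG (Fitting_TI_of_P2 h2)⟩

/-- Coq `compl_of_typeII`. -/
theorem typeII (h2 : IsOfTypeII M) : ¬ IsOfTypeV M ∧ IsMulCommutative U ∧ ¬ (𝐍(U) ≤ M ∧ PiGrp (DD G) U) ∧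
    IsOfTypeF ↥⁅M, M⁆ ∧ 𝐇(⁅M, M⁆) = 𝐇(M) :=
  let ⟨a, _, _, b⟩ := ((isOfTypeII_iff h.max).1 h2).typeII_facts h.P
  ⟨mt h.typeV_iff.1 a, b⟩

/-- Types III and IV. -/
theorem norm_le_of_not_typeII (h2 : ¬ IsOfTypeII M) (hV : ¬ IsOfTypeV M) : 𝐍(U) ≤ M :=
  typePWith_norm_le (h.P1_of_not_typeII h2) h.P (mt h.typeV_iff.2 hV)

theorem typeIII_iff : IsOfTypeIII M ↔ ¬ IsOfTypeII M ∧ ¬ IsOfTypeV M ∧ IsMulCommutative U := by
  constructor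
  · intro h3
    refine ⟨not_typeII_of_typeIII h.max h3, fun h5 => (isOfTypeIII_or_IV_iff h.max).1 (Or.inl h3)
      ((isOfTypeV_iff h.max).1 h5).2, ?_⟩
    obtain ⟨_, _, _, h', -, -, -, hab, -⟩ := h3
    obtain ⟨x, -, rfl, -⟩ := TypeP.exists_conj h.P (mmax_sol h.max) h'
    exact (abelian_conj x).1 hab
  · rintro ⟨h2, h5, hab⟩
    obtain ⟨a, b, c, d⟩ := typeIII_IV_facts h.max
      (fun e => h5 ((isOfTypeV_iff h.max).2 ⟨h.P1_of_not_typeII h2, e⟩)) h.P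
    exact ⟨W₁, U, W₂, h.P, a, b, c, hab, d⟩

/-- Coq `compl_of_typeV`. -/
theorem typeV (h5 : IsOfTypeV M) : NormedTI (sharp 𝐇(M)) ⊤ M ∨
    (∃ p : ℕ, p.Prime ∧ p ∣ Nat.card 𝐇(M) ∧ Nat.card W₁ ∣ p - 1 ∧ IsCyclic 𝐎({p}ᶜ, 𝐇(M))) ∨
    (∃ p : ℕ, p.Prime ∧ Nat.card 𝐎({p}, 𝐇(M)) = p ^ 3 ∧ Nat.card W₁ ∣ p + 1 ∧
      IsCyclic 𝐎({p}ᶜ, 𝐇(M))) := by
  obtain ⟨h1, e⟩ := (isOfTypeV_iff h.max).1 h5
  rcases typeV_facts h1 e h.hall with h | h | ⟨p, hp, -, h⟩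
  · exact Or.inl (normedTI_of_BG h)
  · exact Or.inr (Or.inl h)
  · exact Or.inr (Or.inr ⟨p, hp, h⟩)

theorem typeCore_eq_der (h2 : ¬ IsOfTypeII M) : typeCore M = ⁅M, M⁆ :=
  (typeCore_eq_Msigma h.max).trans (h.P1_of_not_typeII h2).der_eq

theorem typeA1_eq (h2 : ¬ IsOfTypeII M) : typeA1 M = sharp ⁅M, M⁆ := by
  rw [typeA1, h.typeCore_eq_der h2]

theorem ftA_eq (h2 : ¬ IsOfTypeII M) : ftA M = sharp ⁅M, M⁆ := by
  ext a
  rw [mem_ftA_of_typeP h.typeP, h.typeCore_eq_der h2]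
  exact ⟨fun h => ⟨h.1, h.2.1⟩, fun h => ⟨h.1, h.2, a, h.1, h.2, rfl⟩⟩

omit [Finite G] [Sz G] in
theorem mem_ftA {a : G} : a ∈ ftA M ↔
    a ∈ ⁅M, M⁆ ∧ a ≠ 1 ∧ ∃ x ∈ typeCore M, x ≠ 1 ∧ a * x = x * a :=
  mem_ftA_of_typeP h.typeP

/-- Coq `FTtypeP_supp0_def`. -/
theorem ftA0_eq : ftA0 M = ftA M ∪ classSupp (cycV W₁ W₂) M := by
  rw [ftA0]
  congr 1
  ext v
  constructor
  · rintro ⟨_, _, _, h', m, hm, w, hw, h1, h2, rfl⟩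
    obtain ⟨x, hx, -, rfl, rfl⟩ := TypeP.exists_conj h.P (mmax_sol h.max) h'
    rw [← S14.conj_sup] at hw
    exact ⟨x⁻¹ * w * x, mem_cycV.2 ⟨S14.mem_conj.1 hw, mt S14.mem_conj.2 h1, mt S14.mem_conj.2 h2⟩,
      m * x, M.mul_mem hm hx, by group⟩
  · rintro ⟨w, hw, m, hm, rfl⟩
    obtain ⟨hw, h1, h2⟩ := mem_cycV.1 hw
    exact ⟨W₁, U, W₂, h.P, m, hm, w, hw, h1, h2, rfl⟩

theorem classSupp_eq : classSupp (cycV W₁ W₂) M = clsupp (zhat W₁ (sigmaCore M ⊓ 𝐂(W₁))) M := by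
  rw [h.Kstar_eq]
  ext v
  exact ⟨fun ⟨a, ha, g, hg, e⟩ => ⟨g, hg, a, ha, e⟩, fun ⟨g, hg, a, ha, e⟩ => ⟨a, ha, g, hg, e⟩⟩

/-- Peterfalvi (8.5)(c). -/
theorem cycTI : CycTI ⊤ W₁ W₂ := CycTI.of_isSelfNormalizingCyclic h.P.selfNormalizing (mFT_odd _)

/-- Coq `FT_primeTI_hyp`. -/
theorem primeTI : PrimeTI M ⁅M, M⁆ W₁ W₂ :=
  ⟨h.P.W₁_compl, (Nml.der_self M).norm, h.P.W₁_ne, h.P.W₁_cyclic, TypeP.coprime_der h.P,
    h.P.selfNormalizing.2.1, cyclic_of_le h.cycTI.cyclic le_sup_right, h.P.W₂_centralizer, mFT_odd _⟩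

/-- Coq `FTtypeP_pair_witness`. -/
theorem exists_pair : ∃ T V, FTPair M T U V W₁ W₂ := by
  obtain ⟨T, hT⟩ := h.exists_dual
  obtain ⟨V, hV⟩ := hT.Ps.exists_typePWith hT.halls
  rw [hT.eqs] at hV
  refine ⟨T, V, h, ⟨hT.Ps.1, hV⟩, hT.inf_eq, ?_, fun H hH => ?_⟩
  · rw [isOfTypeII_iff h.max, isOfTypeII_iff hT.Ps.1]; exact hT.P2
  · rw [typeI_iff hH]; exact (typeF_or_typeP hH).imp_right hT.trans

/-- Coq `FTtype345_core_prime`. -/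
theorem W₂_prime_of_not_typeII (h2 : ¬ IsOfTypeII M) : (Nat.card W₂).Prime :=
  h.Kstar_eq ▸ (P1type_structure (h.P1_of_not_typeII h2) h.hall).2.2.1

end FTP

theorem FTPair.dual (h : FTPair S T U V W₁ W₂) : S14.Dual S W₁ T W₂ :=
  ⟨h.left.bgP, h.left.hall, h.right.bgP, h.right.hall, h.left.Kstar_eq, h.right.Kstar_eq⟩

theorem FTPair.not_cj (h : FTPair S T U V W₁ W₂) : ¬ Cj S T := h.dual.not_cj

/-- Peterfalvi (8.8). -/
theorem typeI_or_pair : (∀ M : Subgroup G, Mx M → TypeI M) ∨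
    ∃ S T U V W₁ W₂ : Subgroup G, FTPair S T U V W₁ W₂ := by
  by_cases h : ∀ M : Subgroup G, Mx M → TypeI M
  · exact Or.inl h
  push Not at h
  obtain ⟨S, hS, h⟩ := h
  obtain ⟨U, W₁, W₂, h⟩ := exists_FTP hS h
  obtain ⟨T, V, h⟩ := h.exists_pair
  exact Or.inr ⟨S, T, U, V, W₁, W₂, h⟩

/-- The trichotomy (8.3) for a maximal subgroup of type I. -/
theorem typeI_cases (hM : Mx M) (h : TypeI M) : NormedTI (sharp 𝐇(M)) ⊤ M ∨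
    (IsMulCommutative 𝐇(M) ∧ rank 𝐇(M) = 2) ∨
    ((∀ p : ℕ, p.Prime → p ∣ Nat.card 𝐇(M) → ∀ m ∈ M, m ^ (p - 1) ∈ 𝐇(M)) ∧
      ∃ p : ℕ, p.Prime ∧ p ∣ Nat.card 𝐇(M) ∧ IsCyclic 𝐎({p}ᶜ, 𝐇(M))) :=
  ((typeI_iff hM).1 h).cases.imp_left normedTI_of_BG

/-! ### The sets `A₁(M) ⊆ A(M) ⊆ A₀(M)` -/

omit [Finite G] [Sz G] in
theorem typeA1_def (M : Subgroup G) : typeA1 M = sharp (typeCore M) := rfl

theorem typeA1_eq_sharp_Msigma (hM : Mx M) : typeA1 M = sharp (sigmaCore M) := by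
  rw [typeA1_def, typeCore_eq_Msigma hM]

theorem ftA_eq_hatA (hM : Mx M) : ftA M = hatA M := by
  ext a
  by_cases h : TypeI M
  · have hF := (typeI_iff hM).1 h
    rw [mem_ftA_of_typeI h, Fcore_eq_of_notP1 (Or.inl hF)]
    exact ⟨fun h => ⟨⟨h.1, h.2.2⟩, h.2.1, hF.piElt a⟩, fun h => ⟨h.1.1, h.2.1, h.1.2⟩⟩
  · have hP : IsOfTypeP M := not_not.1 h
    rw [mem_ftA_of_typeP hP, typeCore_eq_Msigma hM, ((isOfTypeP_iff hM).1 hP).mem_der_iff]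
    exact ⟨fun h => ⟨⟨h.1.1, h.2.2⟩, h.2.1, h.1.2⟩, fun h => ⟨⟨h.1.1, h.2.2⟩, h.2.1, h.1.2⟩⟩

theorem FTP.ftA0_eq_hatA (h : FTP M U W₁ W₂) :
    ftA0 M = hatA M ∪ clsupp (zhat W₁ (sigmaCore M ⊓ 𝐂(W₁))) M := by
  rw [h.ftA0_eq, ftA_eq_hatA h.max, h.classSupp_eq]

theorem ftA0_subset_sigmaHat (hM : Mx M) : ftA0 M ⊆ sigmaHat M := by
  by_cases h : TypeI M
  · rw [ftA0_of_typeI h, ftA_eq_hatA hM]; exact fun _ h => h.1
  · obtain ⟨U, W₁, W₂, h⟩ := exists_FTP hM h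
    rw [h.ftA0_eq_hatA]
    rintro a (ha | ha)
    · exact ha.1
    · exact (h.bgP.clsupp_zhat_facts h.hall ha).1

/-- Peterfalvi (8.13)(a), for `X = A₀(M)`. -/
theorem ftA0_tame (hM : Mx M) {x g : G} (hx : x ∈ ftA0 M) (hg : g * x * g⁻¹ ∈ ftA0 M) :
    ∃ m ∈ M, m * x * m⁻¹ = g * x * g⁻¹ := by
  by_cases h : TypeI M
  · rw [ftA0_of_typeI h, ftA_eq_hatA hM] at hx hg
    exact hatA_tame hM hx hg
  · obtain ⟨U, W₁, W₂, h⟩ := exists_FTP hM h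
    rw [h.ftA0_eq_hatA] at hx hg
    exact h.bgP.hatA0_tame h.hall hx hg

/-- The centralizer of an element of `A₀(M)` outside `A₁(M)` lies in `M`. -/
theorem cent1_le_of_not_mem_typeA1 (hM : Mx M) {x : G} (hx : x ∈ ftA0 M) (h1 : x ∉ typeA1 M) :
    𝐂[x] ≤ M := by
  have key : x ∈ hatA M → 𝐂[x] ≤ M := fun hx =>
    hatA_cent_le hM hx fun hs => h1 (typeA1_eq_sharp_Msigma hM ▸ ⟨hs, hx.2.1⟩)
  by_cases h : TypeI M
  · exact key (by rwa [ftA0_of_typeI h, ftA_eq_hatA hM] at hx)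
  · obtain ⟨U, W₁, W₂, h⟩ := exists_FTP hM h
    rw [h.ftA0_eq_hatA] at hx
    exact hx.elim key (h.bgP.clsupp_zhat_cent_le h.hall)

theorem typeA1_of_typeI (hM : Mx M) (h : TypeI M) : typeA1 M = sharp 𝐇(M) := by
  rw [typeA1_def, typeCore_of_typeI hM h]

/-- Coq `FTsupp_Frobenius`. -/
theorem ftA_of_frobKer (hM : Mx M) (h : FrobKer M 𝐇(M)) : ftA M = sharp 𝐇(M) := by
  ext a
  rw [mem_ftA_of_typeI (typeI_of_frobKer hM h)]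
  exact ⟨fun ⟨a, b, x, c, d, e⟩ => ⟨h.cent x c d _ a e, b⟩, fun h => ⟨MF_le M h.1, h.2, a, h.1, h.2, rfl⟩⟩

theorem sharp_MF_subset_typeA1 (hM : Mx M) : sharp 𝐇(M) ⊆ typeA1 M :=
  fun _ h => ⟨MF_le_typeCore hM h.1, h.2⟩

theorem typeA1_subset_ftA (hM : Mx M) : typeA1 M ⊆ ftA M := by
  rw [typeA1_eq_sharp_Msigma hM, ftA_eq_hatA hM]
  exact fun _ h => mem_hatA_of_mem_Msigma h.1 h.2

omit [Finite G] [Sz G] in
theorem ftA0_subset (M : Subgroup G) : ftA0 M ⊆ sharp M := by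
  rintro a (ha | ⟨W₁, U, W₂, h, m, hm, w, hw, h1, -, rfl⟩)
  · by_cases h : TypeI M
    · exact ⟨((mem_ftA_of_typeI h).1 ha).1, ((mem_ftA_of_typeI h).1 ha).2.1⟩
    · have := (mem_ftA_of_typeP (not_not.1 h)).1 ha
      exact ⟨der_le M this.1, this.2.1⟩
  · exact ⟨M.mul_mem (M.mul_mem hm (TypeP.sup_le h hw)) (M.inv_mem hm),
      S14.conj_ne_one (fun e : w = 1 => h1 (e ▸ W₁.one_mem)) m⟩

/-- Coq `Fitting_sub_FTsupp`. -/
theorem sharp_Fitting_subset_ftA (hM : Mx M) : sharp 𝐅(M) ⊆ ftA M := by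
  rw [ftA_eq_hatA hM]
  exact fun _ h => Fitting_mem_hatA hM h.1 h.2

/-! ### (8.11)-(8.13) -/

/-- Peterfalvi (8.11). -/
theorem MF_Hall_top (hM : Mx M) : Hall {q | q ∣ Nat.card 𝐇(M)} 𝐇(M) ⊤ := by
  refine (((Fcore_Hall M).of_le (Fcore_sub_Msigma hM) (Msigma_le M)).trans_idx le_top ?_)
  exact fun q hq hd h => (Msigma_Hall_G hM).not_dvd hq
    ((Msigma_pi M).mem hq (Dvd.dvd.trans h (card_dvd (Fcore_sub_Msigma hM)))) hd

theorem MF_hall (hM : Mx M) : (Nat.card 𝐇(M)).Coprime 𝐇(M).index :=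
  relIndex_top_right 𝐇(M) ▸ (MF_Hall_top hM).coprime

theorem typeCore_hall (hM : Mx M) :
    (Nat.card (typeCore M)).Coprime (typeCore M).index := by
  rw [typeCore_eq_Msigma hM]
  exact relIndex_top_right (sigmaCore M) ▸ (Msigma_Hall_G hM).coprime

theorem norm_sylow_typeCore_le (hM : Mx M) {p : ℕ} (hp : p.Prime) {P : Subgroup G}
    (hP : Syl p P (typeCore M)) (h1 : P ≠ ⊥) : 𝐍(P) ≤ M :=
  haveI := Fact.mk hp
  norm_sylow_Msigma_le hM (typeCore_eq_Msigma hM ▸ hP) h1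

/-- An element whose order only involves primes dividing `|M_F|` is conjugate into `M_F`. -/
theorem exists_conj_mem_MF (hM : Mx M) {p : ℕ} (hp : p.Prime) (hd : p ∣ Nat.card 𝐇(M))
    {P : Subgroup G} (hP : IsPGroup p P) : ∃ g : G, g ⋆ P ≤ 𝐇(M) := by
  haveI := Fact.mk hp
  obtain ⟨Q, hQ⟩ := Syl.exists p 𝐇(M)
  obtain ⟨g, -, h⟩ := (hQ.of_Hall (MF_Hall_top hM) hd).exists_conj_le hP le_top
  exact ⟨g, h.trans hQ.le⟩

theorem exists_conj_le_typeCore (hM : Mx M) {p : ℕ} (hp : p.Prime)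
    (hd : p ∣ Nat.card (typeCore M)) {P : Subgroup G} (hP : IsPGroup p P) :
    ∃ g : G, g ⋆ P ≤ typeCore M := by
  haveI := Fact.mk hp
  rw [typeCore_eq_Msigma hM] at hd ⊢
  obtain ⟨Q, hQ⟩ := Syl.exists p (sigmaCore M)
  obtain ⟨g, -, h⟩ := (hQ.of_Hall (Msigma_Hall_G hM) ((Msigma_pi M).mem hp hd)).exists_conj_le hP le_top
  exact ⟨g, h.trans hQ.le⟩

theorem exists_kappaCompl_of_typeI_II (hM : Mx M)
    (hU : (TypeI M ∧ SD 𝐇(M) U M) ∨ (IsOfTypeII M ∧ SD 𝐇(M) U ⁅M, M⁆)) :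
    𝐇(M) = sigmaCore M ∧ ∃ K, KappaCompl M U K := by
  rcases hU with ⟨h, hU⟩ | ⟨h, hU⟩
  · have hF := (typeI_iff hM).1 h
    have e := Fcore_eq_of_notP1 (Or.inl hF)
    exact ⟨e, ⊥, hF.kappaCompl (sigma_compl_Hall hM (e ▸ hU))⟩
  · have hP := (isOfTypeII_iff hM).1 h
    have e := Fcore_eq_of_notP1 (Or.inr hP)
    exact ⟨e, exists_kappaCompl_of_hall hM (hP.hall_of_sd (e ▸ hU))⟩

/-- Peterfalvi (8.12)(a,b). -/
theorem typeI_II_facts (hM : Mx M)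
    (hU : (TypeI M ∧ SD 𝐇(M) U M) ∨ (IsOfTypeII M ∧ SD 𝐇(M) U ⁅M, M⁆)) :
    (∀ (p : ℕ) (P : Subgroup G), p.Prime → IsPGroup p P → P ≤ U → IsMulCommutative P ∧ rk p P ≤ 2) ∧
    ∀ X : Set G, X ⊆ sharp U → X.Nonempty → 𝐇(M) ⊓ centralizer X ≠ ⊥ →
      UniqMax (centralizer X) M := by
  obtain ⟨e, K, h⟩ := exists_kappaCompl_of_typeI_II hM hU
  refine ⟨fun p P hp hP hle => ?_, fun X hX hne hc => h.uniqMax_cent_set hM hX hne (e ▸ hc)⟩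
  haveI := Fact.mk hp
  exact sigma'_pgroup_facts hM hP (hle.trans h.hallU.le) (h.sigma'.of_le hle)

/-- Peterfalvi (8.12)(c). -/
theorem normedTI_ftA_diff (hM : Mx M) (h : TypeI M ∨ IsOfTypeII M)
    (hne : (ftA M \ typeA1 M).Nonempty) : NormedTI (ftA M \ typeA1 M) ⊤ M := by
  have e : ftA M \ typeA1 M = hatA M \ (sigmaCore M : Set G) := by
    rw [ftA_eq_hatA hM, typeA1_eq_sharp_Msigma hM]
    ext a
    exact ⟨fun h => ⟨h.1, fun h' => h.2 ⟨h', h.1.2.1⟩⟩, fun h => ⟨h.1, fun h' => h.2 h'.1⟩⟩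
  have _ := h
  rw [e] at hne ⊢
  exact ⟨hne, le_top, fun a ha g _ => hatA_diff_conj_iff hM ha g⟩

/-- Peterfalvi (8.13)(b,c), for `X = A₀(M)`. -/
theorem support_facts (hM : Mx M) {x : G} (hx : x ∈ ftA0 M) (hc : ¬ 𝐂[x] ≤ M) :
    x ∈ typeA1 M ∧ ∃ L, UniqMax 𝐂[x] L ∧ supportR M x = 𝐇(L) ⊓ 𝐂[x] ∧
      SD 𝐇(L) (M ⊓ L) L ∧ SD (𝐇(L) ⊓ 𝐂[x]) (M ⊓ 𝐂[x]) 𝐂[x] ∧
      (∀ y ∈ ftA0 M, (Nat.card 𝐇(L)).Coprime (Nat.card ↥(M ⊓ 𝐂[y]))) ∧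
      (x ∈ ftA L ∧ x ∉ typeA1 L) ∧ (TypeI L ∨ IsOfTypeII L) ∧
      (IsOfTypeII L → FrobKer M 𝐇(M)) := by
  have h1 : x ∈ typeA1 M := by_contra fun h => hc (cent1_le_of_not_mem_typeA1 hM hx h)
  have h1' : x ∈ sharp (sigmaCore M) := typeA1_eq_sharp_Msigma hM ▸ h1
  obtain ⟨L, hu, e, -, a, b, c, d, ⟨f, g⟩, hT, hF⟩ := signalizer_facts hM h1'.1 h1'.2 hc
  refine ⟨h1, L, hu, e ▸ a, e ▸ b, e ▸ c,
    fun y hy => e ▸ d y (ftA0_subset_sigmaHat hM hy) (ftA0_subset M hy).2,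
    ⟨ftA_eq_hatA hu.max ▸ f, fun h => g (typeA1_eq_sharp_Msigma hu.max ▸ h :).1⟩, ?_, fun h2 => ?_⟩
  · rwa [typeI_iff hu.max, isOfTypeII_iff hu.max]
  · obtain ⟨hF, E, -, hE⟩ := hF fun h => h.not_typeP ((isOfTypeII_iff hu.max).1 h2).1
    exact frobKer_of_frob (Fcore_eq_of_notP1 (Or.inl hF) ▸ hE)

end Cfsg.Lib.BG.Z.PF
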