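import Cfsg.Agent.Lib.PF.Sec8Dade
import Cfsg.Agent.Lib.ZQ.Sec8Type
import Cfsg.Agent.Lib.PF.Sec5Dade
import Cfsg.Agent.Lib.ZB.T14_9
import Cfsg.Agent.Lib.ZB.T15_3

/-!
# Peterfalvi (8.14)-(8.18): the Dade isometries of a maximal subgroup
-/

set_option autoImplicit false
set_option linter.unusedVariables false

namespace Cfsg.Lib.BG.Z.PF

open Subgroup
open Cfsg.Lib.PF
open scoped Cfsg.Lib.Transfer

variable {G : Type*} [Group G] [Finite G] [Sz G] {M N L S T U V W₁ W₂ : Subgroup G}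
  {α : G → ℂ}

omit [Finite G] [Sz G] in
theorem conj_mem_ftA0_of_mem {g x : G} (hg : g ∈ M) (hx : x ∈ ftA0 M) : g * x * g⁻¹ ∈ ftA0 M :=
  conj_eq_of_mem hg ▸ (conj_mem_ftA0 (g := g)).2 hx

omit [Finite G] [Sz G] in
theorem conj_mem_ftA_of_mem {g x : G} (hg : g ∈ M) (hx : x ∈ ftA M) : g * x * g⁻¹ ∈ ftA M :=
  conj_eq_of_mem hg ▸ (conj_mem_ftA (g := g)).2 hx

omit [Finite G] [Sz G] in
theorem conj_mem_typeA1_of_mem {g x : G} (hg : g ∈ M) (hx : x ∈ typeA1 M) : g * x * g⁻¹ ∈ typeA1 M :=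
  conj_eq_of_mem hg ▸ (conj_mem_typeA1 (g := g)).2 hx

omit [Finite G] [Sz G] in
theorem pow_mem_ftA {x : G} {n : ℕ} (hx : x ∈ ftA M) (h1 : x ^ n ≠ 1) : x ^ n ∈ ftA M := by
  by_cases h : IsOfTypeP M
  · rw [mem_ftA_of_typeP h] at hx ⊢
    obtain ⟨h2, -, y, hy, hy1, e⟩ := hx
    exact ⟨pow_mem h2 n, h1, y, hy, hy1, Commute.pow_left e n⟩
  · rw [mem_ftA_of_typeI h] at hx ⊢
    obtain ⟨h2, -, y, hy, hy1, e⟩ := hx
    exact ⟨pow_mem h2 n, h1, y, hy, hy1, Commute.pow_left e n⟩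

/-- A conjugate in `M` of an element of `M_s` lies in `M_s`. -/
theorem conj_mem_typeCore (hM : Mx M) {g x : G} (hx : x ∈ typeCore M) (hg : g * x * g⁻¹ ∈ M) :
    g * x * g⁻¹ ∈ typeCore M := by
  rw [typeCore_eq_sigmaCore hM] at hx ⊢
  exact S14.mem_Ms hM hg (((Msigma_pi M).elt hx).conj g)

/-- `A₀(M) \ A₁(M)` is a TI-subset of `G`. -/
theorem mem_of_conj_mem_ftA0 (hM : Mx M) {g x : G} (hx : x ∈ ftA0 M) (hx1 : x ∉ typeA1 M)
    (hg : g * x * g⁻¹ ∈ ftA0 M) : g ∈ M := by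
  have hg1 : g * x * g⁻¹ ∉ typeA1 M := fun h => hx1 ⟨by
    simpa [mul_assoc] using conj_mem_typeCore (g := g⁻¹) hM h.1 (by simpa [mul_assoc] using (ftA0_subset M hx).1),
    (ftA0_subset M hx).2⟩
  have key : TypeI M ∨ IsOfTypeII M → x ∈ ftA M → g * x * g⁻¹ ∈ ftA M → g ∈ M := fun h h1 h2 =>
    ((normedTI_ftA_diff hM h ⟨x, h1, hx1⟩).conj_mem_iff x ⟨h1, hx1⟩ g (mem_top g)).1 ⟨h2, hg1⟩
  by_cases hI : TypeI M
  · rw [ftA0_of_typeI hI] at hx hg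
    exact key (Or.inl hI) hx hg
  obtain ⟨U, W₁, W₂, h⟩ := exists_FTP hM hI
  have hxM := (ftA0_subset M hx).1
  have hgM := (ftA0_subset M hg).1
  rw [h.ftA0_eq] at hx hg
  by_cases hd : x ∈ ⁅M, M⁆
  · have h1 := hx.resolve_right fun e => TypeP.not_mem_der_of_mem_classSupp h.P e hd
    have h2 := hg.resolve_right fun e => TypeP.not_mem_der_of_mem_classSupp h.P e (TypeP.conj_mem_der h.P hd hgM)
    by_cases hII : IsOfTypeII M
    · exact key (Or.inr hII) h1 h2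
    · exact absurd (by rwa [h.typeA1_eq hII, ← h.ftA_eq hII]) hx1
  · obtain ⟨v, hv, m, hm, rfl⟩ := hx.resolve_left fun e => hd (h.mem_ftA.1 e).1
    obtain ⟨w, hw, n, hn, e⟩ := hg.resolve_left fun e => hd (by
      simpa [mul_assoc] using TypeP.conj_mem_der (g := g⁻¹) h.P (h.mem_ftA.1 e).1 (by simpa [mul_assoc] using hxM))
    have h1 := TypeP.sup_le h.P (h.cycTI.ti v hv (n⁻¹ * g * m) (mem_top _) (by
      rw [show n⁻¹ * g * m * v * (n⁻¹ * g * m)⁻¹ = n⁻¹ * (g * (m * v * m⁻¹) * g⁻¹) * n by group, e]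
      simpa [mul_assoc] using hw))
    rwa [mul_mem_cancel_right hm, mul_mem_cancel_left (M.inv_mem hn)] at h1

/-- Peterfalvi (8.13)(a). -/
theorem ftA0_fusion (hM : Mx M) {g x : G} (hx : x ∈ ftA0 M) (hg : g * x * g⁻¹ ∈ ftA0 M) :
    ∃ m ∈ M, m * x * m⁻¹ = g * x * g⁻¹ := by
  by_cases h : x ∈ typeA1 M
  · exact Msigma_tame hM (typeCore_eq_sigmaCore hM ▸ h.1)
      (typeCore_eq_sigmaCore hM ▸ conj_mem_typeCore hM h.1 (ftA0_subset M hg).1)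
  · exact ⟨g, mem_of_conj_mem_ftA0 hM hx h hg, rfl⟩

theorem ftSupp_typeA1_eq (hM : Mx M) : ftSupp M (typeA1 M) = clsupp (sigCover M) ⊤ := by
  rw [← tildeOf_eq, ← S14.tildeOf_eq hM, typeA1, typeCore_eq_sigmaCore hM]

theorem not_typeP_of_typeI (h : TypeI M) : ¬ Z.TypeP M := fun hP => by
  have hM := hP.1
  obtain ⟨p, hp⟩ := hP.2
  obtain ⟨U, hU⟩ := exists_compl_MF M
  obtain ⟨U₁, U₀, hF⟩ := exists_typeFWith (typeF_of_typeI hM h) hU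
  have hH : 𝐇(M) = sigmaCore M := (typeCore_of_typeI hM h).symm.trans (typeCore_eq_sigmaCore hM)
  have hd : p ∣ Nat.card U := by
    have h1 := kappa_dvd hp
    rw [← hU.card, (kappa_prime hp).dvd_mul, hH] at h1
    exact h1.resolve_left fun e => kappa_sigma' hp ((Msigma_pi M).mem (kappa_prime hp) e)
  obtain ⟨x, hx, hxp, hc⟩ := hF.exists_regular (kappa_prime hp) hd
  obtain ⟨K, hK, hle⟩ := Hall.exists_ge (π := kappa M) (mmax_sol hM) (zpowers_le.2 (hU.right_le hx))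
    (PiElt.zpowers (hxp ▸ PiNat.of_prime (kappa_prime hp) (hxp ▸ hp) : PiNat _ (orderOf x)))
  refine S14.kappa_prime_cent hM hK hle (by rw [Nat.card_zpowers, hxp]; exact kappa_prime hp) ?_
  rw [cent_zpowers, ← hH, hc]

theorem FTP.kappa_facts (h : FTP M U W₁ W₂) :
    Z.TypeP M ∧ Hall (kappa M) W₁ M ∧ sigmaCore M ⊓ 𝐂(W₁) = W₂ := by
  have hM := h.max
  have hs : sigmaCore M ≤ ⁅M, M⁆ := typeCore_eq_sigmaCore hM ▸ typeCore_le_der hM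
  have hW₂ : W₂ ≤ sigmaCore M := (TypeP.W₂_le h.P).trans (typeCore_eq_sigmaCore hM ▸ MF_le_typeCore hM)
  have h3 : sigmaCore M ⊓ 𝐂(W₁) = W₂ := le_antisymm ((inf_le_inf_right _ hs).trans (TypeP.cent_der h.P).le)
    (le_inf hW₂ ((TypeP.cent_der h.P).ge.trans inf_le_right))
  have hW₁ := Hall.of_coprime (TypeP.sd_der h.P).right_le h.P.W₁_hall
  have hP : Z.TypeP M := by
    obtain ⟨p, hp, hd⟩ := Nat.exists_prime_and_dvd (card_ne_one h.P.W₁_ne)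
    haveI : Fact p.Prime := ⟨hp⟩
    refine ⟨hM, p, mem_kappa_iff'.2 ⟨hd.trans (card_dvd hW₁.le), fun hσ => hp.one_lt.ne' (Nat.eq_one_of_dvd_coprimes
      (TypeP.coprime_der h.P) hd ((S14.sigma_dvd_Ms hM hσ).trans (card_dvd hs))), fun P hP => ?_⟩⟩
    obtain ⟨g, hg, hle⟩ := hW₁.exists_le_conj (mmax_sol hM) hP.le (PiGrp.of_pgroup hP.pgroup hd)
    obtain ⟨x, hx, hx1⟩ := exists_ne_one (hP.ne_bot' (hd.trans (card_dvd hW₁.le)))
    refine ⟨cyclic_of_le ((cyclic_conj g).2 h.P.W₁_cyclic) hle, x, hx, hx1, ne_bot_mono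
      (fun e => h.P.selfNormalizing.2.1 (Transfer.conj_eq_bot_iff.1 e) : g ⋆ W₂ ≠ ⊥) ?_⟩
    rw [← h3, Transfer.conj_inf, conj_eq_of_norm ((Msigma_nml M).norm hg), Transfer.conj_centralizer]
    exact inf_le_inf_left _ (cent_le_cent1 (hle hx))
  obtain ⟨K, hK⟩ := Hall.exists (kappa M) (mmax_sol hM)
  obtain ⟨Ms, hD⟩ := S14.exists_dual hP hK
  have h1 : Hall (kappa M) W₁ M := Hall.of_sd_right (TypeP.sd_der h.P) hD.der_sd.2
  exact ⟨hP, h1, h3⟩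

/-- Peterfalvi (8.15). -/
theorem ftDade_hyp (hM : Mx M) : DadeHypothesis (ftA0 M) M (supportR M) := by
  have key : ∀ a ∈ ftA0 M, SD (supportR M a) (M ⊓ 𝐂[a]) 𝐂[a] ∧
      ∀ b ∈ ftA0 M, (Nat.card (supportR M a)).Coprime (Nat.card ↥(M ⊓ 𝐂[b])) := fun a ha => by
    by_cases hc : 𝐂[a] ≤ M
    · rw [supportR_of_le hc, inf_eq_right.2 hc]
      exact ⟨⟨by rw [norm_bot]; exact le_top, bot_inf_eq _, bot_sup_eq _⟩, fun b _ => by simp⟩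
    · obtain ⟨-, L, -, h1, -, h2, h3, -⟩ := support_facts hM ha hc
      rw [h1]
      exact ⟨h2, fun b hb => coprime_mono (h3 b hb) inf_le_left le_rfl⟩
  exact ⟨fun h => (ftA0_subset M h).2 rfl, fun a ha => (ftA0_subset M ha).1, fun x hx a ha => conj_mem_ftA0_of_mem hx ha,
    fun a ha g hg => ftA0_fusion hM ha hg, fun a ha => (key a ha).1.left_le,
    fun a ha c hc u hu => conj_mem_of_norm ((key a ha).1.nml.norm hc) hu, fun a ha => (key a ha).1.inf,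
    fun a ha => (key a ha).1.sup, fun a ha => (key a ha).2⟩

theorem ftDadeA_hyp (hM : Mx M) : DadeHypothesis (ftA M) M (supportR M) :=
  Dade.restrict (ftDade_hyp hM) (ftA_subset_ftA0 M) fun _ hx _ ha => conj_mem_ftA_of_mem hx ha

theorem ftDade1_hyp (hM : Mx M) : DadeHypothesis (typeA1 M) M (supportR M) :=
  Dade.restrict (ftDade_hyp hM) ((typeA1_subset_ftA hM).trans (ftA_subset_ftA0 M))
    fun _ hx _ ha => conj_mem_typeA1_of_mem hx ha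

theorem ftDadeF_hyp (hM : Mx M) : DadeHypothesis (sharp 𝐇(M)) M (supportR M) :=
  Dade.restrict (ftDade1_hyp hM) (sharp_MF_subset_typeA1 hM) fun _ hx _ ha =>
    ⟨conj_mem_of_norm ((MF_nml M).norm hx) ha.1, fun e => ha.2 (conj_eq_one_iff.1 e)⟩

theorem ftDadeF_eq (hM : Mx M) (hα : α ∈ CFon M (sharp 𝐇(M))) :
    ftDadeF M α = ftDade M α :=
  Dade.restrict_eq (ftDade_hyp hM)
    ((sharp_MF_subset_typeA1 hM).trans ((typeA1_subset_ftA hM).trans (ftA_subset_ftA0 M))) hα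

theorem norm_ftA (hM : Mx M) {A : Set G}
    (hA : A = typeA1 M ∨ A = ftA M ∨ A = ftA0 M) : normalizer A = M := by
  have h1 : typeA1 M ⊆ A ∧ A ⊆ ftA0 M ∧ M ≤ normalizer A := by
    rcases hA with rfl | rfl | rfl
    · exact ⟨subset_rfl, (typeA1_subset_ftA hM).trans (ftA_subset_ftA0 M), Dade.le_normalizer (ftDade1_hyp hM)⟩
    · exact ⟨typeA1_subset_ftA hM, ftA_subset_ftA0 M, Dade.le_normalizer (ftDadeA_hyp hM)⟩
    · exact ⟨(typeA1_subset_ftA hM).trans (ftA_subset_ftA0 M), subset_rfl, Dade.le_normalizer (ftDade_hyp hM)⟩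
  refine le_antisymm (fun g hg => ?_) h1.2.2
  rw [← mmax_normal hM (typeCore_nml M) (ne_bot_mono (max_MF_ne_bot hM) (MF_le_typeCore hM))]
  refine Transfer.mem_normalizer_of_conj_le (Transfer.conj_le_iff.2 fun x hx => ?_)
  by_cases hx1 : x = 1
  · rw [hx1, mul_one, mul_inv_cancel]
    exact one_mem _
  · exact conj_mem_typeCore hM hx (ftA0_subset M (h1.2.1 ((mem_set_normalizer_iff.1 hg x).1 (h1.1 ⟨hx, hx1⟩)))).1

/-- Coq `FT_prDade_hypF`. -/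
theorem FTP.prDadeF (h : FTP M U W₁ W₂) :
    PrDade M ⁅M, M⁆ 𝐇(M) (ftA M) (ftA0 M) W₁ W₂ (supportR M) :=
  ⟨h.cycTI, h.primeTI, ftDade_hyp h.max, (MF_nml M).norm, TypeP.W₂_le h.P, (TypeP.sd_core h.P).left_le,
    fun _ hx _ ha => conj_mem_ftA_of_mem hx ha,
    fun x hx hx1 _ hk hk1 e => h.mem_ftA.2 ⟨hk, hk1, x, MF_le_typeCore h.max hx, hx1, e⟩,
    fun _ ha => ⟨(h.mem_ftA.1 ha).1, (h.mem_ftA.1 ha).2.1⟩, h.ftA0_eq⟩

/-- Coq `FT_prDade_hyp`. -/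
theorem FTP.prDade (h : FTP M U W₁ W₂) :
    PrDade M ⁅M, M⁆ (typeCore M) (ftA M) (ftA0 M) W₁ W₂ (supportR M) :=
  ⟨h.cycTI, h.primeTI, ftDade_hyp h.max, (typeCore_nml M).norm, (TypeP.W₂_le h.P).trans (MF_le_typeCore h.max),
    typeCore_le_der h.max, fun _ hx _ ha => conj_mem_ftA_of_mem hx ha,
    fun x hx hx1 _ hk hk1 e => h.mem_ftA.2 ⟨hk, hk1, x, hx, hx1, e⟩,
    fun _ ha => ⟨(h.mem_ftA.1 ha).1, (h.mem_ftA.1 ha).2.1⟩, h.ftA0_eq⟩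

/-- For types III-V, Hypothesis (4.6) holds with `H = K = M'`. -/
theorem FTP.prDade_der (h : FTP M U W₁ W₂) (h2 : ¬ IsOfTypeII M) :
    PrDade M ⁅M, M⁆ ⁅M, M⁆ (sharp ⁅M, M⁆) (ftA0 M) W₁ W₂ (supportR M) := by
  have := h.prDade
  rwa [h.typeCore_eq_der h2, h.ftA_eq h2] at this

/-- Coq `FTtypeP_subcoherent`, `FTtypeP_base_ortho`, `FTtypeP_base_TIred`. -/
theorem FTP.exists_subcoherent (h : FTP M U W₁ W₂) :
    ∃ R, Subcoherent M ⊤ (seqIndD ⁅M, M⁆ M (typeCore M) ⊥) (ftDade M) R ∧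
      (∀ φ ∈ seqIndD ⁅M, M⁆ M (typeCore M) ⊥, φ ∈ Irr M →
        ∀ α ∈ R φ, ∀ i j, cfdot ⊤ α (eta ⊤ W₁ W₂ i j) = 0) ∧
      ∀ j, j ≠ 1 → ∀ α, α ∈ R (muj M W₁ W₂ j) ↔
        ∃ i, α = pdelta M W₁ W₂ j • eta ⊤ W₁ W₂ i j ∨
          α = -(pdelta M W₁ W₂ j • eta ⊤ W₁ W₂ i j⁻¹) :=
  h.prDade.exists_subcoherent (SeqInd.conjSub le_rfl le_rfl) fun _ hχ =>
    SeqInd.star_ne (der_le M) (Nml.der_self M).norm (mFT_odd M) (typeCore_le_der h.max) hχ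

/-- Peterfalvi (8.16). -/
theorem typeII_normedTI (hM : Mx M) (h : IsOfTypeII M) : NormedTI (ftA0 M) ⊤ M ∧
    NormedTI (ftA M) ⊤ M ∧ NormedTI (typeA1 M) ⊤ M := by
  obtain ⟨U, W₁, W₂, hP⟩ := exists_FTP hM (not_typeI_of_typeII h)
  have hTI := (hP.typeII_IV (hP.typeII h).1).2.2
  have hF : typeA1 M ⊆ sharp 𝐅(M) := fun x hx =>
    ⟨MF_le_Fitting M (typeCore_of_typeII hM h ▸ hx.1), hx.2⟩
  have key : ∀ a ∈ ftA0 M, ∀ g : G, g * a * g⁻¹ ∈ ftA0 M → g ∈ M := fun a ha g hg => by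
    by_cases h1 : a ∈ typeA1 M
    · exact (hTI.conj_mem_iff a (hF h1) g (mem_top g)).1
        (hF ⟨conj_mem_typeCore hM h1.1 (ftA0_subset M hg).1, (ftA0_subset M hg).2⟩)
    · exact mem_of_conj_mem_ftA0 hM ha h1 hg
  obtain ⟨x, hx, hx1⟩ := exists_ne_one (max_MF_ne_bot hM)
  have hx' : x ∈ typeA1 M := sharp_MF_subset_typeA1 hM ⟨hx, hx1⟩
  have s1 := typeA1_subset_ftA hM
  have s2 := ftA_subset_ftA0 M
  exact ⟨⟨⟨x, s2 (s1 hx')⟩, le_top, fun a ha g _ => ⟨key a ha g, fun hg => conj_mem_ftA0_of_mem hg ha⟩⟩,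
    ⟨⟨x, s1 hx'⟩, le_top, fun a ha g _ => ⟨fun hg => key a (s2 ha) g (s2 hg), fun hg => conj_mem_ftA_of_mem hg ha⟩⟩,
    ⟨⟨x, hx'⟩, le_top, fun a ha g _ => ⟨fun hg => key a (s2 (s1 ha)) g (s2 (s1 hg)),
      fun hg => conj_mem_typeA1_of_mem hg ha⟩⟩⟩

/-- Peterfalvi (8.17)(a). -/
theorem exists_max_dvd_typeCore {p : ℕ} (hp : p.Prime) (hd : p ∣ Nat.card G)
    (hD : p ∈ DD G := by dd) :
    ∃ M : Subgroup G, Mx M ∧ p ∣ Nat.card (typeCore M) := by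
  obtain ⟨M, hM, h⟩ := S14.exists_sigma_mmax hp hd
  exact ⟨M, hM, typeCore_eq_sigmaCore hM ▸ S14.sigma_dvd_Ms hM h⟩

theorem coprime_typeCore (hM : Mx M) (hN : Mx N) (h : ¬ Cj M N) :
    (Nat.card (typeCore M)).Coprime (Nat.card (typeCore N)) := by
  rw [typeCore_eq_sigmaCore hM, typeCore_eq_sigmaCore hN]
  exact (Msigma_pi M).coprime' (Msigma_pi N) fun q h1 h2 => h (S14.cj_of_sigma hM hN h1 h2)

/-- Peterfalvi (8.17)(c). -/
theorem disjoint_ftSupp_typeA1 (hM : Mx M) (hN : Mx N) (h : ¬ Cj M N) :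
    Disjoint (ftSupp M (typeA1 M)) (ftSupp N (typeA1 N)) := by
  rw [ftSupp_typeA1_eq hM, ftSupp_typeA1_eq hN]
  exact sigma_support_disjoint hM hN h

theorem FTP.disjoint_ftSupp_cycV (h : FTP M U W₁ W₂) (hN : Mx N) :
    Disjoint (ftSupp N (typeA1 N)) (classSupp (cycV W₁ W₂) ⊤) := by
  obtain ⟨h1, h2, h3⟩ := h.kappa_facts
  have := (mFT_partition_P h1 h2).2 N hN
  rw [h3] at this
  rw [ftSupp_typeA1_eq hN]
  refine Disjoint.mono_right ?_ this.symm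
  rintro _ ⟨a, ha, x, hx, rfl⟩
  exact ⟨x, hx, a, ha, rfl⟩

theorem uniqMax_of_mem_inter (hS : Mx S) (hT : Mx T) (h : ¬ Cj S T) {x : G}
    (hx : x ∈ typeA1 S ∩ ftA T) : UniqMax 𝐂[x] T := by
  have hc : (orderOf x).Coprime (Nat.card (typeCore T)) :=
    Nat.Coprime.coprime_dvd_left ((typeCore S).orderOf_dvd_natCard hx.1.1) (coprime_typeCore hS hT h)
  have hx1 : x ≠ 1 := hx.1.2
  have key : ∀ D : Subgroup G, D ≤ T → typeCore T = 𝐇(T) → 𝐇(T) ≤ D → x ∈ D → (∃ y ∈ 𝐇(T), y ≠ 1 ∧ x * y = y * x) →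
      (∀ U, SD 𝐇(T) U D → (TypeI T ∧ SD 𝐇(T) U T) ∨ (IsOfTypeII T ∧ SD 𝐇(T) U ⁅T, T⁆)) → UniqMax 𝐂[x] T := by
    rintro D hD e hH hxD ⟨y, hy, hy1, hxy⟩ hU
    rw [e] at hc
    obtain ⟨U, hU1, hU2⟩ := Hall.exists_ge (π := {q | q ∣ Nat.card 𝐇(T)}ᶜ) (sub_mmax_sol hT hD) (zpowers_le.2 hxD)
      (PiElt.zpowers (PiNat.of_coprime hc))
    exact (typeI_II_facts hT (hU U (((Fcore_Hall T).of_le hH hD).sd (norm_Fcore hD) hU1))).2 {x}
      (Set.singleton_subset_iff.2 ⟨zpowers_le.1 hU2, hx1⟩) (Set.singleton_nonempty x)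
      (ne_bot_of_mem ⟨hy, mem_cent1.2 hxy.symm⟩ hy1)
  by_cases hI : TypeI T
  · have h1 := (mem_ftA_of_typeI hI).1 hx.2
    exact key T le_rfl (typeCore_of_typeI hT hI) (MF_le T) h1.1 h1.2.2 fun U hU => Or.inl ⟨hI, hU⟩
  obtain ⟨U, W₁, W₂, hP⟩ := exists_FTP hT hI
  have h1 := hP.mem_ftA.1 hx.2
  by_cases hII : IsOfTypeII T
  · exact key _ (der_le T) (typeCore_of_typeII hT hII) (TypeP.sd_core hP.P).left_le h1.1
      (typeCore_of_typeII hT hII ▸ h1.2.2) fun U hU => Or.inr ⟨hII, hU⟩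
  · rw [hP.typeCore_eq_der hII] at hc
    exact absurd (orderOf_eq_one_iff.1 (Nat.eq_one_of_dvd_coprimes hc dvd_rfl (Subgroup.orderOf_dvd_natCard _ h1.1))) hx1

/-- Peterfalvi (8.18)(a,b). -/
theorem supports_iff (hS : Mx S) (hT : Mx T) (h : ¬ Cj S T) :
    (FtSupports T S ↔ (typeA1 S ∩ ftA T).Nonempty) ∧
    (∀ x ∈ typeA1 S ∩ ftA T, ¬ 𝐂[x] ≤ S ∧ 𝐂[x] ≤ T) ∧
    ((∃ g : G, FtSupports (g ⋆ T) S) ↔ ¬ Disjoint (ftSupp S (typeA1 S)) (ftSupp T (ftA T))) := by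
  have ha : ∀ T : Subgroup G, Mx T → ¬ Cj S T → (FtSupports T S ↔ (typeA1 S ∩ ftA T).Nonempty) :=
    fun T hT h => by
      constructor
      · rintro ⟨-, x, hx, h1, h2⟩
        obtain ⟨h3, L, hL, -, -, -, -, h4, -⟩ := support_facts hS hx h1
        exact ⟨x, h3, hL.eq hT h2 ▸ h4.1⟩
      · rintro ⟨x, hx⟩
        have h1 := uniqMax_of_mem_inter hS hT h hx
        exact ⟨hT, x, ftA_subset_ftA0 S (typeA1_subset_ftA hS hx.1), fun h2 => h (Cj.of_eq (h1.eq hS h2)), h1.le⟩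
  have ha' : ∀ g : G, FtSupports (g ⋆ T) S ↔ (typeA1 S ∩ ftA (g ⋆ T)).Nonempty := fun g =>
    ha _ (mmax_conj hT g) (by rwa [Cj.conj_right_iff])
  refine ⟨ha T hT h, fun x hx => ?_, ?_⟩
  · have h1 := uniqMax_of_mem_inter hS hT h hx
    exact ⟨fun h2 => h (Cj.of_eq (h1.eq hS h2)), h1.le⟩
  rw [Set.not_disjoint_iff]
  constructor
  · rintro ⟨g, hg⟩
    obtain ⟨x, h1, h2⟩ := (ha' g).1 hg
    exact ⟨x, Dade.subset_support _ _ h1, ftSupp_ftA_conj g T ▸ Dade.subset_support _ _ h2⟩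
  · rintro ⟨y, hy, b, hb, v, hv, z, e⟩
    by_cases hc : 𝐂[b] ≤ T
    swap
    · exact absurd ⟨b, (support_facts hT (ftA_subset_ftA0 T hb) hc).1, v, hv, z, e⟩
        (Set.disjoint_left.1 (disjoint_ftSupp_typeA1 hS hT h) hy)
    rw [supportR_of_le hc, mem_bot] at hv
    rw [hv, mul_one] at e
    obtain ⟨a, ha1, u, hu, w, e'⟩ := hy
    refine ⟨w * z⁻¹, (ha' _).2 ⟨a, ha1, ?_⟩⟩
    obtain ⟨n, hn, -⟩ := Dade.exists_pow (ftDade1_hyp hS) ha1 ha1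
    have h1 : a * u ∈ ftA ((w * z⁻¹) ⋆ T) := by
      have := (conj_mem_ftA (g := w * z⁻¹)).2 hb
      rw [← e] at this
      rw [← e']
      convert this using 1
      group
    exact hn u hu ▸ pow_mem_ftA h1 (by rw [hn u hu]; exact ha1.2)

/-- Peterfalvi (8.18)(c). -/
theorem disjoint_ftSupp_or (hS : Mx S) (hT : Mx T) (h : ¬ Cj S T) :
    Disjoint (ftSupp S (typeA1 S)) (ftSupp T (ftA T)) ∨
    Disjoint (ftSupp T (typeA1 T)) (ftSupp S (ftA S)) := by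
  by_contra hn
  rw [not_or] at hn
  have h' : ¬ Cj T S := fun e => h e.symm
  obtain ⟨g, hg, x, hx, h1, h2⟩ := (supports_iff hS hT h).2.2.2 hn.1
  obtain ⟨k, hk⟩ := (supports_iff hT hS h').2.2.2 hn.2
  obtain ⟨y, hy1, hy2⟩ := (supports_iff hT (mmax_conj hS k) (by rwa [Cj.conj_right_iff])).1.1 hk
  obtain ⟨-, L, hL, -, -, -, h3, -, h4, -⟩ := support_facts hS hx h1
  rw [← hL.eq hg h2, typeI_conj, isOfTypeII_conj] at h4
  rw [← hL.eq hg h2, ← conj_MF, Transfer.card_conj] at h3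
  have h5 : y ∈ 𝐇(T) := by
    rcases h4 with h4 | h4
    exacts [typeCore_of_typeI hT h4 ▸ hy1.1, typeCore_of_typeII hT h4 ▸ hy1.1]
  have h6 : k⁻¹ * y * k ∈ ftA0 S := ftA_subset_ftA0 S ((conj_mem_ftA (g := k)).1 (by simpa [mul_assoc] using hy2))
  refine hy1.2 (orderOf_eq_one_iff.1 (Nat.eq_one_of_dvd_coprimes (h3 _ h6) (𝐇(T).orderOf_dvd_natCard h5) ?_))
  have h7 := (S ⊓ 𝐂[k⁻¹ * y * k]).orderOf_dvd_natCard ⟨(ftA0_subset S h6).1, self_mem_cent1 _⟩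
  have h8 : orderOf (k⁻¹ * y * k) = orderOf y := by
    rw [show k⁻¹ * y * k = MulAut.conj k⁻¹ y by simp, MulEquiv.orderOf_eq]
  rwa [h8] at h7

/-- The consequence of (8.18)(b) and (8.13)(c4) used in (10.7). -/
theorem FTP.disjoint_ftSupp_typeII (h : FTP M U W₁ W₂) (hS : Mx S) (h2 : IsOfTypeII S)
    (hc : ¬ Cj M S) : Disjoint (ftSupp M (typeA1 M)) (ftSupp S (ftA S)) := by
  by_contra hn
  obtain ⟨g, hg, x, hx, h1, h3⟩ := (supports_iff h.max hS hc).2.2.2 hn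
  obtain ⟨-, L, hL, -, -, -, -, -, -, h4⟩ := support_facts h.max hx h1
  exact TypeP.not_frobKer h.P (h4 (hL.eq hg h3 ▸ (isOfTypeII_conj g).2 h2))

end Cfsg.Lib.BG.Z.PF
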