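import Cfsg.Agent.Lib.PF.Sec12Sub
import Cfsg.Agent.Lib.ZQ.Defs12
import Cfsg.Agent.Lib.ZQ.Sec8Dade
import Cfsg.Agent.Lib.PF.Sec6Sibley
import Cfsg.Agent.Lib.PF.Sec12Aux
import Cfsg.Agent.Lib.BG.T03_9
import Cfsg.Agent.Lib.BG.Quo

/-!
# Peterfalvi (12.2)-(12.6): characters of a maximal subgroup of type I
-/

set_option autoImplicit false
set_option linter.unusedVariables false
set_option linter.unusedSectionVars false

namespace Cfsg.Lib.BG.Z.PF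

open Subgroup
open Cfsg.Lib.PF
open scoped Cfsg.Lib.Transfer

variable {G : Type*} [Group G] [Finite G] [Sz G] {L L₁ L₂ : Subgroup G} {χ φ ψ : G → ℂ}
  {τ₁ : (G → ℂ) →ₗ[ℂ] (G → ℂ)}

/-- Coq `FTtype1_ref_irr`. -/
theorem exists_ref_lin (hL : Mx L) :
    ∃ φ ∈ seqIndD 𝐇(L) L 𝐇(L) ⊥, φ 1 = 𝐇(L).relIndex L :=
  SeqInd.exists_lin (MF_le L) (nil_sol (MF_nil L)) (bot_lt_iff_ne_bot.2 (max_MF_ne_bot hL))
    (le_normalizer_bot _)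

/-- Peterfalvi (12.2)(a), first part. -/
theorem typeI_seqInd_eq_sum (hL : Mx L) (h1 : TypeI L) (hχ : χ ∈ seqIndD 𝐇(L) L 𝐇(L) ⊥) :
    ∃ C : Finset (G → ℂ), C ⊆ Irr L ∧ χ = ∑ φ ∈ C, φ ∧
      ∀ φ ∈ C, ∀ φ' ∈ C, res 𝐇(L) φ = res 𝐇(L) φ' := by
  classical
  obtain ⟨θ, hθ, hθ1, rfl⟩ := SeqInd.mem_self_bot_iff.1 hχ
  obtain ⟨U, hU⟩ := exists_compl_MF L
  obtain ⟨U₁, U₀, hF⟩ := exists_typeFWith (typeF_of_typeI hL h1) hU
  have hHT : 𝐇(L) ≤ L ⊓ inertia θ := le_inf (MF_le L) (CF.le_inertia (Irr.mem_CF hθ))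
  have hab : ⁅L ⊓ inertia θ, L ⊓ inertia θ⁆ ≤ 𝐇(L) := by
    refine (hU.restrict_right hHT inf_le_left).der_le.trans (sup_le le_rfl ?_)
    rw [abelian_iff_der.1 (abelian_of_le hF.U₁_abelian
      ((inf_le_inf_left U inf_le_right).trans (hF.inertia_le hθ hθ1)))]
    exact bot_le
  obtain ⟨C, hC, -, he, -⟩ := exists_ind_eq_sum (MF_le L) (MF_nml L).norm hθ hab
    ((MF_coprime L).coprime_dvd_right (relIndex_dvd_of_norm inf_le_left (MF_nml L).norm))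
  have key : ∀ φ ∈ C, res 𝐇(L) φ = ∑ ψ ∈ cfclass L θ, ψ := by
    intro φ hφ
    have h2 : cfdot 𝐇(L) φ θ = 1 := by
      rw [← cfdot_ind_right (MF_le L) θ (Irr.mem_CF (hC hφ)), he]
      refine cfdot_symm_one ?_
      rw [cfdot_sum_subset_Irr hC (hC hφ), if_pos hφ]
    rw [Irr.res_eq_smul_sum_cfclass (MF_le L) (MF_nml L).norm (hC hφ) hθ (by simp [h2]), h2,
      one_smul]
  exact ⟨C, hC, he, fun φ hφ φ' hφ' => (key φ hφ).trans (key φ' hφ').symm⟩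

/-- Peterfalvi (12.2)(a), second part. -/
theorem irr_mem_CFon_ftA (h1 : TypeI L) (hφ : φ ∈ Irr L) (hk : ¬ 𝐇(L) ≤ cfker φ) :
    φ ∈ CFon L (insert 1 (ftA L)) := by
  refine mem_CFon_of (Irr.mem_CF hφ) fun x hx hx' => ?_
  refine Irr.apply_eq_zero_of_regular hφ (MF_le L) (MF_nml L).norm hk ?_
  by_contra h
  obtain ⟨y, hy, hy1⟩ := exists_ne_one h
  rw [Set.mem_insert_iff, not_or, mem_ftA_of_typeI h1] at hx'
  exact hx'.2 ⟨hx, hx'.1, y, hy.1, hy1, (mem_cent1.1 hy.2).symm⟩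

theorem irr_mem_CFon_ftA0 (h1 : TypeI L) (hφ : φ ∈ Irr L) (hk : ¬ 𝐇(L) ≤ cfker φ) :
    φ ∈ CFon L (insert 1 (ftA0 L)) := by
  rw [ftA0_of_typeI h1]; exact irr_mem_CFon_ftA h1 hφ hk

theorem sharp_MF_subset_ftA0 (hL : Mx L) : sharp 𝐇(L) ⊆ ftA0 L :=
  ((sharp_MF_subset_typeA1 hL).trans (typeA1_subset_ftA hL)).trans (ftA_subset_ftA0 L)

theorem typeI_not_common (hL₁ : Mx L₁) (h₁ : TypeI L₁) (hL₂ : Mx L₂) (h₂ : TypeI L₂)
    (hd : Disjoint (ftSupp L₂ (typeA1 L₂)) (ftSupp L₁ (ftA L₁))) (hφ : φ ∈ Irr L₁)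
    (hk : ¬ 𝐇(L₁) ≤ cfker φ) (hψ : ψ ∈ Irr L₂) (hk' : ¬ 𝐇(L₂) ≤ cfker ψ) {ξ : G → ℂ}
    (hξ : ξ ∈ Irr (⊤ : Subgroup G)) (hne : cfdot ⊤ (ftDade L₁ (φ - star φ)) ξ ≠ 0)
    (hne' : cfdot ⊤ (ftDade L₂ (ψ - star ψ)) ξ ≠ 0) : False := by
  obtain ⟨χ, hχ, hχψ⟩ := SeqInd.exists_over (MF_le L₂) (MF_nml L₂).norm le_rfl bot_le
    (MF_nml L₂).norm hψ bot_le hk'
  have hβ := seqInd_sub_star_mem_CFon hχ
  have h0 : cfdot ⊤ (ftDade L₁ (φ - star φ)) (ftDade L₂ (χ - star χ)) = 0 := by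
    rw [← ftDadeF_eq hL₂ hβ, ftDade, ftA0_of_typeI h₁]
    refine Dade.cfdot_eq_zero_of_disjoint ?_ _ _
    rw [← typeA1_of_typeI hL₂ h₂]
    exact hd.symm
  have hχc := SeqInd.isChar (MF_le L₂) hχ
  have h3 : cfdot L₂ (star χ) ψ = 0 := hχc.cfdot_eq_zero_of_constituent hχc.star hψ hχψ
    (SeqInd.cfdot_star (MF_le L₂) (MF_nml L₂).norm (mFT_odd L₂) le_rfl hχ)
  have h4 : cfdot ⊤ (ftDade L₂ (ψ - star ψ)) (ftDade L₂ (χ - star χ)) = 2 * cfdot L₂ χ ψ := by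
    rw [Dade.isometry (ftDade_hyp hL₂) (sub_star_mem_CFon (irr_mem_CFon_ftA0 h₂ hψ hk')
      (Irr.isChar hψ).conj_apply_one) (CFon.mono (sharp_MF_subset_ftA0 hL₂) hβ)]
    rw [cfdot_sub_left, cfdot_sub_right, cfdot_sub_right, cfdot_star_swap, cfdot_star_left,
      cfdot_symm_zero h3, ZI.cfdot_comm (Irr.mem_ZI hψ) hχc.mem_ZI]
    simp only [map_zero]; ring
  rcases Dade.sub_star_eq_of_common (ftDade_hyp hL₁) (ftDade_hyp hL₂) hφ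
    (irr_mem_CFon_ftA0 h₁ hφ hk) hψ (irr_mem_CFon_ftA0 h₂ hψ hk') hξ hne hne' with e | e
  · rw [ftDade, e, h4] at h0
    exact hχψ (by simpa using h0)
  · rw [ftDade, e, cfdot_neg_left, h4] at h0
    exact hχψ (by simpa using h0)

/-- Peterfalvi (12.3). -/
theorem typeI_orth (hL₁ : Mx L₁) (h₁ : TypeI L₁) (hL₂ : Mx L₂) (h₂ : TypeI L₂)
    (hc : ¬ Cj L₁ L₂) (hφ : φ ∈ Irr L₁) (hk : ¬ 𝐇(L₁) ≤ cfker φ) {ξ : G → ℂ}
    (hξ : ξ ∈ Irr (⊤ : Subgroup G)) (hne : cfdot ⊤ (ftDade L₁ (φ - star φ)) ξ ≠ 0) :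
    OrthI L₂ ξ := by
  intro ψ hψ hk' ξ' hξ' hne'
  refine Irr.cfdot_ne hξ hξ' ?_
  rintro rfl
  rcases disjoint_ftSupp_or hL₁ hL₂ hc with hd | hd
  · exact typeI_not_common hL₂ h₂ hL₁ h₁ hd hψ hk' hφ hk hξ hne' hne
  · exact typeI_not_common hL₁ h₁ hL₂ h₂ hd hφ hk hψ hk' hξ hne hne'

omit [Sz G] in
theorem OrthI.cfdot_dirr (ho : OrthI L ψ) (hφ : φ ∈ Irr L) (hk : ¬ 𝐇(L) ≤ cfker φ) {α : G → ℂ}
    (hα : IsDirr ⊤ α) (hne : cfdot ⊤ (ftDade L (φ - star φ)) α ≠ 0) : cfdot ⊤ ψ α = 0 := by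
  rcases hα with hα | hα
  · exact ho φ hφ hk α hα hne
  · simpa using ho φ hφ hk _ hα (by rwa [cfdot_neg_right, neg_ne_zero])

omit [Sz G] in
theorem OrthI.neg (ho : OrthI L ψ) : OrthI L (-ψ) := fun φ hφ hk ξ hξ hne => by
  rw [cfdot_neg_left, ho φ hφ hk ξ hξ hne, neg_zero]

open Classical in
/-- The irreducible characters of `L` whose kernel does not contain `L_F` are subcoherent. -/
theorem typeI_subcoherent_irr (hL : Mx L) (h1 : TypeI L) : ∃ R,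
    Subcoherent L ⊤ ((Irr L).filter fun φ => ¬ 𝐇(L) ≤ cfker φ) (ftDade L) R := by
  refine Dade.exists_subcoherent (ftDade_hyp hL) (Finset.filter_subset _ _) (fun φ hφ => ?_)
    (fun φ hφ => ?_) fun α hα => CFon.of_insert_one (ZS.mem_CFon (fun φ hφ => ?_) hα.1) hα.2
  · rw [Finset.mem_filter] at hφ ⊢
    exact ⟨Irr.star_mem hφ.1, by simpa using hφ.2⟩
  · rw [Finset.mem_filter] at hφ
    refine Irr.star_ne (mFT_odd L) hφ.1 ?_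
    rintro rfl
    exact hφ.2 (by rw [cfker_cf1]; exact MF_le L)
  · rw [Finset.mem_filter] at hφ
    exact irr_mem_CFon_ftA0 h1 hφ.1 hφ.2

/-- Peterfalvi (12.2)(b). -/
theorem typeI_subcoherent (hL : Mx L) (h1 : TypeI L) : ∃ R,
    Subcoherent L ⊤ (seqIndD 𝐇(L) L 𝐇(L) ⊥) (ftDade L) R ∧ ∀ ψ, OrthI L ψ →
      ∀ χ ∈ seqIndD 𝐇(L) L 𝐇(L) ⊥, ∀ α ∈ R χ, cfdot ⊤ ψ α = 0 := by
  classical
  obtain ⟨R', hR'⟩ := typeI_subcoherent_irr hL h1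
  obtain ⟨R, hR, h⟩ := hR'.of_sum (S := seqIndD 𝐇(L) L 𝐇(L) ⊥) (Finset.filter_subset _ _)
    (fun χ hχ => SeqInd.star_mem hχ)
    (fun χ hχ => SeqInd.star_ne (MF_le L) (MF_nml L).norm (mFT_odd L) le_rfl hχ)
    (fun χ hχ φ hφ => SeqInd.orth (MF_le L) (MF_nml L).norm hχ hφ) (fun χ hχ => by
      obtain ⟨C, hC, e, -⟩ := typeI_seqInd_eq_sum hL h1 hχ
      refine ⟨C, fun φ hφ => Finset.mem_filter.2 ⟨hC hφ, ?_⟩, e⟩
      refine (SeqInd.constituent (MF_le L) (MF_nml L).norm le_rfl bot_le (MF_nml L).norm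
        (le_normalizer_bot L) hχ (hC hφ) ?_).2
      rw [e, cfdot_sum_subset_Irr hC (hC hφ), if_pos hφ]
      exact one_ne_zero)
  refine ⟨R, hR, fun ψ ho χ hχ α hα => ?_⟩
  obtain ⟨φ, hφ, hα'⟩ := h χ hχ α hα
  refine ho.cfdot_dirr (Finset.mem_filter.1 hφ).1 (Finset.mem_filter.1 hφ).2
    (hR'.R_dirr φ hφ α hα') ?_
  rw [hR'.cfdot_map_sub_star_R hφ hα']
  exact one_ne_zero

theorem OrthI.cfdot_eq_of_res (hL : Mx L) (h1 : TypeI L) (hψ : ψ ∈ CF ⊤) (ho : OrthI L ψ)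
    {φ' : G → ℂ} (hφ : φ ∈ Irr L) (hk : ¬ 𝐇(L) ≤ cfker φ) (hφ' : φ' ∈ Irr L)
    (hk' : ¬ 𝐇(L) ≤ cfker φ') (e : res 𝐇(L) φ = res 𝐇(L) φ') : cfdot L ψ φ = cfdot L ψ φ' := by
  classical
  obtain ⟨R', hR'⟩ := typeI_subcoherent_irr hL h1
  have e' : ∀ x ∈ 𝐇(L), φ x = φ' x := fun x hx => by
    rw [← res_of_mem φ hx, e, res_of_mem φ' hx]
  have h0 := hR'.cfdot_map_sub_eq_zero (ω := ψ) (fun χ hχ α hα =>
    ho.cfdot_dirr (Finset.mem_filter.1 hχ).1 (Finset.mem_filter.1 hχ).2 (hR'.R_dirr χ hχ α hα)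
      (by rw [hR'.cfdot_map_sub_star_R hχ hα]; exact one_ne_zero))
    (Finset.mem_filter.2 ⟨hφ, hk⟩) (Finset.mem_filter.2 ⟨hφ', hk'⟩) (e' 1 (one_mem _))
  have hA : φ - φ' ∈ CFon L (ftA L \ typeA1 L) := by
    have h2 : φ - φ' ∈ CFon L (ftA L) := CFon.of_insert_one (sub_mem (irr_mem_CFon_ftA h1 hφ hk)
      (irr_mem_CFon_ftA h1 hφ' hk')) (by simp [e' 1 (one_mem _)])
    refine ⟨h2.1, fun x hx => ?_⟩
    by_cases hx' : x ∈ ftA L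
    · have : x ∈ typeA1 L := by_contra fun h => hx ⟨hx', h⟩
      rw [typeA1_of_typeI hL h1] at this
      simp [e' x this.1]
    · exact h2.2 x hx'
  have hsub : ftA L \ typeA1 L ⊆ ftA0 L := Set.sdiff_subset.trans (ftA_subset_ftA0 L)
  rw [ftDade, Dade.eq_ind (ftDade_hyp hL) hsub (fun a ha => Dade.eq_bot_of_normedTI
    (ftDade_hyp hL) hsub (normedTI_ftA_diff hL (Or.inl h1) ⟨a, ha⟩) ha) hA,
    cfdot_ind_right le_top _ hψ, cfdot_sub_right] at h0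
  exact sub_eq_zero.1 h0

/-- Peterfalvi (12.4). -/
theorem OrthI.apply_mul (hL : Mx L) (h1 : TypeI L) (hψ : ψ ∈ CF ⊤) (ho : OrthI L ψ) {x y : G}
    (hx : x ∈ L) (hx' : x ∉ 𝐇(L)) (hy : y ∈ 𝐇(L)) : ψ (x * y) = ψ x := by
  classical
  have hn := (MF_nml L).norm
  set β : G → ℂ := ∑ χ ∈ seqIndD 𝐇(L) L 𝐇(L) ⊥, (cfdot L ψ χ / cfdot L χ χ) • χ with hβ
  have hβH : β ∈ CFon L 𝐇(L) := Submodule.sum_mem _ fun χ hχ =>
    Submodule.smul_mem _ _ (SeqInd.mem_CFon hn hχ)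
  have key := CF.apply_mul_of_orth (ψ := res L ψ - β) (MF_le L)
    (sub_mem (res_mem_CF le_top hψ) hβH.1) (fun φ hφ hk => by
      obtain ⟨χ, hχ, hne⟩ := SeqInd.exists_over (MF_le L) hn le_rfl bot_le hn hφ bot_le hk
      obtain ⟨C, hC, e, hres⟩ := typeI_seqInd_eq_sum hL h1 hχ
      have hd : ∀ φ' ∈ Irr L, cfdot L χ φ' = if φ' ∈ C then 1 else 0 := fun φ' hφ' => by
        conv_lhs => rw [e]
        exact cfdot_sum_subset_Irr hC hφ'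
      have hφC : φ ∈ C := by
        by_contra h
        rw [hd φ hφ, if_neg h] at hne
        exact hne rfl
      have h2 : cfdot L ψ χ = C.card * cfdot L ψ φ := by
        conv_lhs => rw [e]
        rw [cfdot_sum_right, Finset.sum_congr rfl fun φ' hφ' => ho.cfdot_eq_of_res hL h1 hψ
          (hC hφ') (SeqInd.constituent (MF_le L) hn le_rfl bot_le hn (le_normalizer_bot L) hχ
            (hC hφ') (by rw [hd φ' (hC hφ'), if_pos hφ']; exact one_ne_zero)).2 hφ hk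
          (hres φ' hφ' φ hφC)]
        simp
      have h3 : cfdot L χ χ = C.card := by
        conv_lhs => enter [3]; rw [e]
        rw [cfdot_sum_right, Finset.sum_congr rfl fun φ' hφ' =>
          (hd φ' (hC hφ')).trans (if_pos hφ')]
        simp
      have h4 : (C.card : ℂ) ≠ 0 := Nat.cast_ne_zero.2 (Finset.card_ne_zero.2 ⟨φ, hφC⟩)
      rw [cfdot_sub_left, cfdot_res_left, hβ, cfdot_sum_left, Finset.sum_eq_single χ,
        cfdot_smul_left, hd φ hφ, if_pos hφC, h2, h3]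
      · field_simp; ring
      · intro χ' hχ' hne'
        rw [cfdot_smul_left, (SeqInd.isChar (MF_le L) hχ).cfdot_eq_zero_of_constituent
          (SeqInd.isChar (MF_le L) hχ') hφ hne (SeqInd.orth (MF_le L) hn hχ hχ' hne'.symm),
          mul_zero]
      · exact fun h => absurd hχ h) x hy
  rwa [Pi.sub_apply, Pi.sub_apply, hβH.2 x hx',
    hβH.2 _ (fun h => hx' ((𝐇(L).mul_mem_cancel_right hy).1 h)), sub_zero, sub_zero,
    res_of_mem ψ hx, res_of_mem ψ (L.mul_mem hx (MF_le L hy))] at key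

/-- Peterfalvi (12.5). -/
theorem OrthI.invDade_eq (hL : Mx L) (h1 : TypeI L) (hψ : ψ ∈ CF ⊤) (ho : OrthI L ψ)
    {x y : G} (hx : x ∈ 𝐇(L)) (hx' : x ∉ ⁅𝐇(L), 𝐇(L)⁆) (hy : y ∈ 𝐇(L)) (hy' : y ∉ ⁅𝐇(L), 𝐇(L)⁆) :
    invDade (sharp 𝐇(L)) (supportR L) ψ x = invDade (sharp 𝐇(L)) (supportR L) ψ y := by
  obtain ⟨R, hR, hRo⟩ := typeI_subcoherent hL h1
  have hρ := (Dade.invDade_mem_CFon (ftDadeF_hyp hL) hψ).1
  refine apply_eq_of_deg (fun h hh x _ => CF.conj hρ (MF_le L hh) x)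
    (fun θ hθ θ' hθ' hθ1 hθ1' hd => ?_) hx hx' hy hy'
  have hχ : ind 𝐇(L) L θ ∈ seqIndD 𝐇(L) L 𝐇(L) ⊥ := SeqInd.mem_self_bot_iff.2 ⟨θ, hθ, hθ1, rfl⟩
  have hχ' : ind 𝐇(L) L θ' ∈ seqIndD 𝐇(L) L 𝐇(L) ⊥ :=
    SeqInd.mem_self_bot_iff.2 ⟨θ', hθ', hθ1', rfl⟩
  have hd' : ind 𝐇(L) L θ 1 = ind 𝐇(L) L θ' 1 := by
    rw [ind_one θ (MF_le L), ind_one θ' (MF_le L), hd]
  have hA := seqInd_sub_mem_CFon hχ hχ' hd'
  have h0 := cfdot_symm_zero (hR.cfdot_map_sub_eq_zero (hRo ψ ho) hχ hχ' hd')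
  rw [← ftDadeF_eq hL hA, Dade.reciprocity (ftDadeF_hyp hL) hA.1 hψ] at h0
  replace h0 := cfdot_symm_zero h0
  rw [cfdot_sub_right, cfdot_ind_right (MF_le L) _ hρ, cfdot_ind_right (MF_le L) _ hρ] at h0
  exact sub_eq_zero.1 h0

/-- Peterfalvi (12.6). -/
theorem frob_seqInd_subset (hF : FrobKer L 𝐇(L)) : seqIndD 𝐇(L) L 𝐇(L) ⊥ ⊆ Irr L := fun χ hχ => by
  obtain ⟨θ, hθ, h1, rfl⟩ := SeqInd.mem_self_bot_iff.1 hχ
  exact hF.ind_mem_Irr hθ h1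

theorem frob_coherent (hL : Mx L) (hF : FrobKer L 𝐇(L)) :
    Coherent L ⊤ (seqIndD 𝐇(L) L 𝐇(L) ⊥) (ftDadeF L) := by
  have hA : ∀ α ∈ Z0 (seqIndD 𝐇(L) L 𝐇(L) ⊥), α ∈ CFon L (sharp 𝐇(L)) := fun α hα =>
    SeqInd.Z0_mem_CFon hF.normal subset_rfl hα
  obtain ⟨R, hR⟩ := Dade.exists_subcoherent (ftDadeF_hyp hL) (frob_seqInd_subset hF)
    (fun χ hχ => SeqInd.star_mem hχ)
    (fun χ hχ => SeqInd.star_ne hF.lt.le hF.normal (mFT_odd L) le_rfl hχ) hA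
  rcases typeI_cases hL (typeI_of_frobKer hL hF) with hTI | ⟨hab, -⟩ | ⟨hexp, -⟩
  · exact (sibley_coherence_frob (mFT_odd L) (MF_nil L) hTI hF).congr fun α hα =>
      (Dade.eq_ind (ftDadeF_hyp hL) subset_rfl (fun a ha =>
        Dade.eq_bot_of_normedTI (ftDadeF_hyp hL) subset_rfl hTI ha) (hA α hα)).symm
  · refine hR.coherent_of_uniform fun φ hφ ψ hψ => ?_
    rw [SeqInd.apply_one_of_commutator_le hF.lt.le (abelian_iff_der.1 hab).le hφ,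
      SeqInd.apply_one_of_commutator_le hF.lt.le (abelian_iff_der.1 hab).le hψ]
  · by_contra hnot
    obtain ⟨-, -, p, m, hp, hm, hna, hd⟩ := non_coherent_chief hF.normal (nil_sol (MF_nil L)) hR
      (oddFrobQuot_bot (mFT_odd L) (MF_nil L) hF.ne_bot hF.lt
        (hF.frob_mod (der_le _) (norm_der hF.normal))) hnot
    rw [relIndex_bot_left] at hm
    have hpd : p ∣ Nat.card 𝐇(L) := by
      rw [hm]
      refine dvd_pow_self p ?_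
      rintro rfl
      exact card_ne_one hF.ne_bot (by simpa using hm)
    obtain ⟨E, hE⟩ := hF.exists_frob
    refine hd ?_
    rw [hE.sd.relIndex_left]
    refine card_dvd_of_Zgroup (odd_regular_Zgroup (mFT_odd E) hE.ker_ne hE.sd.norm hE.reg)
      fun x hx => ?_
    have : x ^ (p - 1) ∈ 𝐇(L) ⊓ E := ⟨hexp p hp hpd x (hE.sd.right_le hx), E.pow_mem hx _⟩
    rwa [hE.sd.inf] at this

/-- (12.3) with (5.5): the image of a character of a Frobenius maximal subgroup. -/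
theorem orthI_map (hL₁ : Mx L₁) (hF : FrobKer L₁ 𝐇(L₁)) (hL₂ : Mx L₂) (h₂ : TypeI L₂)
    (hc : ¬ Cj L₁ L₂) (hcoh : CoherentWith L₁ ⊤ (seqIndD 𝐇(L₁) L₁ 𝐇(L₁) ⊥) (ftDadeF L₁) τ₁)
    (hχ : χ ∈ seqIndD 𝐇(L₁) L₁ 𝐇(L₁) ⊥) : OrthI L₂ (τ₁ χ) := by
  have hi := frob_seqInd_subset hF hχ
  have hk := SeqInd.not_le_cfker hF.lt.le le_rfl hF.normal hχ
  have hs := SeqInd.star_mem hχ
  have h1 : cfdot ⊤ (ftDade L₁ (χ - star χ)) (τ₁ χ) = 1 := by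
    rw [← ftDadeF_eq hL₁ (seqInd_sub_star_mem_CFon hχ), ← hcoh.map_sub (mem_ZS_of_mem hχ)
      (mem_ZS_of_mem hs) (Irr.isChar hi).conj_apply_one.symm, map_sub, cfdot_sub_left,
      hcoh.iso χ hχ χ hχ, hcoh.iso _ hs χ hχ, Irr.cfdot_self hi, cfdot_symm_zero
        (SeqInd.cfdot_star hF.lt.le hF.normal (mFT_odd L₁) le_rfl hχ), sub_zero]
  rcases hcoh.isDirr hχ hi with h | h
  · exact typeI_orth hL₁ (typeI_of_frobKer hL₁ hF) hL₂ h₂ hc hi hk h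
      (by rw [h1]; exact one_ne_zero)
  · simpa using (typeI_orth hL₁ (typeI_of_frobKer hL₁ hF) hL₂ h₂ hc hi hk h (by
      rw [cfdot_neg_right, h1]; simp)).neg

end Cfsg.Lib.BG.Z.PF
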