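import Cfsg.Agent.Lib.PF.Sec12Frob
import Cfsg.Agent.Lib.ZQ.Sec12Sub
import Cfsg.Agent.Lib.ZQ.Sec11Eta
import Cfsg.Agent.Lib.PF.Sec7Frob
import Cfsg.Agent.Lib.ZQ.Sec12Char
import Cfsg.Agent.Lib.PF.Sec12Grp
import Cfsg.Agent.Lib.BG.T03_3
import Cfsg.Agent.Lib.BG.T01_Cyclic

/-!
# Peterfalvi (12.7)-(12.17)
-/

set_option autoImplicit false
set_option linter.unusedVariables false

namespace Cfsg.Lib.BG.Z.PF

open Subgroup
open Cfsg.Lib.PF
open scoped Cfsg.Lib.Transfer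

variable {G : Type*} [Group G] [Finite G]

variable [Sz G] {L M : Subgroup G}

theorem Sec12.frobKer_of_cyclic (hM : Mx M) (h1 : TypeI M)
    (h : ∀ q : ℕ, q.Prime → q ∣ 𝐇(M).relIndex M → ∀ Q : Subgroup G, IsPGroup q Q → Q ≤ M →
      IsCyclic Q) : FrobKer M 𝐇(M) := by
  obtain ⟨U, hU⟩ := exists_compl_MF M
  obtain ⟨U₁, U₀, hF⟩ := exists_typeFWith (typeF_of_typeI hM h1) hU
  refine hF.frobKer_of_isZGroup ((odd_rank1_Zgroup (mFT_odd U)).2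
    (rank_le_iff_forall.2 fun q hq => ?_))
  have := Fact.mk hq
  by_contra hr
  obtain ⟨A, hA⟩ := exists_elem_of_le_rk (show 2 ≤ rk q U by omega)
  exact hA.not_cyclic le_rfl (h q hq (hU.relIndex_left ▸ hA.dvd_card two_ne_zero) A hA.pgroup
    (hA.le.trans hU.right_le))

/-- Peterfalvi (12.10), the reduction to type I. -/
theorem Sec12.typeI_of_not_cent_le {p : ℕ} [hp : Fact p.Prime] {P : Subgroup G} {x : G}
    (hL : Mx L) (hP : IsPGroup p P) (hc : ¬ IsCyclic P) (hPL : P ≤ typeCore L) (hx : x ∈ P)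
    (hx1 : x ≠ 1) (hCL : ¬ 𝐂[x] ≤ L) : TypeI L := by
  by_contra h1
  obtain ⟨U, W₁, W₂, h⟩ := exists_FTP hL h1
  have hPH : P ≤ 𝐇(L) := by
    by_cases h2 : IsOfTypeII L
    · rwa [typeCore_of_typeII hL h2] at hPL
    rw [h.typeCore_eq_der h2] at hPL
    by_cases hd : p ∣ Nat.card 𝐇(L)
    · refine le_MF_of_coprime (hPL.trans (der_le L)) ?_
      obtain ⟨k, hk⟩ := IsPGroup.iff_card.1 hP
      rw [hk]
      exact Nat.Coprime.pow_left k ((MF_coprime L).coprime_dvd_left hd)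
    · obtain ⟨S, hS⟩ := Syl.exists p U
      obtain ⟨g, -, hg⟩ := (Sec12.syl_of_sd (TypeP.sd_core h.P) hd hS).exists_conj_le hP hPL
      exact absurd ((cyclic_conj g).1
        (cyclic_of_le (h.type34_structure h2).2.2.2 (hg.trans hS.le))) hc
  exact hCL (Sec12.cent_le_of_normedTI (h.typeII_IV (not_typeV hL)).2.2
    ⟨MF_le_Fitting L (hPH hx), hx1⟩)

/-- Peterfalvi (12.10), the bound on the prime divisors of `|L : H|`. -/
theorem Sec12.lt_of_dvd_relIndex {p q : ℕ} [hp : Fact p.Prime] {A : Subgroup G} {x : G}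
    (hL : Mx L) (h1 : TypeI L) (hA : Elem p 2 A 𝐇(L)) (hx : x ∈ 𝐇(L)) (hx1 : x ≠ 1)
    (hCL : ¬ 𝐂[x] ≤ L) (hq : q.Prime) (hd : q ∣ 𝐇(L).relIndex L) : q < p := by
  obtain ⟨U, hU⟩ := exists_compl_MF L
  obtain ⟨U₁, U₀, hF⟩ := exists_typeFWith (typeF_of_typeI hL h1) hU
  obtain ⟨y, hy, hyq, hreg⟩ := hF.exists_regular hq (hU.relIndex_left ▸ hd)
  have hpd : p ∣ Nat.card 𝐇(L) := hA.dvd_card two_ne_zero
  have hp3 := mFT_three_le hpd
  have hlt : q ∣ p - 1 → q < p := fun h => by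
    have := Nat.le_of_dvd (by omega) h
    omega
  rcases typeI_cases hL h1 with hTI | ⟨hab, hr⟩ | ⟨hexp, -⟩
  · exact absurd (Sec12.cent_le_of_normedTI hTI ⟨hx, hx1⟩) hCL
  · have e := abelian_Ohm1_eq hab hA (hr ▸ rk_le_rank p _)
    have hc : Nat.card (zpowers y) = q := by rw [Nat.card_zpowers, hyq]
    have h2 := regular_norm_dvd_pred (K := A) (H := zpowers y)
      (e ▸ norm_Ohm1 ((zpowers_le.2 hy).trans hU.norm) p)
      (semiReg_prime (hc ▸ hq) (by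
        rw [cent_zpowers]; exact eq_bot_mono hreg (inf_le_inf_right _ hA.le)))
    rw [hc, hA.card, show p ^ 2 - 1 = (p + 1) * (p - 1) by simpa using Nat.sq_sub_sq p 1] at h2
    rcases (Nat.Prime.dvd_mul hq).1 h2 with h | h
    · have h3 := Nat.le_of_dvd (by omega) h
      have h4 : q ≠ p := by
        rintro rfl
        exact hq.one_lt.ne' (Nat.eq_one_of_dvd_coprimes (MF_coprime L) hpd hd)
      have h5 : Odd q := (mFT_odd L).of_dvd_nat (hd.trans (BG.relIndex_dvd_card _ _))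
      have h6 : Odd p := (mFT_odd _).of_dvd_nat hpd
      obtain ⟨a, ha⟩ := h5
      obtain ⟨b, hb⟩ := h6
      omega
    · exact hlt h
  · refine hlt (hyq ▸ orderOf_dvd_of_pow_eq_one ?_)
    have : y ^ (p - 1) ∈ 𝐇(L) ⊓ U := ⟨hexp p hp.out hpd y (hU.right_le hy), U.pow_mem hy _⟩
    rwa [hU.inf] at this

/-- Peterfalvi (12.11), second part. -/
theorem Sec12.inf_le_MF {p : ℕ} [hp : Fact p.Prime] {P : Subgroup G} {x g : G}
    (hM : Mx M) (h1 : TypeI M) (hF : FrobKer L 𝐇(L)) (hsd : SD 𝐇(M) (L ⊓ M) M)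
    (hP : Syl p P M) (hPH : P ≤ 𝐇(L)) (hpK : ¬ p ∣ Nat.card 𝐇(M)) (hx : x ∈ P) (hx1 : x ≠ 1)
    (hg : g ∈ 𝐇(M)) (hg1 : g ≠ 1) (hxg : x * g = g * x) : M ⊓ L ≤ 𝐇(L) := by
  rw [inf_comm]
  by_contra hne
  obtain ⟨U₁, U₀, hT⟩ := exists_typeFWith (typeF_of_typeI hM h1) hsd
  obtain ⟨q, hq, hqd⟩ := Nat.exists_prime_and_dvd (mt relIndex_eq_one.1 hne)
  obtain ⟨Z, hZ, hZq⟩ := exists_card_eq_prime hq (hqd.trans (BG.relIndex_dvd_card _ _))
  have hZL : Z ≤ L := hZ.trans inf_le_left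
  have hZM : Z ≤ M := hZ.trans inf_le_right
  have hreg : SemiReg 𝐇(L) Z := hF.semiReg hZL (disjoint_of_coprime (by
    rw [hZq]
    exact (MF_coprime L).coprime_dvd_right (hqd.trans (relIndex_dvd_of_norm inf_le_left hF.normal))))
  have hZ1 : Z ≠ ⊥ := ne_bot_of_prime (hZq ▸ hq)
  have hP1 : P ≠ ⊥ := ne_bot_of_mem hx hx1
  have hPe : P = 𝐎({p}, 𝐇(L)) ⊓ M := hP.eq_of_le_pgroup
    (le_inf (nil_le_pcore (MF_nil L) hPH hP.pi) hP.le) inf_le_right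
    (pgroup_of_le (pcore_pgroup p _) inf_le_left)
  have hZP : Z ≤ 𝐍(P) := by
    rw [hPe]
    exact norm_inf (norm_pcore (hZL.trans hF.normal) _) (le_norm_of_le hZM)
  have hregP : SemiReg P Z := fun z hz hz1 => eq_bot_mono (hreg z hz hz1) (inf_le_inf_right _ hPH)
  have hfrob : Frob P Z (P ⊔ Z) := ⟨SD.of_coprime hZP (regular_norm_coprime hZP hregP), hP1, hZ1,
    hregP⟩
  have hPC : ¬ P ≤ 𝐂(𝐇(M)) := by
    intro hc
    have hpd : p ∣ Nat.card ↥(L ⊓ M) :=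
      (pgroup_dvd_card hP.pgroup hP1).trans (card_dvd (le_inf (hPH.trans (MF_le L)) hP.le))
    obtain ⟨y, hy, hyp, hr⟩ := hT.exists_regular hp.out hpd
    obtain ⟨m, hm, hle⟩ := hP.exists_le_conj (Elem.zpowers hy.2 hyp).pgroup (zpowers_le.2 hy.2)
    refine hT.ne (eq_bot_mono hr (le_inf le_rfl ?_))
    rw [← cent_zpowers]
    refine cent_symm (hle.trans ?_)
    exact conj_le_of_norm hc (norm_cent (MF_nml M).norm hm)
  obtain ⟨k, hk, hk1⟩ := exists_ne_one (Frobenius_cent_compl hfrob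
    ((sup_le hP.le hZM).trans (MF_nml M).norm) ((PiGrp.p'_iff.2 hpK).coprime_pgroup hP.pgroup)
    (nil_sol (MF_nil M))
    ((MF_coprime M).coprime_dvd_right (hsd.relIndex_left ▸ card_dvd hZ)) hPC)
  have hZU : Z ≤ U₁ := (le_inf hZ (le_cent1_iff.2 hk.2)).trans (hT.cent_le k hk.1 hk1)
  have hxU : x ∈ U₁ := hT.cent_le g hg hg1 ⟨⟨MF_le L (hPH hx), hP.le hx⟩, mem_cent1.2 hxg⟩
  obtain ⟨z, hz, hz1⟩ := exists_ne_one hZ1
  have : x ∈ 𝐇(L) ⊓ 𝐂[z] := ⟨hPH hx, cent_le_cent1 (hZU hz) (abelian_cent hT.U₁_abelian hxU)⟩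
  rw [hreg z hz hz1] at this
  exact hx1 this

/-- Peterfalvi (12.12). -/
theorem Sec12.two_mul_relIndex_le {p : ℕ} [hp : Fact p.Prime] {P : Subgroup G} {x : G}
    (hF : FrobKer L 𝐇(L)) (hP : Syl p P M) (hPH : P ≤ 𝐇(L)) (hA : Elem p 2 (omegaOne p P) P)
    (hx : x ∈ omegaOne p P) (hx1 : x ≠ 1) (hN : 𝐍(zpowers x) ≤ M) (hML : M ⊓ L ≤ 𝐇(L))
    (hL : Loc L := by dd) :
    2 * 𝐇(L).relIndex L ≤ p + 1 := by
  obtain ⟨E, hE⟩ := hF.exists_frob
  have hLE : Loc E := hL.mono hE.sd.right_le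
  have hLP : Loc P := hL.mono (hPH.trans (MF_le L))
  rw [hE.sd.relIndex_left]
  have hPO : P ≤ 𝐎({p}, 𝐇(L)) := nil_le_pcore (MF_nil L) hPH hP.pi
  have hPe : P = 𝐎({p}, 𝐇(L)) ⊓ M := hP.eq_of_le_pgroup (le_inf hPO hP.le) inf_le_right
    (pgroup_of_le (pcore_pgroup p _) inf_le_left)
  set T := omegaOne p 𝐙(𝐎({p}, 𝐇(L))) with hT
  have hT1 : T ≠ ⊥ := Ohm1_center_ne_bot (pcore_pgroup p _)
    (ne_bot_of_mem (hPO (hA.le hx)) hx1)
  have hTe : IsElementaryAbelian p T := elab_Ohm1_center p _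
  have hTP : T ≤ P := by
    rw [hPe]
    refine le_inf ((Ohm1_le p _).trans inf_le_left) (((Ohm1_le p _).trans inf_le_right).trans ?_)
    exact ((cent_anti (zpowers_le.2 (hPO (hA.le hx)))).trans (cent_le_norm _)).trans hN
  have hTA : T ≤ omegaOne p P := elab_le_Ohm1 hTe hTP
  have hET : E ≤ 𝐍(T) := norm_Ohm1 (norm_center (norm_pcore hE.sd.norm _)) p
  have hreg : SemiReg T E := fun z hz hz1 =>
    eq_bot_mono (hE.reg z hz hz1) (inf_le_inf_right _ (hTP.trans hPH))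
  have hp3 := mFT_three_le (hA.dvd_card two_ne_zero)
  rcases hTA.eq_or_lt with e | hlt
  · refine two_mul_card_le_of_reg (mFT_odd E) (by omega) (e ▸ hA.top) hET hreg (e ▸ hx) hx1 ?_
    rw [eq_bot_iff, ← hE.sd.inf]
    exact le_inf ((le_inf (inf_le_right.trans hN) (inf_le_left.trans hE.sd.right_le)).trans hML)
      inf_le_left
  · have h2 := regular_norm_dvd_pred hET hreg
    rw [(hA.one_of_lt hT1 hlt).card_one] at h2
    have := two_mul_add_one_le_of_odd (mFT_odd E)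
      ((mFT_odd P).of_dvd_nat (hA.dvd_card two_ne_zero)) (by omega) h2
    omega

/-- Peterfalvi (12.8)-(12.16). -/
theorem Sec12.cyclic_of_typeI (p : ℕ) (hp : p.Prime) : ∀ M Q : Subgroup G, Mx M → TypeI M →
    ¬ p ∣ Nat.card 𝐇(M) → IsPGroup p Q → Q ≤ M → IsCyclic Q := by
  induction p using Nat.strong_induction_on with
  | _ p ih =>
  intro M Q hM h1 hpK hQ hQM
  by_contra hQc
  have := Fact.mk hp
  obtain ⟨U, hU⟩ := exists_compl_MF M
  obtain ⟨P, hPU⟩ := Syl.exists p U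
  have hP := Sec12.syl_of_sd hU hpK hPU
  have hPc : ¬ IsCyclic P := fun h => by
    obtain ⟨g, -, hg⟩ := hP.exists_conj_le hQ hQM
    exact hQc ((cyclic_conj g).1 (cyclic_of_le h hg))
  obtain ⟨hf₁, hf₂⟩ := typeI_II_facts hM (Or.inl ⟨h1, hU⟩)
  obtain ⟨hab, hr⟩ := hf₁ p P hp hP.pgroup hPU.le
  have hA : Elem p 2 (omegaOne p P) P := by
    have := abelian_elem_Ohm1 (p := p) hab
    rwa [le_antisymm hr (mFT_two_le_rk hP.pgroup hPc)] at this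
  -- (12.9)
  obtain ⟨x, hx, hx1, g, ⟨hg, hgx⟩, hg'⟩ : ∃ x ∈ omegaOne p P, x ≠ 1 ∧
      ∃ g ∈ 𝐇(M) ⊓ 𝐂[x], g ∉ ⁅𝐇(M), 𝐇(M)⁆ := by
    by_contra h
    push Not at h
    have := coprime_abelian_gen_cent1 (H := ⁅𝐇(M), 𝐇(M)⁆) hA.abelian (hA.not_cyclic le_rfl)
      ((hA.le.trans hP.le).trans (MF_nml M).norm)
      ((PiGrp.p'_iff.2 hpK).coprime_pgroup hA.pgroup).symm h
    have h2 := commutator_sup_lt (nil_sol (MF_nil M)) (bot_lt_iff_ne_bot.2 (max_MF_ne_bot hM))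
      (le_normalizer_bot _)
    rw [sup_bot_eq] at h2
    exact h2.not_ge this
  have hxP := hA.le hx
  have hg1 : g ≠ 1 := fun e => hg' (e ▸ one_mem _)
  have huniq : UniqMax 𝐂[x] M := hf₂ {x} (Set.singleton_subset_iff.2 ⟨hPU.le hxP, hx1⟩)
    (Set.singleton_nonempty x) (ne_bot_of_mem ⟨hg, hgx⟩ hg1)
  have hpP : p ∣ Nat.card P := hA.dvd_card two_ne_zero
  obtain ⟨L, hL, hPL⟩ : ∃ L : Subgroup G, Mx L ∧ P ≤ typeCore L := by
    obtain ⟨L, hL, hd⟩ := exists_max_dvd_typeCore hp (hpP.trans P.card_subgroup_dvd_card)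
    obtain ⟨h, hh⟩ := exists_conj_le_typeCore hL hp hd hP.pgroup
    refine ⟨h⁻¹ ⋆ L, mmax_conj hL _, ?_⟩
    rw [← conj_typeCore]
    exact Transfer.conj_le_iff_le_inv_conj.1 hh
  have hCL : ¬ 𝐂[x] ≤ L := fun h => by
    rw [huniq.eq hL h, typeCore_of_typeI hM h1] at hPL
    exact hpK (hpP.trans (card_dvd hPL))
  -- (12.10)
  have hL1 := Sec12.typeI_of_not_cent_le hL hP.pgroup hPc hPL hxP hx1 hCL
  rw [typeCore_of_typeI hL hL1] at hPL
  have hF : FrobKer L 𝐇(L) := Sec12.frobKer_of_cyclic hL hL1 fun q hq hd R hR hRL =>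
    ih q (Sec12.lt_of_dvd_relIndex hL hL1 (hA.mono hPL) (hPL hxP) hx1 hCL hq hd) hq L R hL hL1
      (fun h => hq.one_lt.ne' (Nat.eq_one_of_dvd_coprimes (MF_coprime L) h hd)) hR hRL
  -- (12.11)
  obtain ⟨-, N, hN, -, hsd, -⟩ := support_facts hL (sharp_MF_subset_ftA0 hL ⟨hPL hxP, hx1⟩) hCL
  obtain rfl : M = N := hN.eq_of_uniqMax huniq
  have hML := Sec12.inf_le_MF hM h1 hF hsd hP hPL hpK hxP hx1 hg hg1 (mem_cent1.1 hgx).symm
  have hNx : 𝐍(zpowers x) ≤ M := huniq.ge (cent_zpowers x ▸ cent_le_norm _)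
    (mFT_pgroup_norm_proper (hA.zpowers_of_mem hx hx1).pgroup (by simpa using hx1))
  refine Sec12.char_contradiction hM h1 (fun hFM => hPc ?_) hL hF hp (hPL hxP)
    (hA.orderOf_eq hx hx1) huniq.le hCL hg hg' (mem_cent1.1 hgx).symm hML
    (hA.card ▸ Nat.le_of_dvd Nat.card_pos (card_dvd (hA.le.trans hPL)))
    (Sec12.two_mul_relIndex_le hF hP hPL hA hx hx1 hNx hML)
  exact odd_regular_pgroup_cyclic (mFT_ne_two hpP) hP.pgroup hFM.ne_bot (hP.le.trans hFM.normal)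
    (hFM.semiReg hP.le (disjoint_of_coprime ((PiGrp.p'_iff.2 hpK).coprime_pgroup hP.pgroup)))

/-- Peterfalvi (12.7). -/
theorem frobKer_of_typeI (hM : Mx M) (h1 : TypeI M) : FrobKer M 𝐇(M) :=
  Sec12.frobKer_of_cyclic hM h1 fun q hq hd Q hQ hQM => Sec12.cyclic_of_typeI q hq M Q hM h1
    (fun h => hq.one_lt.ne' (Nat.eq_one_of_dvd_coprimes (MF_coprime M) h hd)) hQ hQM

end Cfsg.Lib.BG.Z.PF
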