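import Cfsg.Agent.Lib.PF.Sec13Bound
import Cfsg.Agent.Lib.ZQ.Sec13Sum
import Cfsg.Agent.Lib.PF.Sec13BoundAux

/-!
# Peterfalvi (13.4), (13.9)-(13.15)
-/

set_option autoImplicit false
set_option linter.unusedVariables false

namespace Cfsg.Lib.BG.Z.PF

open Subgroup
open Cfsg.Lib.PF
open scoped Cfsg.Lib.Transfer

variable {G : Type*} [Group G] [Finite G] [Sz G] {S T U V W₁ W₂ : Subgroup G} {ζ : G → ℂ}

namespace FTP

variable (h : FTP S U W₁ W₂)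
include h

theorem b13_TI : NormedTI (sharp 𝐅(S)) ⊤ S := (h.typeII_IV h.pcore_bot.notV).2.2

theorem b13_card_der : Nat.card ↥⁅S, S⁆ = Nat.card W₂ ^ Nat.card W₁ * Nat.card U := by
  rw [← (TypeP.sd_core h.P).card, h.card_MF]

theorem b13_card : Nat.card S = Nat.card W₂ ^ Nat.card W₁ * Nat.card U * Nat.card W₁ := by
  rw [← (TypeP.sd_der h.P).card, h.b13_card_der]

theorem b13_coprime : (Nat.card W₁).Coprime (Nat.card U) :=
  (TypeP.coprime_der h.P).coprime_dvd_right (card_dvd (TypeP.sd_core h.P).right_le)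

theorem b13_card_Fitting :
    Nat.card 𝐅(S) = Nat.card W₂ ^ Nat.card W₁ * Nat.card ↥(U ⊓ 𝐂(𝐇(S))) := by
  rw [← (TypeP.dp_Fitting h.P).card, h.card_MF]

theorem b13_star_ne (hζ : ζ ∈ seqIndD ⁅S, S⁆ S 𝐇(S) ⊥) : star ζ ≠ ζ :=
  SeqInd.star_ne (Nml.der_self S).le (Nml.der_self S).norm (mFT_odd S) (TypeP.sd_core h.P).left_le hζ

theorem b13_cfdot_eta {τ₁ : (G → ℂ) →ₗ[ℂ] (G → ℂ)}
    (hc : CoherentWith S ⊤ (seqIndD ⁅S, S⁆ S 𝐇(S) ⊥) (ftDade S) τ₁)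
    (hζ : ζ ∈ seqIndD ⁅S, S⁆ S 𝐇(S) ⊥) (hi : ζ ∈ Irr S) (i : LChar W₁) (j : LChar W₂) :
    cfdot ⊤ (τ₁ ζ) (eta ⊤ W₁ W₂ i j) = 0 :=
  h.prDadeF.cfdot_map_eta (SeqInd.conjSub le_rfl le_rfl) hc hζ hi (h.b13_star_ne hζ) i j

/-- Off the conjugates of `H^#`, the images of the characters induced from `H` agree with a
signed column sum of the `η_ij`. -/
theorem b13_key : ∃ τ₁, CoherentWith S ⊤ (seqIndD ⁅S, S⁆ S 𝐇(S) ⊥) (ftDade S) τ₁ ∧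
    ∃ (j : LChar W₂) (ε : ℂ), j ≠ 1 ∧ (ε = 1 ∨ ε = -1) ∧
      ∀ ζ ∈ seqIndD ⁅S, S⁆ S 𝐇(S) ⊥, ζ ∈ seqIndD 𝐅(S) S 𝐇(S) ⊥ →
        ∀ g, g ∉ classSupp (sharp 𝐅(S)) ⊤ → (τ₁ ζ - ε • ∑ i, eta ⊤ W₁ W₂ i j) g = 0 := by
  obtain ⟨τ₁, hc, hτ⟩ := h.exists_coherent_muj
  obtain ⟨j, hj, -⟩ := exists_ne_ne (I := LChar W₂) (h.cycTI.card_LChar₂ ▸ h.three_le_p) 1 1
  have key : ∀ ζ ∈ seqIndD ⁅S, S⁆ S 𝐇(S) ⊥, ζ ∈ seqIndD 𝐅(S) S 𝐇(S) ⊥ →
      ∀ g, g ∉ classSupp (sharp 𝐅(S)) ⊤ → (τ₁ ζ - τ₁ (muj S W₁ W₂ j)) g = 0 := by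
    intro ζ hζ hζ' g hg
    have hd := (abelian_iff_der.1 h.Fitting_abelian).le
    have h1 : ζ 1 = muj S W₁ W₂ j 1 := by
      rw [SeqInd.apply_one_of_commutator_le (Fitting_le S) hd hζ',
        SeqInd.apply_one_of_commutator_le (Fitting_le S) hd (h.muj_mem_Fitting hj)]
    rw [← map_sub, hc.map_sub (mem_ZS_of_mem hζ) (mem_ZS_of_mem (h.muj_mem hj)) h1]
    exact h.ftDade_apply_eq_zero ((sharp_Fitting_subset_ftA h.max).trans (ftA_subset_ftA0 S))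
      (SeqInd.Z0_mem_CFon (Fitting_nml S).norm subset_rfl
        (sub_mem_Z0 (mem_ZS_of_mem hζ') (mem_ZS_of_mem (h.muj_mem_Fitting hj)) h1)) hg
  refine ⟨τ₁, hc, ?_⟩
  rcases hτ j hj with e | e
  · exact ⟨j, 1, hj, Or.inl rfl, by rw [one_smul, ← e]; exact key⟩
  · exact ⟨j⁻¹, -1, LChar.inv_ne_one' hj, Or.inr rfl, by rw [neg_smul, one_smul, ← e]; exact key⟩

/-- Peterfalvi (13.9)(a). -/
theorem b13_eta_ne_zero {i : LChar W₁} (hi : i ≠ 1) {j : LChar W₂} {x : G}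
    (h0 : (∑ i, eta ⊤ W₁ W₂ i j) x = 0) : eta ⊤ W₁ W₂ i 1 x ≠ 0 := by
  classical
  intro hx
  have hW := h.cycTI
  by_cases hV : x ∈ classSupp (cycV W₁ W₂) ⊤
  · obtain ⟨v, hv, g, hg, rfl⟩ := hV
    rw [CF.conj (hW.eta_mem_CF i 1) hg, hW.eta_apply i 1 hv] at hx
    have := (Irr.isChar (hW.omega_mem_Irr i 1)).norm_apply_of_apply_one (hW.omega_apply_one i 1)
      (mem_cycV.1 hv).1
    rw [hx, norm_zero] at this
    exact zero_ne_one this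
  have hq := h.pcore_bot.q_prime
  have h1 : ∀ k : LChar W₁, eta ⊤ W₁ W₂ k j x =
      eta ⊤ W₁ W₂ 1 j x - 1 + if k = 1 then 1 else 0 := by
    intro k
    split_ifs with hk
    · rw [hk]; ring
    obtain ⟨u, hu, -⟩ := exists_autL_eq_of_prime hq hi hk one_ne_zero (Nat.coprime_one_right _)
    have h2 := congrFun (hW.comp_eta i 1 u) x
    rw [Function.comp_apply, hx, map_zero, hu, autL_one] at h2
    have h3 := ind_eq_zero_of_not_mem_classSupp (hW.omega_rect_mem_CFon k 1 j 1) hV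
    rw [hW.ind_rect, hW.eta_one_one] at h3
    simp only [Pi.add_apply, Pi.sub_apply, ← h2, cf1_of_mem (mem_top x)] at h3
    linear_combination h3
  rw [Finset.sum_apply, Finset.sum_congr rfl (fun k _ => h1 k), Finset.sum_add_distrib,
    Finset.sum_const, Finset.sum_ite_eq', if_pos (Finset.mem_univ _), Finset.card_univ,
    hW.card_LChar₁, nsmul_eq_mul] at h0
  have h4 : IsIntegral ℤ (1 - eta ⊤ W₁ W₂ 1 j x) :=
    isIntegral_one.sub (ZI.isIntegral (hW.eta_mem_ZI 1 j) x)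
  have hq0 : (Nat.card W₁ : ℂ) ≠ 0 := card_ne_zero W₁
  have h5 : 1 - eta ⊤ W₁ W₂ 1 j x = algebraMap ℚ ℂ (1 / (Nat.card W₁ : ℚ)) := by
    simp only [one_div, eq_ratCast, Rat.cast_inv, Rat.cast_natCast]
    field_simp
    linear_combination -h0
  rw [h5, isIntegral_algebraMap_iff (algebraMap ℚ ℂ).injective] at h4
  obtain ⟨n, hn⟩ := IsIntegrallyClosed.isIntegral_iff.1 h4
  have h6 : (n : ℚ) * Nat.card W₁ = 1 := by
    rw [eq_intCast] at hn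
    rw [hn, one_div, inv_mul_cancel₀]
    exact_mod_cast hq.ne_zero
  have h7 : (Nat.card W₁ : ℤ) ∣ 1 := ⟨n, by rw [mul_comm]; exact_mod_cast h6.symm⟩
  exact hq.one_lt.ne' (Nat.dvd_one.1 (by exact_mod_cast h7))

end FTP

theorem FTPair.b13_disjoint (h : FTPair S T U V W₁ W₂) :
    Disjoint (classSupp (sharp 𝐅(S)) ⊤) (classSupp (sharp 𝐅(T)) ⊤) := by
  rw [Set.disjoint_left]
  rintro _ ⟨a, ha, x, -, rfl⟩ ⟨b, hb, y, -, e⟩
  have hle : (x⁻¹ * y) ⋆ 𝐇(T) ≤ S := by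
    refine Transfer.conj_le_iff.2 fun z hz => (h.left.b13_TI.conj_mem_iff a ha _ (mem_top _)).1 ?_
    have hc : z * b = b * z :=
      le_cent_iff.1 (abelian_cent h.right.Fitting_abelian) z (MF_le_Fitting T hz) b hb.1
    have ea : a = x⁻¹ * y * b * (x⁻¹ * y)⁻¹ := by
      calc a = x⁻¹ * (x * a * x⁻¹) * x := by group
        _ = _ := by rw [e]; group
    have : x⁻¹ * y * z * (x⁻¹ * y)⁻¹ * a * (x⁻¹ * y * z * (x⁻¹ * y)⁻¹)⁻¹ = a := by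
      calc _ = x⁻¹ * y * (z * b) * z⁻¹ * (x⁻¹ * y)⁻¹ := by rw [ea]; group
        _ = a := by rw [hc, ea]; group
    rwa [this]
  have hd := card_dvd hle
  have hq := h.left.pcore_bot.q_prime
  have hpq : (Nat.card W₁).Coprime (Nat.card W₂) := h.left.cycTI.coprime
  rw [Transfer.card_conj, h.right.card_MF, h.left.b13_card] at hd
  have h1 : Nat.card W₁ ^ Nat.card W₂ ∣ Nat.card W₁ ^ 1 := by
    rw [pow_one]
    exact (Nat.Coprime.pow_left _ ((hpq.pow_right _).mul_right h.left.b13_coprime)).dvd_of_dvd_mul_left hd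
  have := (Nat.pow_dvd_pow_iff_le_right hq.one_lt).1 h1
  have := h.left.three_le_p
  omega

/-- Peterfalvi (13.4). -/
theorem FTPair.right_pGalois_of_irr (h : FTPair S T U V W₁ W₂) (hζ : ζ ∈ seqIndD ⁅S, S⁆ S 𝐇(S) ⊥)
    (hi : ζ ∈ Irr S) (hζ' : ζ ∈ seqIndD 𝐅(S) S 𝐇(S) ⊥) :
    PGalois V 𝐇(T) ⊥ ∧ V ⊓ 𝐂(𝐇(T)) = ⊥ ∧
      Nat.card V = (Nat.card W₁ ^ Nat.card W₂ - 1) / (Nat.card W₁ - 1) := by
  classical
  refine h.right.exists_irr_or_pGalois.resolve_left ?_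
  rintro ⟨θ, hθ, hθi, hθ'⟩
  obtain ⟨τ₁, hc₁, j, ε, hj, hε, h₁⟩ := h.left.b13_key
  obtain ⟨τ₂, hc₂, i, δ, hi', hδ, h₂⟩ := h.right.b13_key
  have hW := h.left.cycTI
  have key : ∀ θ ∈ seqIndD ⁅T, T⁆ T 𝐇(T) ⊥, θ ∈ Irr T → θ ∈ seqIndD 𝐅(T) T 𝐇(T) ⊥ →
      cfdot ⊤ (τ₁ ζ) (τ₂ θ) ≠ 0 := by
    intro θ hθ hθi hθ' h0
    have h3 : cfdot ⊤ (τ₁ ζ - ε • ∑ i, eta ⊤ W₁ W₂ i j) (τ₂ θ - δ • ∑ j, eta ⊤ W₂ W₁ j i) = 0 := by
      refine cfdot_eq_zero_of_disjoint fun g _ => ?_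
      by_cases hg : g ∈ classSupp (sharp 𝐅(S)) ⊤
      · exact Or.inr (h₂ θ hθ hθ' g (Set.disjoint_left.1 h.b13_disjoint hg))
      · exact Or.inl (h₁ ζ hζ hζ' g hg)
    have h4 : ∀ i j, cfdot ⊤ (eta ⊤ W₁ W₂ i j) (τ₂ θ) = 0 := fun i j => by
      rw [← hW.eta_swap]; exact cfdot_symm_zero (h.right.b13_cfdot_eta hc₂ hθ hθi j i)
    simp only [hW.eta_swap, cfdot_sub_left, cfdot_sub_right, cfdot_smul_left, cfdot_smul_right,
      cfdot_sum_left, cfdot_sum_right, h0, h4, h.left.b13_cfdot_eta hc₁ hζ hi, hW.cfdot_eta,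
      Finset.sum_const_zero, mul_zero, sub_zero, zero_sub, neg_neg] at h3
    simp [ite_and] at h3
    rcases hε with rfl | rfl <;> rcases hδ with rfl | rfl <;> simp at h3
  obtain ⟨e, -, he⟩ := (hc₁.isDirr hζ hi).exists_sign_of_cfdot_ne_zero (hc₂.isDirr hθ hθi)
    (key θ hθ hθi hθ')
  refine key (star θ) (SeqInd.star_mem hθ) (Irr.star_mem hθi) (SeqInd.star_mem hθ') ?_
  rw [he, cfdot_smul_left, hc₂.iso θ hθ _ (SeqInd.star_mem hθ),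
    Irr.cfdot_ne hθi (Irr.star_mem hθi) (h.right.b13_star_ne hθ).symm, mul_zero]

/-- Peterfalvi (13.10), with `q = |W₁|`, `p = |W₂|`. -/
theorem FTP.compl_ker_ratio_lb (h : FTP S U W₁ W₂) (hζ : ζ ∈ seqIndD ⁅S, S⁆ S 𝐇(S) ⊥)
    (hi : ζ ∈ Irr S) (hζ' : ζ ∈ seqIndD 𝐅(S) S 𝐇(S) ⊥) {p q : ℕ} (hp : p = Nat.card W₂)
    (hq : q = Nat.card W₁) :
    (1 - 1 / ((q : ℝ) - 1) - ((q : ℝ) - 1) / (q : ℝ) ^ p + 1 / (((q : ℝ) - 1) * (q : ℝ) ^ p)) *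
        (p : ℝ) ^ (q - 1) / q <
      ((U ⊓ 𝐂(𝐇(S))).relIndex U : ℝ) / Nat.card ↥(U ⊓ 𝐂(𝐇(S))) := by
  subst hp hq
  obtain ⟨T, V, hT⟩ := h.exists_pair
  obtain ⟨-, hD, hv⟩ := hT.right_pGalois_of_irr hζ hi hζ'
  obtain ⟨τ₁, hc, j, ε, -, hε, hτ⟩ := h.b13_key
  have hW := h.cycTI
  obtain ⟨i, hi1, -⟩ := exists_ne_ne (I := LChar W₁) (hW.card_LChar₁ ▸ h.three_le_q) 1 1
  have split := sum_split_TI h.b13_TI hT.right.b13_TI hT.b13_disjoint (fun h => h.2 rfl)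
    (fun h => h.2 rfl)
  set G₀ : Set G := ({1} ∪ (classSupp (sharp 𝐅(S)) ⊤ ∪ classSupp (sharp 𝐅(T)) ⊤))ᶜ with hG₀
  have hl := hc.isDirr hζ hi
  have he := hW.eta_isDirr i 1
  have norm : ∀ {χ : G → ℂ}, IsDirr ⊤ χ →
      ∑ x ∈ fs ((⊤ : Subgroup G) : Set G), ‖χ x‖ ^ 2 = Nat.card (⊤ : Subgroup G) := fun hχ => by
    rw [← card_mul_cfnorm, hχ.cfnorm_eq, mul_one]
  have s1 := split (fun x => ‖τ₁ ζ x‖ ^ 2) (fun k x => by rw [CF.conj hl.mem_CF (mem_top k)])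
  have s2 := split (fun x => ‖eta ⊤ W₁ W₂ i 1 x‖ ^ 2)
    (fun k x => by rw [CF.conj he.mem_CF (mem_top k)])
  have s3 := split (fun _ => 1) (fun _ _ => rfl)
  rw [norm hl] at s1
  rw [norm he] at s2
  have hsharp : ∀ K : Subgroup G, ∑ x ∈ fs (sharp K), (1 : ℝ) = Nat.card K - 1 := fun K => by
    have := sum_fs_diff_singleton (A := (K : Set G)) K.one_mem (fun _ => (1 : ℝ))
    rw [Finset.sum_const (s := fs (K : Set G)), card_fs_subgroup, nsmul_eq_mul, mul_one] at this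
    exact eq_sub_of_add_eq this
  rw [hsharp, hsharp, Finset.sum_const, Finset.sum_const, card_fs_subgroup, card_fs, nsmul_eq_mul,
    nsmul_eq_mul, mul_one, mul_one] at s3
  -- (13.9)(b)
  have hgen : ∀ x ∈ G₀, ∀ y, zpowers y = zpowers x → y ∈ G₀ := by
    rintro x hx y e (hy | hy | hy)
    · rw [Set.mem_singleton_iff.1 hy, zpowers_one_eq_bot, eq_comm, zpowers_eq_bot] at e
      exact hx (Or.inl e)
    · exact hx (Or.inr (Or.inl (mem_classSupp_sharp_of_zpowers e hy)))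
    · exact hx (Or.inr (Or.inr (mem_classSupp_sharp_of_zpowers e hy)))
  have b1 := ncard_le_sum_norm_sq hl.mem_ZI (A := G₀ \ {x | τ₁ ζ x = 0})
    (fun x hx y e => ⟨hgen x hx.1 y e,
      fun hy => hx.2 (ZI.apply_eq_zero_of_zpowers_eq hl.mem_ZI e.symm hy)⟩) (fun x hx => hx.2)
  have b2 := ncard_le_sum_norm_sq he.mem_ZI (A := G₀ ∩ {x | τ₁ ζ x = 0})
    (fun x hx y e => ⟨hgen x hx.1 y e, ZI.apply_eq_zero_of_zpowers_eq hl.mem_ZI e hx.2⟩)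
    (fun x hx => by
      have h1 := hτ ζ hζ hζ' x (fun h' => hx.1 (Or.inr (Or.inl h')))
      rw [Pi.sub_apply, (hx.2 : τ₁ ζ x = 0), zero_sub, neg_eq_zero, Pi.smul_apply, smul_eq_mul,
        mul_eq_zero] at h1
      exact h.b13_eta_ne_zero hi1 (h1.resolve_left (by rcases hε with rfl | rfl <;> simp)))
  have mono : ∀ {A : Set G} (χ : G → ℂ), A ⊆ G₀ →
      ∑ x ∈ fs A, ‖χ x‖ ^ 2 ≤ ∑ x ∈ fs G₀, ‖χ x‖ ^ 2 := fun χ hA =>
    Finset.sum_le_sum_of_subset_of_nonneg (fs_subset_fs.2 hA) (fun _ _ _ => sq_nonneg _)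
  have b3 : (G₀.ncard : ℝ) ≤ ∑ x ∈ fs G₀, ‖τ₁ ζ x‖ ^ 2 + ∑ x ∈ fs G₀, ‖eta ⊤ W₁ W₂ i 1 x‖ ^ 2 := by
    rw [← Set.ncard_inter_add_ncard_diff_eq_ncard G₀ {x | τ₁ ζ x = 0}, Nat.cast_add, add_comm]
    exact add_le_add (b1.trans (mono _ Set.diff_subset)) (b2.trans (mono _ Set.inter_subset_left))
  have l1 := h.sum_ind_Fitting_lb hc hζ hi hζ'
  have l2 := h.sum_eta10_lb hi1
  have l3 := hT.right.sum_eta01_lb hi1
  rw [hW.eta_swap, hD, relIndex_bot_left, hT.right.b13_card_der] at l3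
  have l4 : 0 ≤ ∑ x ∈ fs (sharp 𝐅(T)), ‖τ₁ ζ x‖ ^ 2 := Finset.sum_nonneg fun _ _ => sq_nonneg _
  have o1 := hl.one_le_norm_sq
  have o2 := he.one_le_norm_sq
  have cF := hT.right.b13_card_Fitting
  rw [hD, card_bot, mul_one] at cF
  have cS : Nat.card S = Nat.card W₂ ^ Nat.card W₁ * Nat.card ↥(U ⊓ 𝐂(𝐇(S))) *
      ((U ⊓ 𝐂(𝐇(S))).relIndex U * Nat.card W₁) := by
    rw [← h.relIndex_Fitting, ← h.b13_card_Fitting, card_mul_relIndex' (Fitting_le S)]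
  refine B13.ratio_lb Nat.card_pos (le_trans (by norm_num) h.three_le_q) (relIndex_pos _ _)
    Nat.card_pos hv ?_
  rw [h.relIndex_Fitting] at l1
  rw [cF] at s3
  have cT := hT.right.b13_card
  have cS' := congrArg (Nat.cast (R := ℝ)) cS
  have cT' := congrArg (Nat.cast (R := ℝ)) cT
  push_cast at cS' cT' l1 l3 s3
  rw [← cS', ← cT']
  have hg := card_pos_real (⊤ : Subgroup G)
  have hs := card_pos_real S
  have ht := card_pos_real T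
  have m1 := mul_le_mul_of_nonneg_left l1 (div_pos hg hs).le
  have m2 := mul_le_mul_of_nonneg_left l2 (div_pos hg hs).le
  have m3 := mul_le_mul_of_nonneg_left l3 (div_pos hg ht).le
  have m4 := mul_nonneg (div_pos hg ht).le l4
  rw [mul_sub, div_mul_cancel₀ _ hs.ne'] at m1
  refine lt_of_mul_lt_mul_left (a := (Nat.card (⊤ : Subgroup G) : ℝ)) ?_ hg.le
  rw [← mul_div_assoc, ← mul_div_assoc, mul_div_right_comm, mul_div_right_comm _ (_ ^ 2), mul_sub]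
  linarith

/-- Peterfalvi (13.12). -/
theorem FTP.cent_eq_bot (h : FTP S U W₁ W₂) : U ⊓ 𝐂(𝐇(S)) = ⊥ := by
  by_contra hC
  obtain ⟨ζ, hζ, hi, hζ'⟩ := h.exists_irr_or_pGalois.resolve_right fun h' => hC h'.2.1
  have lb := h.compl_ker_ratio_lb hζ hi hζ' rfl rfl
  have hP := h.pcore_bot
  have hn : W₁ ≤ 𝐍(U ⊓ 𝐂(𝐇(S))) := centMod_bot U 𝐇(S) ▸ le_sup_right.trans hP.norm_C
  have hF : Frob (U ⊓ 𝐂(𝐇(S))) W₁ _ := ⟨SD.of_norm hn
    (eq_bot_iff.2 ((inf_le_inf_right _ inf_le_left).trans (TypeP.sd_compl h.P).inf.le)), hC,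
    h.cycTI.ne₁, fun x hx hx1 => eq_bot_iff.2
      ((inf_le_inf_right _ inf_le_left).trans (TypeP.semiReg h.P x hx hx1).le)⟩
  have hc := (frobKer_of_frob hF).two_mul_relIndex_le
    (mFT_odd _ (h.max.sub (sup_le (inf_le_left.trans h.U_le') h.W₁_le')))
  rw [hF.sd.relIndex_left] at hc
  have hc' : 2 * (Nat.card W₁ : ℝ) + 1 ≤ Nat.card ↥(U ⊓ 𝐂(𝐇(S))) := by exact_mod_cast hc
  have hc0 := card_pos_real (U ⊓ 𝐂(𝐇(S)))
  obtain ⟨hq, hp, hr⟩ := B13.small_of_ratio hP.prime hP.q_prime h.three_le_p h.three_le_q hP.p_ne_q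
    lb (by
      refine le_trans ?_ (Nat.cast_le.2 h.u_le)
      rw [div_mul_eq_mul_div, div_le_iff₀ hc0]
      exact mul_le_mul_of_nonneg_left hc' (Nat.cast_nonneg _))
  obtain ⟨k1, k2⟩ := B13.small_cases hp (hq ▸ hc) hr
  by_cases hG : PGalois U 𝐇(S) ⊥
  · have hd := (hP.pGalois_facts hG).2.2.1
    have hd' := hP.q_dvd_u_sub_one
    rw [centMod_bot, hq] at hd hd'
    obtain ⟨e1, e2, e3⟩ := k1 hd hd'
    have := MF_max (Fitting_nml S) (Fitting_nil S) (by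
      rw [h.b13_card_Fitting, h.relIndex_Fitting, hq, e1, e2, e3]; norm_num)
    refine hC (eq_bot_iff.2 ?_)
    rw [← (TypeP.sd_core h.P).inf]
    exact le_inf ((TypeP.dp_Fitting h.P).right_le.trans this) inf_le_left
  · obtain ⟨H₁, lam, hN⟩ := hP.exists_nGal hG
    obtain ⟨-, h2, -, -, h3⟩ := hP.nGal_facts hN
    rw [centMod_bot, hq] at h3
    exact k2 _ h2 ((mFT_odd U).of_dvd_nat (BG.relIndex_dvd_card _ _)) h3

theorem FTP.Fitting_eq (h : FTP S U W₁ W₂) : 𝐅(S) = 𝐇(S) := by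
  rw [← (TypeP.dp_Fitting h.P).sup, h.cent_eq_bot, sup_bot_eq]

end Cfsg.Lib.BG.Z.PF
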