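import Cfsg.Agent.Lib.PF.Sec13Facts
import Cfsg.Agent.Lib.ZQ.Sec12Frob
import Cfsg.Agent.Lib.ZB.Max

/-!
# Peterfalvi (13.2), (13.3)

Notation: `P = 𝐇(S)`, `C = U ⊓ 𝐂(P)`, `H = P C = 𝐅(S)`, `p = |W₂|`, `q = |W₁|`, `u = |U : C|`,
`calS = seqIndD ⁅S, S⁆ S P ⊥`, `τ = ftDade S`.
-/

set_option autoImplicit false
set_option linter.unusedVariables false

namespace Cfsg.Lib.BG.Z.PF

open Subgroup
open Cfsg.Lib.PF
open scoped Cfsg.Lib.Transfer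

variable {G : Type*} [Group G] [Finite G] [Sz G] {S U W₁ W₂ : Subgroup G} {α : G → ℂ}
  {j : LChar W₂}

namespace FTP

variable (h : FTP S U W₁ W₂)
include h

theorem not_typeV' : ¬ IsOfTypeV S := not_typeV h.max

/-- Peterfalvi (13.2)(a). -/
theorem typeII_or_III : IsOfTypeII S ∨ IsOfTypeIII S := by
  by_cases h2 : IsOfTypeII S
  · exact Or.inl h2
  · exact Or.inr (h.type34_structure h2).2.1

theorem typeII_of_lt (hlt : Nat.card W₁ < Nat.card W₂) : IsOfTypeII S := by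
  by_contra h2
  exact lt_asymm hlt (h.type34_structure h2).1

theorem frob_compl : Frob U W₁ (U ⊔ W₁) := TypeP.frob h.P (h.typeII_IV h.not_typeV').1

theorem U_abelian : IsMulCommutative U := by
  rcases h.typeII_or_III with h2 | h3
  · exact (h.typeII h2).2.1
  · exact (h.typeIII_iff.1 h3).2.2

/-- Peterfalvi (13.2)(b). -/
theorem pcore_bot : PCore S U W₁ W₂ ⊥ (Nat.card W₂) := by
  by_cases h2 : IsOfTypeII S
  · exact (h.typeII_prime_facts h2).1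
  · exact h.type34_pcore h2

theorem MF_comm : ∀ a ∈ 𝐇(S), ∀ b ∈ 𝐇(S), a * b = b * a := fun a ha b hb => by
  have := h.pcore_bot.der_le (commutator_mem_commutator ha hb)
  rw [mem_bot, commutatorElement_eq_one_iff_mul_comm] at this
  exact this

theorem MF_elem : IsElementaryAbelian (Nat.card W₂) 𝐇(S) :=
  ⟨⟨⟨fun a b => Subtype.ext (h.MF_comm a a.2 b b.2)⟩⟩,
    fun _ ha => mem_bot.1 (h.pcore_bot.pow_mem ha)⟩

theorem card_MF : Nat.card 𝐇(S) = Nat.card W₂ ^ Nat.card W₁ := by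
  rw [← h.pcore_bot.index, relIndex_bot_left]

theorem three_le_p : 3 ≤ Nat.card W₂ := h.cycTI.three_le₂

theorem three_le_q : 3 ≤ Nat.card W₁ := h.cycTI.three_le₁

/-- Peterfalvi (13.2)(c). -/
theorem u_le : (U ⊓ 𝐂(𝐇(S))).relIndex U ≤ (Nat.card W₂ ^ Nat.card W₁ - 1) / (Nat.card W₂ - 1) := by
  have hp := h.three_le_p
  have hq := h.three_le_q
  have hge := pow_pred_le_geom (p := Nat.card W₂) (q := Nat.card W₁) (by omega) (by omega)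
  have hpos : 0 < Nat.card W₂ ^ (Nat.card W₁ - 1) := by positivity
  rw [← centMod_bot]
  by_cases hG : PGalois U 𝐇(S) ⊥
  · exact Nat.le_of_dvd (by omega) (h.pcore_bot.pGalois_facts hG).2.2.1
  · obtain ⟨H₁, lam, hN⟩ := h.pcore_bot.exists_nGal hG
    obtain ⟨h1, h2, -, -, h3⟩ := h.pcore_bot.nGal_facts hN
    refine (Nat.le_of_dvd (by positivity) h3).trans (le_trans ?_ hge)
    exact Nat.pow_le_pow_left ((Nat.le_of_dvd (by omega) h2).trans (Nat.sub_le _ _)) _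

theorem commutator_C_eq_bot : ⁅centMod U 𝐇(S) ⊥, centMod U 𝐇(S) ⊥⁆ = ⊥ := by
  rw [commutator_eq_bot_iff_le_centralizer]
  intro x hx
  rw [mem_centralizer_iff]
  intro y hy
  exact congrArg Subtype.val
    (h.U_abelian.is_comm.comm (⟨y, centMod_le _ _ _ hy⟩ : U) ⟨x, centMod_le _ _ _ hx⟩)

/-- Peterfalvi (13.2)(d). -/
theorem coherent_core : Coherent S ⊤ (seqIndD ⁅S, S⁆ S 𝐇(S) ⊥) (ftDade S) := by
  have := h.pcore_bot.coherent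
  rwa [h.commutator_C_eq_bot, bot_sup_eq] at this

theorem cent_le_of_mem_ftA0 {x : G} (hx : x ∈ ftA0 S) : 𝐂[x] ≤ S := by
  by_contra hc
  obtain ⟨-, L, hL, -, -, -, -, ⟨h1, h2⟩, h3, h4⟩ := support_facts h.max hx hc
  rcases h3 with h3 | h3
  · rw [ftA_of_frobKer hL.max (frobKer_of_typeI hL.max h3)] at h1
    rw [typeA1_of_typeI hL.max h3] at h2
    exact h2 h1
  · exact TypeP.not_frobKer h.P (h4 h3)

theorem supportR_eq_bot {x : G} (hx : x ∈ ftA0 S) : supportR S x = ⊥ :=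
  supportR_of_le (h.cent_le_of_mem_ftA0 hx)

theorem sharp_Fitting_subset_ftA0 : sharp 𝐅(S) ⊆ ftA0 S :=
  (sharp_Fitting_subset_ftA h.max).trans (ftA_subset_ftA0 S)

/-- Peterfalvi (13.2)(e). -/
theorem normedTI_ftA0 : NormedTI (ftA0 S) ⊤ S := by
  refine Dade.normedTI_of_eq_bot (ftDade_hyp h.max) ?_ fun a ha => h.supportR_eq_bot ha
  obtain ⟨⟨x, hx⟩, hx1⟩ := (ne_bot_iff_exists_ne_one.1 (TypeP.MF_ne_bot h.P))
  exact ⟨x, h.sharp_Fitting_subset_ftA0 ⟨MF_le_Fitting S hx, fun e => hx1 (Subtype.ext e)⟩⟩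

theorem ftDade_eq_ind (hα : α ∈ CFon S (ftA0 S)) : ftDade S α = ind S ⊤ α :=
  Dade.eq_ind (ftDade_hyp h.max) subset_rfl (fun _ ha => h.supportR_eq_bot ha) hα

theorem ftDade_apply_eq_zero {A : Set G} (hA : A ⊆ ftA0 S) (hα : α ∈ CFon S A) {g : G}
    (hg : g ∉ classSupp A ⊤) : ftDade S α g = 0 := by
  rw [h.ftDade_eq_ind (CFon.mono hA hα)]
  exact ind_eq_zero_of_not_mem_classSupp hα hg

theorem Fitting_abelian : IsMulCommutative 𝐅(S) :=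
  (TypeP.dp_Fitting h.P).abelian h.MF_elem.1 (abelian_of_le h.U_abelian inf_le_left)

omit [Sz G] in
theorem Fitting_eq_sup : 𝐇(S) ⊔ centMod U 𝐇(S) ⊥ = 𝐅(S) := by
  rw [centMod_bot, (TypeP.dp_Fitting h.P).sup]

omit [Sz G] in
theorem Fitting_le_der : 𝐅(S) ≤ ⁅S, S⁆ := by
  rw [← h.Fitting_eq_sup, ← (TypeP.sd_core h.P).sup]
  exact sup_le_sup_left (centMod_le _ _ _) _

theorem relIndex_Fitting_der : 𝐅(S).relIndex ⁅S, S⁆ = (U ⊓ 𝐂(𝐇(S))).relIndex U := by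
  rw [← h.Fitting_eq_sup, h.pcore_bot.relIndex_HC, centMod_bot]

theorem relIndex_Fitting : 𝐅(S).relIndex S = (U ⊓ 𝐂(𝐇(S))).relIndex U * Nat.card W₁ := by
  rw [← relIndex_mul_relIndex _ _ _ h.Fitting_le_der h.primeTI.K_le, h.relIndex_Fitting_der,
    h.primeTI.relIndex_eq]

theorem muj_mem (hj : j ≠ 1) : muj S W₁ W₂ j ∈ seqIndD ⁅S, S⁆ S 𝐇(S) ⊥ :=
  h.prDadeF.muj_mem_seqIndD j hj

theorem muj_facts' (hj : j ≠ 1) :
    muj S W₁ W₂ j 1 = Nat.card W₁ * (U ⊓ 𝐂(𝐇(S))).relIndex U ∧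
      IsIndLin 𝐅(S) S (muj S W₁ W₂ j) := by
  have := (h.pcore_bot.muj_facts hj fun w _ hw => by
    rw [mem_bot.1 hw, linChar_apply_one]).2
  rwa [h.Fitting_eq_sup, centMod_bot] at this

omit [Sz G] in
/-- A member of `calS` induced from `H = 𝐅(S)` lies in `calS₁`. -/
theorem mem_Fitting_of_isIndLin {ζ : G → ℂ} {Y : Subgroup G} (hζ : ζ ∈ seqIndD ⁅S, S⁆ S 𝐇(S) Y)
    (hi : IsIndLin 𝐅(S) S ζ) : ζ ∈ seqIndD 𝐅(S) S 𝐇(S) ⊥ := by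
  obtain ⟨ξ, hξ, -, rfl⟩ := hi
  refine SeqInd.ind_mem hξ bot_le fun hk => ?_
  exact SeqInd.not_le_cfker (Nml.der_self S).le (TypeP.sd_core h.P).left_le (MF_nml S).norm hζ
    (le_cfker_ind (MF_le_Fitting S) (MF_le S) (MF_nml S).norm hk)

/-- Peterfalvi (13.3)(a). -/
theorem muj_mem_Fitting (hj : j ≠ 1) : muj S W₁ W₂ j ∈ seqIndD 𝐅(S) S 𝐇(S) ⊥ :=
  h.mem_Fitting_of_isIndLin (h.muj_mem hj) (h.muj_facts' hj).2

theorem mu2_apply_one (i : LChar W₁) (hj : j ≠ 1) :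
    mu2 S W₁ W₂ i j 1 = (U ⊓ 𝐂(𝐇(S))).relIndex U := by
  have := (h.muj_facts' hj).1
  rw [h.primeTI.muj_apply_one i j] at this
  exact mul_left_cancel₀ (card_ne_zero W₁) this

/-- Peterfalvi (13.3)(c), first part. -/
theorem pdelta_eq_one (j : LChar W₂) : pdelta S W₁ W₂ j = 1 := by
  by_cases hj : j = 1
  · rw [hj, h.primeTI.pdelta_one]
  refine (pdelta_eq S W₁ W₂ j).resolve_right fun e => ?_
  have h1 := h.primeTI.dvd_deg_mu2_sub 1 j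
  rw [e, deg_of_eq (h.mu2_apply_one 1 hj)] at h1
  have h2 := h.pcore_bot.q_dvd_u_sub_one
  rw [centMod_bot] at h2
  have h3 : 1 ≤ (U ⊓ 𝐂(𝐇(S))).relIndex U := relIndex_pos _ _
  have h4 : (Nat.card W₁ : ℤ) ∣ ((U ⊓ 𝐂(𝐇(S))).relIndex U : ℤ) - 1 := by
    have := Int.natCast_dvd_natCast.2 h2
    rwa [Nat.cast_sub h3] at this
  have h5 : (Nat.card W₁ : ℤ) ∣ 2 := by
    have := dvd_sub h1 h4
    rwa [show ∀ a : ℤ, a - -1 - (a - 1) = 2 from fun a => by ring] at this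
  have h6 := Int.le_of_dvd (by norm_num) h5
  have := h.three_le_q
  omega

/-- Peterfalvi (13.3)(b). -/
theorem exists_irr_or_pGalois :
    (∃ ζ ∈ seqIndD ⁅S, S⁆ S 𝐇(S) ⊥, ζ ∈ Irr S ∧ ζ ∈ seqIndD 𝐅(S) S 𝐇(S) ⊥) ∨
    (PGalois U 𝐇(S) ⊥ ∧ U ⊓ 𝐂(𝐇(S)) = ⊥ ∧
      Nat.card U = (Nat.card W₂ ^ Nat.card W₁ - 1) / (Nat.card W₂ - 1)) := by
  rcases h.pcore_bot.irr_or_pGalois with ⟨ζ, h1, h2, -, h3⟩ | ⟨h1, h2, -, h3, -⟩
  · rw [h.Fitting_eq_sup] at h3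
    rw [h.commutator_C_eq_bot, bot_sup_eq] at h1
    exact Or.inl ⟨ζ, h1, h2, h.mem_Fitting_of_isIndLin h1 h3⟩
  · rw [centMod_bot] at h2
    exact Or.inr ⟨h1, h2, h3⟩

theorem star_ne_of_mem {ζ : G → ℂ} (hζ : ζ ∈ seqIndD ⁅S, S⁆ S 𝐇(S) ⊥) : star ζ ≠ ζ :=
  SeqInd.star_ne (Nml.der_self S).le (Nml.der_self S).norm (mFT_odd S)
    (TypeP.sd_core h.P).left_le hζ

/-- Peterfalvi (13.3)(c), second part. -/
theorem exists_coherent_muj : ∃ τ₁, CoherentWith S ⊤ (seqIndD ⁅S, S⁆ S 𝐇(S) ⊥) (ftDade S) τ₁ ∧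
    ∀ j, j ≠ 1 → τ₁ (muj S W₁ W₂ j) = ∑ i, eta ⊤ W₁ W₂ i j ∨
      τ₁ (muj S W₁ W₂ j) = -∑ i, eta ⊤ W₁ W₂ i j⁻¹ := by
  by_cases hi : ∃ χ ∈ seqIndD ⁅S, S⁆ S 𝐇(S) ⊥, χ ∈ Irr S
  · obtain ⟨τ₁, hc⟩ := h.coherent_core
    refine ⟨τ₁, hc, fun j hj => ?_⟩
    have := h.prDadeF.map_muj (SeqInd.conjSub le_rfl le_rfl) (fun χ hχ => h.star_ne_of_mem hχ) hi
      (h.muj_mem hj) hc
    rw [h.pdelta_eq_one, one_smul, one_smul] at this
    exact this.imp_right And.left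
  · obtain ⟨k, hk, -⟩ := h.pcore_bot.exists_muj
    obtain ⟨τ₁, hc, he⟩ := h.prDadeF.exists_coherentWith_muj k (seqIndD ⁅S, S⁆ S 𝐇(S) ⊥)
      (fun φ hφ => by
        obtain ⟨j, hj, e⟩ := (h.prDadeF.mem_Irr_or_eq_muj hφ).resolve_left fun h' => hi ⟨φ, hφ, h'⟩
        exact ⟨j, hj, e, by rw [(h.muj_facts' hj).1, (h.muj_facts' hk).1]⟩) hk
    refine ⟨τ₁, hc, fun j hj => Or.inl ?_⟩
    rw [he j (h.muj_mem hj), h.pdelta_eq_one, one_smul]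

end FTP

end Cfsg.Lib.BG.Z.PF
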