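import Cfsg.Agent.Lib.PF.Sec9Char
import Cfsg.Agent.Lib.ZQ.Sec9CharAux

/-!
# Peterfalvi (9.8)-(9.10): the characters of `M` over `H/H₀`

`S(Y)` is `seqIndD ⁅M, M⁆ M 𝐇(M) Y`, and `X(Y)` the set of `θ ∈ Irr ⁅M, M⁆` with `Y ≤ cfker θ`,
`¬ 𝐇(M) ≤ cfker θ`.
-/

set_option autoImplicit false
set_option linter.unusedVariables false

namespace Cfsg.Lib.BG.Z.PF

open Subgroup
open Cfsg.Lib.PF
open scoped Cfsg.Lib.Transfer Classical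

variable {G : Type*} [Group G] [Finite G] [Sz G] {M U W₁ W₂ H₀ H₁ : Subgroup G} {p : ℕ}
  {lam θ : G → ℂ}

namespace PCore

variable (h : PCore M U W₁ W₂ H₀ p)
include h

/-- The reducible members of `S(Y)`, for `Y ⊴ M` with `Y ∩ H = H₀`, are `p - 1` of the `μ_j`. -/
theorem muj_mem_iff {Y : Subgroup G} (hY : Nml Y M) (hY' : Y ≤ ⁅M, M⁆) (hYH : Y ⊓ 𝐇(M) = H₀)
    (j : LChar W₂) : muj M W₁ W₂ j ∈ seqIndD ⁅M, M⁆ M 𝐇(M) Y ↔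
      j ≠ 1 ∧ ∀ w ∈ W₂, w ∈ H₀ → linChar W₂ j w = 1 := by
  have hp := h.ftp.primeTI
  have hW := TypeP.W₂_le h.ftp.P
  rw [← hp.ind_chij, SeqInd.ind_mem_iff (BG.der_le M) h.sdK.left_le hY' (MF_nml M).norm hY.norm
    (Nml.der_self M).norm (hp.chij_mem_Irr j), hp.le_cfker_chij_iff j hY' hY.norm, and_comm]
  refine and_congr ⟨fun h1 e => h1 ?_, h.ftp.prDadeF.not_le_cfker_chij j⟩
    (forall₂_congr fun w hw => by rw [← hYH, mem_inf, and_iff_left (hW hw)])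
  rw [e, hp.chij_one, cfker_cf1]
  exact h.sdK.left_le

theorem card_muj : (Finset.univ.filter
    (fun j : LChar W₂ => j ≠ 1 ∧ ∀ w ∈ W₂, w ∈ H₀ → linChar W₂ j w = 1)).card = p - 1 := by
  have hc : ∀ a ∈ W₂, ∀ b ∈ W₂, a * b = b * a := fun a ha b hb =>
    h.ftp.cycTI.comm a (mem_sup_right ha) b (mem_sup_right hb)
  have hd : ⁅W₂, W₂⁆ ≤ H₀ ⊓ W₂ := (comm_eq_bot_iff.2 (le_cent_iff.2 hc)).le.trans bot_le
  have h1 := card_Irr_le_cfker inf_le_right (le_normalizer_of_commutator_le hd inf_le_right) hd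
  rw [inf_relIndex_right, h.relIndex_W₂] at h1
  have h2 : (Finset.univ.filter (fun j : LChar W₂ => ∀ w ∈ W₂, w ∈ H₀ → linChar W₂ j w = 1)).card =
      p := by
    rw [← h1]
    have key : ∀ j : LChar W₂, H₀ ⊓ W₂ ≤ cfker (linChar W₂ j) ↔
        ∀ w ∈ W₂, w ∈ H₀ → linChar W₂ j w = 1 := fun j => by
      rw [(Irr.isChar (linChar_mem_Irr j)).le_cfker_iff inf_le_right, linChar_apply_one]
      exact ⟨fun h3 w hw hw' => h3 w ⟨hw', hw⟩, fun h3 w hw => h3 w hw.2 hw.1⟩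
    refine Finset.card_bij (fun j _ => linChar W₂ j) (fun j hj => ?_)
      (fun a _ b _ e => linChar_injective W₂ e) fun χ hχ => ?_
    · exact Finset.mem_filter.2 ⟨linChar_mem_Irr j, (key j).2 (Finset.mem_filter.1 hj).2⟩
    · obtain ⟨h3, h4⟩ := Finset.mem_filter.1 hχ
      obtain ⟨j, rfl⟩ := (mem_Irr_iff_of_comm hc).1 h3
      exact ⟨j, Finset.mem_filter.2 ⟨Finset.mem_univ _, (key j).1 h4⟩, rfl⟩
  rw [← h2, ← Finset.card_erase_of_mem (a := (1 : LChar W₂))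
    (Finset.mem_filter.2 ⟨Finset.mem_univ _, fun w hw _ => by rw [linChar_one, cf1_of_mem hw]⟩)]
  congr 1
  ext j
  simp

theorem exists_muj : ∃ j : LChar W₂, j ≠ 1 ∧ ∀ w ∈ W₂, w ∈ H₀ → linChar W₂ j w = 1 := by
  obtain ⟨j, hj⟩ := Finset.card_pos.1 (h.card_muj ▸ Nat.sub_pos_of_lt h.prime.one_lt)
  exact ⟨j, (Finset.mem_filter.1 hj).2⟩

omit [Sz G] in
theorem ind_facts {T : Subgroup G} {u : ℕ} (hT : T ≤ ⁅M, M⁆) (h1 : θ 1 = u)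
    (h2 : IsIndLin T ⁅M, M⁆ θ) :
    ind ⁅M, M⁆ M θ 1 = Nat.card W₁ * u ∧ IsIndLin T M (ind ⁅M, M⁆ M θ) := by
  obtain ⟨ξ, hξ, hξ1, e⟩ := h2
  exact ⟨by rw [ind_one _ (BG.der_le M), (TypeP.sd_der h.ftp.P).relIndex_left, h1],
    ξ, hξ, hξ1, by rw [e, ind_ind hT (BG.der_le M)]⟩

omit [Finite G] [Sz G] in
theorem H_sup_le {I : Subgroup G} (hI : I ≤ U) : 𝐇(M) ⊔ I ≤ ⁅M, M⁆ :=
  sup_le h.sdK.left_le (hI.trans h.sdK.right_le)

omit [Finite G] [Sz G] in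
theorem H₀_sup_le {I : Subgroup G} (hI : I ≤ U) : H₀ ⊔ I ≤ ⁅M, M⁆ :=
  (sup_le_sup_right h.chief.lt.le I).trans (h.H_sup_le hI)

/-- Peterfalvi (9.8)(b) and (9.9)(b) (Coq `typeP_reducible_core_Ind`). -/
theorem muj_facts {j : LChar W₂} (hj : j ≠ 1) (hk : ∀ w ∈ W₂, w ∈ H₀ → linChar W₂ j w = 1) :
    muj M W₁ W₂ j ∈ seqIndD ⁅M, M⁆ M 𝐇(M) (H₀ ⊔ centMod U 𝐇(M) H₀) ∧
    muj M W₁ W₂ j 1 = Nat.card W₁ * (centMod U 𝐇(M) H₀).relIndex U ∧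
    IsIndLin (𝐇(M) ⊔ centMod U 𝐇(M) H₀) M (muj M W₁ W₂ j) := by
  have hp := h.ftp.primeTI
  have hY := h.nml_H₀_sup le_rfl h.norm_C
  have hCU := centMod_le U 𝐇(M) H₀
  refine ⟨(h.muj_mem_iff hY (h.H₀_sup_le hCU) (h.H₀_sup_inf hCU) j).2 ⟨hj, hk⟩, ?_⟩
  have hθ := hp.chij_mem_Irr j
  have h1 : H₀ ⊔ centMod U 𝐇(M) H₀ ≤ cfker (chij M ⁅M, M⁆ W₁ W₂ j) :=
    (hp.le_cfker_chij_iff j (h.H₀_sup_le hCU) hY.norm).2 fun w hw hw' =>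
      hk w hw ((h.H₀_sup_inf hCU).le ⟨hw', TypeP.W₂_le h.ftp.P hw⟩)
  obtain ⟨l, hl, hne, h₀, h3⟩ := h.exists_constituent hθ (le_sup_left.trans h1)
  obtain ⟨h4, h5⟩ := h.isIndLin_of_inertia_le hθ ((sup_le_sup_left (BG.der_le _) _).trans h1) hl hne
    (h.inertia_le_C_of_invariant hθ (hp.le_inertia_chij j) hl hne h₀ fun h4 =>
      h.ftp.prDadeF.not_le_cfker_chij j hj (h3 _ le_rfl h.sdK.nml.norm h4))
  rw [← hp.ind_chij]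
  exact h.ind_facts (h.H_sup_le hCU) h4 h5

/-- Peterfalvi (9.8)(a). -/
theorem nGal_dvd_deg (hN : NGal U W₁ 𝐇(M) H₀ H₁ lam p) (hθ : θ ∈ Irr ⁅M, M⁆) (h₀ : H₀ ≤ cfker θ)
    (h₁ : ¬ 𝐇(M) ≤ cfker θ) : (centMod U H₁ H₀).relIndex U ∣ deg θ := by
  obtain ⟨w, hw, h2⟩ : ∃ w ∈ W₁, ¬ w ⋆ H₁ ≤ cfker θ := by
    by_contra h2
    push Not at h2
    exact h₁ (hN.gen.ge.trans (iSup₂_le h2))
  have hwM := h.W₁_le_M hw
  have hθ' := Irr.cfConj_mem ((Nml.der_self M).norm hwM) hθ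
  obtain ⟨l, hl, hne, h₀', h3⟩ := h.exists_constituent hθ'
    ((le_cfker_cfConj_iff (h.chief.nmlV.norm hwM)).2 h₀)
  obtain ⟨ψ, hψ, -, h4⟩ := exists_ind_eq_of_inertia_le h.sdK hθ' hl hne
    (h.nGal_inertia_le hN hl h₀' fun h4 => h2 (Transfer.conj_le_iff.2 fun x hx =>
      mem_cfker_cfConj.1 (h3 _ hN.le (h.nGal_K_norm hN) h4 hx))) (centMod_le _ _ _)
  rw [Irr.apply_one hψ, ← Nat.cast_mul] at h4
  rw [← deg_cfConj w, deg_of_eq h4]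
  exact dvd_mul_right _ _

/-- Peterfalvi (9.8)(c). -/
theorem nGal_exists_irr (hN : NGal U W₁ 𝐇(M) H₀ H₁ lam p) :
    ∃ ζ ∈ seqIndD ⁅M, M⁆ M 𝐇(M) (H₀ ⊔ centMod U 𝐇(M) H₀), ζ ∈ Irr M ∧
      ζ 1 = Nat.card W₁ * (centMod U 𝐇(M) H₀).relIndex U ∧
      IsIndLin (𝐇(M) ⊔ centMod U 𝐇(M) H₀) M ζ := by
  have hp := h.ftp.primeTI
  have hWH := h.W₁_le_M.trans (MF_nml M).norm
  have hc := Irr.isChar hN.mem
  -- `l = lam⁻¹ ∏_{w ≠ 1} lam^w`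
  set l : G → ℂ := star lam * ∏ w ∈ (fs (W₁ : Set G)).erase 1, cfConj w lam with hl_def
  have hl1 : l 1 = 1 := by simp [hl_def, hN.one]
  have hl : l ∈ Irr 𝐇(M) := by
    refine mem_Irr_of_map_mul (fun x hx => by simp [hl_def, CF.zero_off hc.mem_CF hx]) hl1
      fun a ha b hb => ?_
    simp only [hl_def, Pi.mul_apply, Pi.star_apply, Finset.prod_apply, cfConj_apply]
    rw [hc.map_mul_of_apply_one hN.one ha hb, star_mul', mul_mul_mul_comm, ← Finset.prod_mul_distrib]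
    refine congrArg _ (Finset.prod_congr rfl fun w hw => ?_)
    have hw' := hWH (mem_fs.1 (Finset.mem_of_mem_erase hw))
    rw [← hc.map_mul_of_apply_one hN.one (conj_mem_of_norm hw' ha) (conj_mem_of_norm hw' hb), conj_mul]
  have hker : ∀ w ∈ W₁, w ≠ 1 → ∀ y ∈ H₁, lam (w * y * w⁻¹) = 1 := fun w hw h1 y hy => by
    rw [cfker_apply (hN.ker_conj w hw h1 (Transfer.conj_mem_conj.2 hy)), hN.one]
  have hv₁ : ∀ y ∈ H₁, l y = star (lam y) := fun y hy => by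
    simp only [hl_def, Pi.mul_apply, Pi.star_apply, Finset.prod_apply, cfConj_apply]
    rw [Finset.prod_eq_one fun w hw => hker w (mem_fs.1 (Finset.mem_of_mem_erase hw))
      (Finset.ne_of_mem_erase hw) y hy, mul_one]
  have hv₂ : ∀ w ∈ W₁, w ≠ 1 → ∀ y ∈ H₁, l (w * y * w⁻¹) = lam y := fun w hw h1 y hy => by
    simp only [hl_def, Pi.mul_apply, Pi.star_apply, Finset.prod_apply, cfConj_apply]
    rw [hker w hw h1 y hy, star_one, one_mul, Finset.prod_eq_single_of_mem w⁻¹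
      (Finset.mem_erase.2 ⟨inv_ne_one.2 h1, mem_fs.2 (W₁.inv_mem hw)⟩) fun v hv hne => ?_]
    · simp [mul_assoc]
    · have := hker (v * w) (W₁.mul_mem (mem_fs.1 (Finset.mem_of_mem_erase hv)) hw)
        (fun e => hne (eq_inv_of_mul_eq_one_left e)) y hy
      simpa [mul_assoc] using this
  have h₀ : H₀ ≤ cfker l := fun x hx => by
    rw [Irr.mem_cfker_iff hl, hv₁ x (hN.le₀ hx), cfker_apply (hN.ker₀ hx), hN.one, star_one, hl1]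
  have hnk : ∀ w ∈ W₁, ¬ H₁ ≤ cfker (cfConj w l) := fun w hw h1 => hN.not_ker fun y hy => by
    have h2 := cfker_apply (h1 hy)
    rw [cfConj_apply, cfConj_apply, mul_one, mul_inv_cancel, hl1] at h2
    rw [Irr.mem_cfker_iff hN.mem, hN.one]
    by_cases h3 : w = 1
    · rw [h3, one_mul, inv_one, mul_one, hv₁ y hy] at h2
      simpa using congrArg star h2
    · rwa [hv₂ w hw h3 y hy] at h2
  have hI : U ⊓ inertia l = centMod U 𝐇(M) H₀ := by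
    refine le_antisymm ?_ (h.C_le_inertia hl h₀)
    rw [← h.nGal_iInf hN]
    exact le_iInf₂ fun w hw => h.nGal_inertia_le_conj hN hl h₀ hw (hnk w hw)
  obtain ⟨χ, hχ, hne, h1, h2, h3⟩ := h.exists_ind_of_inertia hl h₀
    (fun h1 => hnk 1 W₁.one_mem (by rw [cfConj_one]; exact hN.le.trans h1)) hI
  refine ⟨_, h3, ?_, h.ind_facts (h.H_sup_le (centMod_le _ _ _)) h1 h2⟩
  rcases hp.eq_chij_or_ind_mem_Irr hχ with ⟨j, rfl⟩ | h4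
  swap
  · exact h4.1
  exfalso
  obtain ⟨w, hw, hw1⟩ := exists_ne_one hp.ne₁
  have h4 : cfConj w l ∈ cfclass ⁅M, M⁆ l :=
    Irr.mem_cfclass_of_over h.sdK.left_le h.sdK.nml.norm hχ hl (Irr.cfConj_mem (hWH hw) hl)
      (hne ▸ one_ne_zero) (by
        rw [← mem_inertia.1 (hp.le_inertia_chij j (h.W₁_le_M hw)), cfdot_cfConj (hWH hw), hne]
        exact one_ne_zero)
  obtain ⟨k, hk, e⟩ := mem_cfclass.1 h4
  have hkn := h.nGal_K_norm hN hk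
  have hr : res H₁ lam ∈ Irr H₁ := (hc.res hN.le).mem_Irr_of_apply_one (by rw [res_one_apply, hN.one])
  have h5 : cfConj k (res H₁ lam) = star (res H₁ lam) := by
    rw [cfConj_res hkn, ← res_star]
    refine res_congr fun y hy => ?_
    have h6 := congrFun e y
    rw [cfConj_apply, cfConj_apply, hv₂ w hw hw1 y hy, hv₁ _ (conj_mem_of_norm hkn hy)] at h6
    rw [cfConj_apply, Pi.star_apply, ← h6, star_star]
  have h6 : k ∈ inertia (res H₁ lam) := mem_of_sq_mem_of_odd (mFT_odd M) (BG.der_le M hk) (by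
    rw [mem_inertia, pow_two, cfConj_mul, h5, cfConj_star, h5, star_star])
  have h7 := Irr.eq_cf1_of_star_eq (h.ftp.max.sub (hN.le.trans (MF_le M))).odd hr (h5.symm.trans h6)
  exact hN.not_ker fun y hy => by
    rw [Irr.mem_cfker_iff hN.mem, hN.one, ← res_of_mem lam hy, h7, cf1_of_mem hy]

/-- Peterfalvi (9.8)(d). -/
theorem nGal_count (hN : NGal U W₁ 𝐇(M) H₀ H₁ lam p) :
    ∃ n : ℕ, n * ((centMod U H₁ H₀).relIndex U ^ 2 * Nat.card ↥⁅U, U⁆) = (p - 1) * Nat.card U ∧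
      n ≤ ((seqIndD ⁅M, M⁆ M 𝐇(M) (H₀ ⊔ ⁅U, U⁆)).filter
        (fun ζ => ζ ∈ Irr M ∧ ζ 1 = Nat.card W₁ * (centMod U H₁ H₀).relIndex U)).card := by
  have hp := h.ftp.primeTI
  obtain ⟨-, ⟨b, hb⟩, -⟩ := h.nGal_facts hN
  have hU₁ : U ⊓ inertia lam = centMod U H₁ H₀ := h.nGal_inertia hN
  have hU' := h.nGal_der_le hN
  set U₁ := centMod U H₁ H₀ with hU₁_def
  have hU₁U : U₁ ≤ U := centMod_le _ _ _
  set a := U₁.relIndex U with ha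
  refine ⟨b * (⁅U, U⁆ : Subgroup G).relIndex U₁, ?_, ?_⟩
  · rw [hb, ← card_mul_relIndex' hU₁U, ← card_mul_relIndex' hU']
    ring
  set L := cfker lam with hL
  have hLH : L ≤ 𝐇(M) := Irr.cfker_le hN.mem
  have hH' : ⁅𝐇(M), 𝐇(M)⁆ ≤ L := h.der_le.trans hN.ker₀
  have hLn : U₁ ≤ 𝐍(L) := (hU₁.ge.trans inf_le_right).trans (inertia_le_normalizer_cfker lam)
  have hgen : L ⊔ H₁ = 𝐇(M) := by
    refine le_antisymm (sup_le hLH hN.le) (hN.gen.ge.trans (iSup₂_le fun w hw => ?_))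
    by_cases h1 : w = 1
    · rw [h1, Transfer.conj_one]
      exact le_sup_right
    · exact (hN.ker_conj w hw h1).trans le_sup_left
  have hLi : L.relIndex 𝐇(M) = p := by
    rw [← hgen, sup_comm, Core.relIndex_sup_of_le_normalizer
      (hN.le.trans (le_normalizer_of_commutator_le hH' hLH)), ← inf_relIndex_right,
      (eq_or_eq_of_relIndex_prime h.prime hN.index (le_inf hN.ker₀ hN.le₀) inf_le_right).resolve_right
        fun e => hN.not_ker (e.ge.trans inf_le_left), hN.index]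
  have hT := h.H_sup_le hU₁U
  have hsd : SD 𝐇(M) U₁ (𝐇(M) ⊔ U₁) :=
    SD.of_norm (hU₁U.trans h.sdK.norm) (eq_bot_mono h.sdK.inf (inf_le_inf_left _ hU₁U))
  have hTn : ⁅M, M⁆ ≤ 𝐍(𝐇(M) ⊔ U₁) := le_normalizer_of_commutator_le
    (h.sdK.der_le.trans (sup_le_sup_left hU' _)) hT
  have hT' : ⁅𝐇(M) ⊔ U₁, 𝐇(M) ⊔ U₁⁆ ≤ L ⊔ ⁅U, U⁆ := by
    obtain ⟨hξ, hξ1⟩ := cfProd_mem_Irr_of_inertia hsd.norm hsd.inf hN.mem hN.one
      (hU₁.ge.trans inf_le_right) (cf1_mem_Irr U₁) (cf1_one U₁)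
    intro x hx
    have h1 := cfker_apply ((Irr.isChar hξ).commutator_le_cfker hξ1 hx)
    obtain ⟨c, hc, d, hd, rfl⟩ := (mem_sup_left_norm ((BG.der_le U₁).trans hsd.norm)).1 (hsd.der_le hx)
    rw [cfProd_mul hsd.inf (cf1_mem_CF U₁).1 hc (BG.der_le U₁ hd), cf1_of_mem (BG.der_le U₁ hd),
      mul_one, hξ1, ← hN.one] at h1
    exact mul_mem_sup ((Irr.mem_cfker_iff hN.mem).2 h1) (der_mono hU₁U hd)
  have hNT : L ⊔ ⁅U, U⁆ ≤ 𝐇(M) ⊔ U₁ := sup_le_sup hLH hU'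
  have hN'T : 𝐇(M) ⊔ ⁅U, U⁆ ≤ 𝐇(M) ⊔ U₁ := sup_le_sup_left hU' _
  have hT'' := hT'.trans (sup_le_sup_right hLH _)
  have c1 := card_Irr_le_cfker hNT (le_normalizer_of_commutator_le hT' hNT) hT'
  have c2 := card_Irr_le_cfker hN'T (le_normalizer_of_commutator_le hT'' hN'T) hT''
  rw [relIndex_sup_sup h.sdK.inf hLH le_rfl hU' hU₁U (hU'.trans hLn) hsd.norm, hLi] at c1
  rw [relIndex_sup_sup h.sdK.inf le_rfl le_rfl hU' hU₁U (hU'.trans hsd.norm) hsd.norm, relIndex_self,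
    one_mul] at c2
  set X := (Irr (𝐇(M) ⊔ U₁)).filter (fun χ => L ⊔ ⁅U, U⁆ ≤ cfker χ) \
    (Irr (𝐇(M) ⊔ U₁)).filter (fun χ => 𝐇(M) ⊔ ⁅U, U⁆ ≤ cfker χ) with hX
  have hcard : X.card = a * (b * (⁅U, U⁆ : Subgroup G).relIndex U₁) := by
    rw [hX, Finset.card_sdiff_of_subset (Finset.monotone_filter_right _ fun χ _ h1 =>
      (sup_le_sup_right hLH _).trans h1), c1, c2, ← mul_assoc, ← hb, Nat.sub_one_mul]
  have hY := h.nml_H₀_sup h.der_le_C (norm_der (TypeP.sd_compl h.ftp.P).nml.norm)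
  have hfacts : ∀ ξ ∈ X, ξ ∈ Irr (𝐇(M) ⊔ U₁) ∧ ind (𝐇(M) ⊔ U₁) ⁅M, M⁆ ξ ∈ Irr ⁅M, M⁆ ∧
      ind (𝐇(M) ⊔ U₁) ⁅M, M⁆ ξ 1 = a ∧ H₀ ⊔ ⁅U, U⁆ ≤ cfker (ind (𝐇(M) ⊔ U₁) ⁅M, M⁆ ξ) ∧
      ¬ H₁ ≤ cfker (ind (𝐇(M) ⊔ U₁) ⁅M, M⁆ ξ) ∧
      ∀ w ∈ W₁, w ≠ 1 → w ⋆ H₁ ≤ cfker (ind (𝐇(M) ⊔ U₁) ⁅M, M⁆ ξ) := fun ξ hξ => by
    obtain ⟨h1, h2⟩ := Finset.mem_sdiff.1 hξ
    obtain ⟨hξi, h1⟩ := Finset.mem_filter.1 h1
    have h3 : ¬ H₁ ≤ cfker ξ := fun h3 => h2 (Finset.mem_filter.2 ⟨hξi, sup_le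
      (hgen.ge.trans (sup_le (le_sup_left.trans h1) h3)) (le_sup_right.trans h1)⟩)
    have hξ1 := Irr.apply_one_of_commutator_le hξi (hT'.trans h1)
    have hl : res 𝐇(M) ξ ∈ Irr 𝐇(M) :=
      ((Irr.isChar hξi).res le_sup_left).mem_Irr_of_apply_one (by rw [res_one_apply, hξ1])
    obtain ⟨h4, h5, -⟩ := ind_mem_Irr_of_inertia_le h.sdK hξi hξ1 (h.nGal_inertia_le hN hl
      (le_cfker_res h.chief.lt.le (hN.ker₀.trans (le_sup_left.trans h1))) fun h4 => h3 fun y hy => by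
        rw [Irr.mem_cfker_iff hξi, ← res_of_mem ξ (hN.le hy), cfker_apply (h4 hy), res_one_apply])
      hU₁U
    have key := fun A h6 h7 => le_cfker_ind_iff (A := A) hT h6 h7 (Irr.isChar hξi)
    refine ⟨hξi, h4, h5, (key _ (sup_le_sup h.chief.lt.le hU') ((BG.der_le M).trans hY.norm)).2
      ((sup_le_sup_right hN.ker₀ _).trans h1),
      mt (key _ (hN.le.trans le_sup_left) (h.nGal_K_norm hN)).1 h3, fun w hw hw1 => ?_⟩
    exact (key _ ((h.nGal_conj_le hN hw).trans le_sup_left) (h.nGal_K_norm_conj hN hw)).2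
      ((hN.ker_conj w hw hw1).trans (le_sup_left.trans h1))
  have key : ∀ ξ ∈ X, ∀ ξ' ∈ X, ∀ g ∈ M,
      cfConj g (ind (𝐇(M) ⊔ U₁) ⁅M, M⁆ ξ) = ind (𝐇(M) ⊔ U₁) ⁅M, M⁆ ξ' → g ∈ ⁅M, M⁆ := by
    intro ξ hξ ξ' hξ' g hg e
    obtain ⟨k, hk, w, hw, rfl⟩ := (TypeP.sd_der h.ftp.P).mem hg
    by_cases hw1 : w = 1
    · rwa [hw1, mul_one]
    rw [cfConj_mul, CF.cfConj_eq (ind_mem_CF _ _ _) hk] at e
    refine absurd (fun y hy => ?_) (hfacts ξ' hξ').2.2.2.2.1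
    rw [← e, mem_cfker_cfConj]
    exact (hfacts ξ hξ).2.2.2.2.2 w hw hw1 (Transfer.conj_mem_conj.2 hy)
  have h1 := Finset.card_le_mul_card_image
    (f := fun ξ => ind ⁅M, M⁆ M (ind (𝐇(M) ⊔ U₁) ⁅M, M⁆ ξ)) X a fun ζ hζ => by
      obtain ⟨ξ, hξ, rfl⟩ := Finset.mem_image.1 hζ
      refine (Finset.card_le_card (t := cfclass ⁅M, M⁆ ξ) fun ξ' hξ' => ?_).trans ?_
      · obtain ⟨hξ', e⟩ := Finset.mem_filter.1 hξ'
        obtain ⟨g, hg, e'⟩ := mem_cfclass.1 ((ind_eq_ind_iff (BG.der_le M) (Nml.der_self M).norm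
          (hfacts ξ hξ).2.1 (hfacts ξ' hξ').2.1).1 e.symm)
        rw [CF.cfConj_eq (ind_mem_CF _ _ _) (key ξ hξ ξ' hξ' g hg e')] at e'
        exact (ind_eq_ind_iff hT hTn (hfacts ξ hξ).1 (hfacts ξ' hξ').1).1 e'
      · have e1 := relIndex_sup_sup h.sdK.inf le_rfl le_rfl hU₁U le_rfl hsd.norm h.sdK.norm
        rw [relIndex_self, one_mul, h.sdK.sup] at e1
        rw [card_cfclass, ha, ← e1]
        exact relIndex_le_of_le_left (CF.le_inertia (Irr.mem_CF (hfacts ξ hξ).1)) (relIndex_ne_zero _ _)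
  rw [hcard] at h1
  refine (Nat.le_of_mul_le_mul_left h1 (relIndex_pos _ _)).trans (Finset.card_le_card fun ζ hζ => ?_)
  obtain ⟨ξ, hξ, rfl⟩ := Finset.mem_image.1 hζ
  obtain ⟨-, h2, h3, h4, h5, -⟩ := hfacts ξ hξ
  refine Finset.mem_filter.2 ⟨SeqInd.ind_mem h2 h4 fun h6 => h5 (hN.le.trans h6),
    (ind_mem_Irr_iff (BG.der_le M) (Nml.der_self M).norm h2).2 fun g hg => key ξ hξ ξ hξ g hg.1 hg.2, ?_⟩
  rw [ind_one _ (BG.der_le M), hp.relIndex_eq, h3]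

/-- The character used in (9.11.2). -/
theorem nGal_exists_deg_inf (hN : NGal U W₁ 𝐇(M) H₀ H₁ lam p) {w : G} (hw : w ∈ W₁) (hw1 : w ≠ 1) :
    ∃ ζ ∈ seqIndD ⁅M, M⁆ M 𝐇(M) (H₀ ⊔ centMod U 𝐇(M) H₀),
      ζ 1 = Nat.card W₁ * (centMod U H₁ H₀ ⊓ w ⋆ centMod U H₁ H₀).relIndex U := by
  have hwH := (MF_nml M).norm (h.W₁_le_M (W₁.inv_mem hw))
  have hl : lam * cfConj w⁻¹ lam ∈ Irr 𝐇(M) :=
    Irr.mul_mem_of_apply_one (Irr.cfConj_mem hwH hN.mem) (Irr.isChar hN.mem) hN.one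
  have hl1 : (lam * cfConj w⁻¹ lam) 1 = 1 := by simp [hN.one]
  have hker : ∀ w ∈ W₁, w ≠ 1 → ∀ y ∈ H₁, lam (w * y * w⁻¹) = 1 := fun w hw h1 y hy => by
    rw [cfker_apply (hN.ker_conj w hw h1 (Transfer.conj_mem_conj.2 hy)), hN.one]
  have hv₁ : ∀ y ∈ H₁, (lam * cfConj w⁻¹ lam) y = lam y := fun y hy => by
    rw [Pi.mul_apply, cfConj_apply, hker _ (W₁.inv_mem hw) (inv_ne_one.2 hw1) y hy, mul_one]
  have h₀ : H₀ ≤ cfker (lam * cfConj w⁻¹ lam) := fun x hx => by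
    rw [Irr.mem_cfker_iff hl, hv₁ x (hN.le₀ hx), cfker_apply (hN.ker₀ hx), hN.one, hl1]
  have h₁ : ¬ H₁ ≤ cfker (lam * cfConj w⁻¹ lam) := fun h1 => hN.not_ker fun y hy => by
    rw [Irr.mem_cfker_iff hN.mem, hN.one, ← hv₁ y hy, cfker_apply (h1 hy), hl1]
  have h₂ : ¬ H₁ ≤ cfker (cfConj w (lam * cfConj w⁻¹ lam)) := fun h1 => hN.not_ker fun y hy => by
    have h2 := cfker_apply (h1 hy)
    rw [cfConj_mul_fun, cfConj_cfConj_inv, Pi.mul_apply, Pi.mul_apply, cfConj_apply,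
      hker w hw hw1 y hy, cfConj_apply, mul_one, mul_inv_cancel, hN.one, one_mul, one_mul] at h2
    rw [Irr.mem_cfker_iff hN.mem, hN.one, h2]
  have hI : U ⊓ inertia (lam * cfConj w⁻¹ lam) = centMod U H₁ H₀ ⊓ w ⋆ centMod U H₁ H₀ := by
    refine le_antisymm (le_inf (h.nGal_inertia_le hN hl h₀ h₁) (h.nGal_inertia_le_conj hN hl h₀ hw h₂))
      fun x hx => mem_inf.2 ⟨centMod_le _ _ _ hx.1, ?_⟩
    have h3 : x ∈ inertia (cfConj w⁻¹ lam) := by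
      rw [mem_inertia_cfConj, inv_inv]
      exact ((h.nGal_inertia hN).ge (Transfer.mem_conj.1 hx.2)).2
    rw [mem_inertia, cfConj_mul_fun, mem_inertia.1 h3, mem_inertia.1 ((h.nGal_inertia hN).ge hx.1).2]
  obtain ⟨χ, -, -, h1, h2, h3⟩ := h.exists_ind_of_inertia hl h₀ (fun h1 => h₁ (hN.le.trans h1)) hI
  exact ⟨_, h3, (h.ind_facts (h.H_sup_le (inf_le_left.trans (centMod_le _ _ _))) h1 h2).1⟩

/-- Peterfalvi (9.9)(a). -/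
theorem pGalois_dvd_deg (hG : PGalois U 𝐇(M) H₀) (hθ : θ ∈ Irr ⁅M, M⁆) (h₀ : H₀ ≤ cfker θ)
    (h₁ : ¬ 𝐇(M) ≤ cfker θ) : (centMod U 𝐇(M) H₀).relIndex U ∣ deg θ := by
  obtain ⟨l, hl, hne, h₀', h3⟩ := h.exists_constituent hθ h₀
  obtain ⟨ψ, hψ, -, h4⟩ := exists_ind_eq_of_inertia_le h.sdK hθ hl hne
    (h.pGalois_inertia_le hG hl h₀' fun h4 => h₁ (h3 _ le_rfl h.sdK.nml.norm h4)) (centMod_le _ _ _)
  rw [Irr.apply_one hψ, ← Nat.cast_mul] at h4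
  rw [deg_of_eq h4]
  exact dvd_mul_right _ _

theorem pGalois_deg (hG : PGalois U 𝐇(M) H₀) (hθ : θ ∈ Irr ⁅M, M⁆)
    (h₀ : H₀ ⊔ ⁅centMod U 𝐇(M) H₀, centMod U 𝐇(M) H₀⁆ ≤ cfker θ) (h₁ : ¬ 𝐇(M) ≤ cfker θ) :
    θ 1 = (centMod U 𝐇(M) H₀).relIndex U ∧ IsIndLin (𝐇(M) ⊔ centMod U 𝐇(M) H₀) ⁅M, M⁆ θ := by
  obtain ⟨l, hl, hne, h₀', h3⟩ := h.exists_constituent hθ (le_sup_left.trans h₀)
  exact h.isIndLin_of_inertia_le hθ h₀ hl hne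
    (h.pGalois_inertia_le hG hl h₀' fun h4 => h₁ (h3 _ le_rfl h.sdK.nml.norm h4))

/-- Peterfalvi (9.10) (with (9.9)(c)). -/
theorem irr_or_pGalois :
    (∃ ζ ∈ seqIndD ⁅M, M⁆ M 𝐇(M) (H₀ ⊔ ⁅centMod U 𝐇(M) H₀, centMod U 𝐇(M) H₀⁆), ζ ∈ Irr M ∧
      ζ 1 = Nat.card W₁ * (centMod U 𝐇(M) H₀).relIndex U ∧
      IsIndLin (𝐇(M) ⊔ centMod U 𝐇(M) H₀) M ζ) ∨
    (PGalois U 𝐇(M) H₀ ∧ centMod U 𝐇(M) H₀ = ⊥ ∧ IsCyclic U ∧
      Nat.card U = (p ^ Nat.card W₁ - 1) / (p - 1) ∧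
      (IsOfTypeII M → FrobKer ⁅M, M⁆ 𝐇(M))) := by
  by_cases hG : PGalois U 𝐇(M) H₀
  swap
  · obtain ⟨H₁, lam, hN⟩ := h.exists_nGal hG
    obtain ⟨ζ, h1, h2⟩ := h.nGal_exists_irr hN
    exact Or.inl ⟨ζ, SeqInd.mono le_rfl (sup_le_sup_left (BG.der_le _) _) h1, h2⟩
  have hp := h.ftp.primeTI
  set C := centMod U 𝐇(M) H₀ with hC
  have hCU : C ≤ U := centMod_le _ _ _
  have hC'U : ⁅C, C⁆ ≤ U := (BG.der_le C).trans hCU
  by_cases hi : ∃ ζ ∈ seqIndD ⁅M, M⁆ M 𝐇(M) (H₀ ⊔ ⁅C, C⁆), ζ ∈ Irr M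
  · obtain ⟨ζ, hζ, hζi⟩ := hi
    refine Or.inl ⟨ζ, hζ, hζi, ?_⟩
    obtain ⟨θ, hθ, h1, h2, rfl⟩ := mem_seqIndD.1 hζ
    obtain ⟨h3, h4⟩ := h.pGalois_deg hG hθ h1 h2
    exact h.ind_facts (h.H_sup_le hCU) h3 h4
  right
  have hY := h.nml_H₀_sup (BG.der_le C) (norm_der h.norm_C)
  have hmem := h.muj_mem_iff hY (h.H₀_sup_le hC'U) (h.H₀_sup_inf hC'U)
  have hS : seqIndD ⁅M, M⁆ M (𝐇(M) ⊔ ⁅C, C⁆) (H₀ ⊔ ⁅C, C⁆) = (Finset.univ.filter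
      (fun j : LChar W₂ => j ≠ 1 ∧ ∀ w ∈ W₂, w ∈ H₀ → linChar W₂ j w = 1)).image (muj M W₁ W₂) := by
    ext φ
    constructor
    · intro hφ
      obtain ⟨θ, hθ, h1, h2, rfl⟩ := mem_seqIndD.1 hφ
      have h3 := SeqInd.ind_mem (L := M) hθ h1 fun h3 => h2 (sup_le h3 (le_sup_right.trans h1))
      rcases hp.eq_chij_or_ind_mem_Irr hθ with ⟨j, rfl⟩ | h4
      · rw [hp.ind_chij] at h3 ⊢
        exact Finset.mem_image_of_mem _ (Finset.mem_filter.2 ⟨Finset.mem_univ _, (hmem j).1 h3⟩)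
      · exact absurd ⟨_, h3, h4.1⟩ hi
    · intro hφ
      obtain ⟨j, hj, rfl⟩ := Finset.mem_image.1 hφ
      exact SeqInd.mono le_sup_left le_rfl ((hmem j).2 (Finset.mem_filter.1 hj).2)
  have hsum := SeqInd.sum_sq (BG.der_le M) (Nml.der_self M).norm (h.H_sup_le hC'U)
    (sup_le_sup_right h.chief.lt.le _) (h.nml_H_sup hC'U (norm_der h.norm_C)).norm hY.norm
  have e1 := relIndex_sup_sup h.sdK.inf le_rfl le_rfl hC'U le_rfl (hC'U.trans h.sdK.norm) h.sdK.norm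
  have e2 := relIndex_sup_sup h.sdK.inf h.chief.lt.le le_rfl le_rfl hC'U
    ((hC'U.trans h.U_le_M).trans h.chief.nmlV.norm) (hC'U.trans h.sdK.norm)
  rw [relIndex_self, one_mul, h.sdK.sup, ← relIndex_mul_relIndex _ _ _ (BG.der_le C) hCU] at e1
  rw [relIndex_self, mul_one, h.index] at e2
  rw [hS, Finset.sum_image fun a _ b _ e => (hp.muj_inj a b).1 e,
    Finset.sum_congr rfl fun j hj => by
      rw [deg_of_eq (n := Nat.card W₁ * C.relIndex U) (by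
        rw [(h.muj_facts (Finset.mem_filter.1 hj).2.1 (Finset.mem_filter.1 hj).2.2).2.1, Nat.cast_mul]),
        hp.cfnorm_muj],
    Finset.sum_const, h.card_muj, hp.relIndex_eq, e1, e2, nsmul_eq_mul] at hsum
  have hq := card_pos_real W₁
  have hu : (0 : ℝ) < C.relIndex U := by exact_mod_cast relIndex_pos C U
  have hpq : 0 < p ^ Nat.card W₁ := pow_pos h.prime.pos _
  have h1 : (p - 1) * C.relIndex U = (⁅C, C⁆ : Subgroup G).relIndex C * (p ^ Nat.card W₁ - 1) := by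
    have : ((p - 1 : ℕ) : ℝ) * C.relIndex U =
        (⁅C, C⁆ : Subgroup G).relIndex C * (p ^ Nat.card W₁ - 1 : ℕ) := by
      rw [Nat.cast_pred hpq]
      push_cast at hsum ⊢
      field_simp at hsum
      linear_combination hsum
    exact_mod_cast this
  obtain ⟨⟨x, hx, hU⟩, -, h2, -⟩ := h.pGalois_facts hG
  have hp1 : 0 < p - 1 := Nat.sub_pos_of_lt h.prime.one_lt
  have hpq1 : 0 < p ^ Nat.card W₁ - 1 :=
    Nat.sub_pos_of_lt (Nat.one_lt_pow Nat.card_pos.ne' h.prime.one_lt)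
  have h3 : p - 1 ∣ p ^ Nat.card W₁ - 1 := Nat.sub_one_dvd_pow_sub_one p _
  have h4 : (p - 1) * C.relIndex U ≤ p ^ Nat.card W₁ - 1 :=
    Nat.le_of_dvd hpq1 ((Nat.dvd_div_iff_mul_dvd h3).1 h2)
  have h5 : (⁅C, C⁆ : Subgroup G).relIndex C = 1 := by
    rw [h1] at h4
    have := relIndex_pos ⁅C, C⁆ C
    by_contra h6
    have : 2 * (p ^ Nat.card W₁ - 1) ≤ _ := (Nat.mul_le_mul_right _ (by omega)).trans h4
    omega
  have h6 : C = ⊥ := by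
    by_contra h6
    exact (commutator_sup_lt (sub_mmax_sol h.ftp.max (hCU.trans h.U_le_M)) (bot_lt_iff_ne_bot.2 h6)
      (Nml.bot _).norm).not_ge ((relIndex_eq_one.1 h5).trans le_sup_left)
  rw [← hC, h6, bot_sup_eq] at hU
  have hcyc : IsCyclic U := cyclic_iff.2 ⟨x, hx, hU.symm⟩
  refine ⟨hG, h6, hcyc, ?_, fun h2 => ?_⟩
  · rw [h5, one_mul, h6, relIndex_bot_left] at h1
    rw [← h1, Nat.mul_div_cancel_left _ hp1]
  · obtain ⟨-, -, -, h7, h8⟩ := h.ftp.typeII h2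
    obtain ⟨U₁, U₀, h9⟩ := exists_typeFWith h7 (h8 ▸ h.sdK)
    exact h8 ▸ h9.frobKer_of_isZGroup inferInstance

end PCore

end Cfsg.Lib.BG.Z.PF
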