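import Cfsg.Agent.Lib.PF.Sec9Coh
import Cfsg.Agent.Lib.ZQ.Sec9Char
import Cfsg.Agent.Lib.PF.Sec9CohAux
import Cfsg.Agent.Lib.PF.Sec6Grp

/-!
# Peterfalvi (9.11)
-/

set_option autoImplicit false
set_option linter.unusedVariables false

namespace Cfsg.Lib.BG.Z.PF

open Subgroup
open Cfsg.Lib.PF
open scoped Cfsg.Lib.Transfer

variable {G : Type*} [Group G] [Finite G] [Sz G] {M U W₁ W₂ H₀ : Subgroup G} {p : ℕ}

theorem minOdd_odd (A : Subgroup G)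
    (hL : Loc A := by dd) : Odd (Nat.card A) := hL.odd

namespace PCore

variable (h : PCore M U W₁ W₂ H₀ p) {H₁ : Subgroup G} {lam χ : G → ℂ}
include h

theorem relIndex_der : ⁅M, M⁆.relIndex M = Nat.card W₁ := (TypeP.sd_der h.ftp.P).relIndex_left

omit [Finite G] [Sz G] in
theorem H_le_der : 𝐇(M) ≤ ⁅M, M⁆ := (TypeP.sd_core h.ftp.P).left_le

omit [Finite G] [Sz G] in
theorem U_le_der : U ≤ ⁅M, M⁆ := (TypeP.sd_core h.ftp.P).right_le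

omit [Finite G] [Sz G] in
theorem H₀_le : H₀ ≤ 𝐇(M) := h.chief.lt.le

theorem exists_subcoherent (Y : Subgroup G) :
    ∃ R, Subcoherent M ⊤ (seqIndD ⁅M, M⁆ M 𝐇(M) Y) (ftDade M) R := by
  obtain ⟨R, hR, -⟩ := h.ftp.exists_subcoherent
  exact ⟨R, hR.mono (SeqInd.conjSub (MF_le_typeCore h.ftp.max) bot_le)⟩

/-- The degrees of the members of `S(H₀ C')` in case (9.7)(a). -/
theorem nGal_exists_deg (hN : NGal U W₁ 𝐇(M) H₀ H₁ lam p)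
    (hχ : χ ∈ seqIndD ⁅M, M⁆ M 𝐇(M) (H₀ ⊔ ⁅centMod U 𝐇(M) H₀, centMod U 𝐇(M) H₀⁆)) :
    ∃ d, deg χ = Nat.card W₁ * d ∧ (centMod U H₁ H₀).relIndex U ∣ d ∧
      d ≤ (centMod U 𝐇(M) H₀).relIndex U := by
  obtain ⟨θ, hθ, h1, h2, rfl⟩ := mem_seqIndD.1 hχ
  refine ⟨deg θ, by rw [(Irr.isChar hθ).deg_ind (BG.der_le M), h.relIndex_der],
    h.nGal_dvd_deg hN hθ (le_sup_left.trans h1) h2, ?_⟩
  have := Irr.deg_sq_le (C := 𝐇(M) ⊔ centMod U 𝐇(M) H₀) (D := 𝐇(M) ⊔ centMod U 𝐇(M) H₀) hθ h1 le_rfl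
    (sup_le h.H_le_der ((centMod_le _ _ _).trans h.U_le_der))
    (sup_le_sup h.H₀_le (BG.der_le _)) (fun d hd c hc => h.der_HC_le (comm_mem_comm hc hd))
  rw [relIndex_self, mul_one, h.relIndex_HC] at this
  exact (Nat.pow_le_pow_iff_left two_ne_zero).1 this

open Classical in
/-- Peterfalvi (9.11.1). -/
theorem nGal_not_coherent (hN : NGal U W₁ 𝐇(M) H₀ H₁ lam p) {S S₁ : Finset (G → ℂ)}
    (hS : S = seqIndD ⁅M, M⁆ M 𝐇(M) (H₀ ⊔ ⁅centMod U 𝐇(M) H₀, centMod U 𝐇(M) H₀⁆))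
    (hS₁ : S₁ = (seqIndD ⁅M, M⁆ M 𝐇(M) (H₀ ⊔ ⁅U, U⁆)).filter
        (fun ζ => ζ ∈ Irr M ∧ ζ 1 = Nat.card W₁ * (centMod U H₁ H₀).relIndex U))
    (hnot : ¬ Coherent M ⊤ S (ftDade M)) :
    p = 2 * (centMod U H₁ H₀).relIndex U + 1 ∧ centMod U 𝐇(M) H₀ = ⁅U, U⁆ ∧
    S₁.card * (centMod U H₁ H₀).relIndex U = 2 * (centMod U 𝐇(M) H₀).relIndex U ∧
    ConjSub S₁ S ∧ Coherent M ⊤ S₁ (ftDade M) ∧
    (∀ χ ∈ S, χ 1 = Nat.card W₁ * (centMod U H₁ H₀).relIndex U → χ ∈ S₁) ∧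
    ∀ χ ∈ S, χ ∉ S₁ → χ 1 = Nat.card W₁ * (centMod U 𝐇(M) H₀).relIndex U ∧
      ¬ Coherent M ⊤ (insert χ (insert (star χ) S₁)) (ftDade M) := by
  obtain ⟨R, hR⟩ := h.exists_subcoherent (H₀ ⊔ ⁅centMod U 𝐇(M) H₀, centMod U 𝐇(M) H₀⁆)
  have hdeg := fun χ (hχ : χ ∈ S) => h.nGal_exists_deg hN (hS ▸ hχ)
  rw [← hS] at hR
  obtain ⟨n, hn, hnle⟩ := h.nGal_count hN
  rw [← hS₁] at hnle
  obtain ⟨ha1, hap, -⟩ := h.nGal_facts hN
  have hCU := centMod_le U 𝐇(M) H₀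
  have hU'C := h.der_le_C
  set C := centMod U 𝐇(M) H₀
  set a := (centMod U H₁ H₀).relIndex U with ha
  set u := C.relIndex U with hu
  set q := Nat.card W₁ with hq
  set c := ⁅U, U⁆.relIndex C with hc
  have hq0 : 0 < q := Nat.card_pos
  have hu0 : 0 < u := relIndex_pos _ _
  have hc0 : 0 < c := relIndex_pos _ _
  have hp2 := h.prime.two_le
  have hna : n * a ^ 2 = (p - 1) * (c * u) := by
    rw [← card_mul_relIndex hCU, ← card_mul_relIndex hU'C] at hn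
    refine Nat.eq_of_mul_eq_mul_right (Nat.card_pos (α := ↥⁅U, U⁆)) ?_
    rw [mul_assoc, hn]; ring
  have h2a : 2 * a ≤ p - 1 := by
    have hao : Odd a := (minOdd_odd U).of_dvd_nat (BG.relIndex_dvd_card _ _)
    have := two_mul_add_one_le_of_odd hao h.p_odd (by omega) hap
    omega
  have hsub₁ : S₁ ⊆ S := by
    rw [hS₁, hS]
    exact (Finset.filter_subset _ _).trans
      (SeqInd.mono le_rfl (sup_le_sup_left (der_mono hCU) _))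
  have hmem₁ : ∀ ζ ∈ S₁, ζ ∈ Irr M ∧ ζ 1 = q * a := fun ζ hζ => by
    rw [hS₁] at hζ; exact (Finset.mem_filter.1 hζ).2
  -- the maximal coherent set
  set S₀ := S.filter (fun ζ : G → ℂ => ζ 1 = (q : ℂ) * a) with hS₀
  have hS₀c : ConjSub S₀ S := ⟨Finset.filter_subset _ _, fun χ hχ => by
    obtain ⟨h1, h2⟩ := Finset.mem_filter.1 hχ
    refine Finset.mem_filter.2 ⟨hR.star_mem χ h1, ?_⟩
    rw [Pi.star_apply, h2]; simp⟩
  have hS₀coh : Coherent M ⊤ S₀ (ftDade M) := (hR.mono hS₀c).coherent_of_uniform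
    fun φ hφ ψ hψ => by rw [(Finset.mem_filter.1 hφ).2, (Finset.mem_filter.1 hψ).2]
  obtain ⟨S₂, hS₂, hmax⟩ := Finset.exists_max_image
    (S.powerset.filter (fun T => ConjSub T S ∧ S₀ ⊆ T ∧ Coherent M ⊤ T (ftDade M))) Finset.card
    ⟨S₀, Finset.mem_filter.2 ⟨Finset.mem_powerset.2 hS₀c.sub, hS₀c, subset_rfl, hS₀coh⟩⟩
  obtain ⟨-, hS₂c, hS₀₂, hS₂coh⟩ := Finset.mem_filter.1 hS₂
  have hsub₁₂ : S₁ ⊆ S₂ := fun ζ hζ =>
    hS₀₂ (Finset.mem_filter.2 ⟨hsub₁ hζ, (hmem₁ ζ hζ).2⟩)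
  have hnoext : ∀ χ ∈ S, χ ∉ S₂ → ¬ Coherent M ⊤ (insert χ (insert (star χ) S₂)) (ftDade M) := by
    intro χ hχ hχ₂ hcoh
    have hcs : ConjSub (insert χ (insert (star χ) S₂)) S := by
      have := (ConjSub.pair hR.star_mem hχ).union hS₂c
      rwa [Finset.insert_union, ← Finset.insert_eq] at this
    have := hmax _ (Finset.mem_filter.2 ⟨Finset.mem_powerset.2 hcs.sub, hcs,
      hS₀₂.trans ((Finset.subset_insert _ _).trans (Finset.subset_insert _ _)), hcoh⟩)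
    have h2 := Finset.card_lt_card ((Finset.ssubset_iff_of_subset (s₁ := S₂)
      (s₂ := insert χ (insert (star χ) S₂))
      ((Finset.subset_insert _ _).trans (Finset.subset_insert _ _))).2
        ⟨χ, Finset.mem_insert_self _ _, hχ₂⟩)
    omega
  have hn0 : 0 < n := by
    refine Nat.pos_of_ne_zero fun e => ?_
    rw [e, zero_mul] at hna
    have : 0 < (p - 1) * (c * u) := Nat.mul_pos (by omega) (Nat.mul_pos hc0 hu0)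
    omega
  obtain ⟨ψ₁, hψ₁⟩ := Finset.card_pos.1 (lt_of_lt_of_le hn0 hnle)
  have hdeg₁ : ∀ ζ ∈ S₁, deg ζ = q * a := fun ζ hζ => deg_of_eq (by rw [(hmem₁ ζ hζ).2]; simp)
  have hsum₁ : ∑ ξ ∈ S₁, (deg ξ : ℝ) ^ 2 / cfnorm M ξ = S₁.card * (q * a : ℝ) ^ 2 := by
    rw [Finset.sum_congr rfl (g := fun _ => (q * a : ℝ) ^ 2) fun ζ hζ => by
      rw [hdeg₁ ζ hζ, Irr.cfnorm_eq (hmem₁ ζ hζ).1]; simp, Finset.sum_const, nsmul_eq_mul]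
  have hpos : ∀ ξ ∈ S, 0 < (deg ξ : ℝ) ^ 2 / cfnorm M ξ := fun ξ hξ => by
    have h1 : 0 < deg ξ := (hR.isChar ξ hξ).deg_pos (hR.ne_zero hξ)
    exact div_pos (by positivity) (cfnorm_pos_of_apply_one (hR.apply_one_ne_zero hξ))
  have hsplit := Finset.sum_sdiff (f := fun ξ => (deg ξ : ℝ) ^ 2 / cfnorm M ξ) hsub₁₂
  have hrest : 0 ≤ ∑ ξ ∈ S₂ \ S₁, (deg ξ : ℝ) ^ 2 / cfnorm M ξ :=
    Finset.sum_nonneg fun ξ hξ => (hpos ξ (hS₂c.sub (Finset.mem_sdiff.1 hξ).1)).le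
  have key : ∀ χ ∈ S, χ ∉ S₂ → ∃ d, deg χ = q * d ∧ d ≤ u ∧
      ∑ ξ ∈ S₂ \ S₁, (deg ξ : ℝ) ^ 2 / cfnorm M ξ + S₁.card * (q * a : ℝ) ^ 2 ≤
        2 * (q * d) * (q * a) := by
    intro χ hχ hχ₂
    obtain ⟨d, hd, had, hdu⟩ := hdeg χ hχ
    refine ⟨d, hd, hdu, ?_⟩
    rw [← hsum₁, hsplit]
    by_contra hlt
    refine hnoext χ hχ hχ₂ (hR.extend hS₂c hS₂coh (hsub₁₂ hψ₁) hχ hχ₂ ?_ ?_)
    · rw [hd, hdeg₁ ψ₁ hψ₁]; exact Nat.mul_dvd_mul_left q had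
    · rw [hd, hdeg₁ ψ₁ hψ₁]; push_cast; exact not_le.1 hlt
  have key2 : ∀ χ ∈ S, χ ∉ S₂ → p - 1 = 2 * a ∧ c = 1 ∧ deg χ = q * u ∧ S₁.card * a = 2 * u ∧
      S₂ = S₁ := by
    intro χ hχ hχ₂
    obtain ⟨d, hd, hdu, hle⟩ := key χ hχ hχ₂
    have hq' : (0 : ℝ) < q := by exact_mod_cast hq0
    have h1 : S₁.card * a ^ 2 ≤ 2 * d * a := by
      have : (S₁.card : ℝ) * a ^ 2 ≤ 2 * d * a := by
        have h3 : (q : ℝ) ^ 2 * (S₁.card * a ^ 2) ≤ q ^ 2 * (2 * d * a) := by nlinarith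
        exact le_of_mul_le_mul_left h3 (by positivity)
      exact_mod_cast this
    obtain ⟨e1, e2, e5, e6⟩ := arith_9111 (by omega) hu0 hc0 h2a hna hnle hdu h1
    refine ⟨e1, e2, by rw [hd, e5], e6, ?_⟩
    by_contra hne
    have hne' : (S₂ \ S₁).Nonempty :=
      Finset.sdiff_nonempty.2 fun hh => hne (Finset.Subset.antisymm hh hsub₁₂)
    have hlt := Finset.sum_pos (fun ξ hξ => hpos ξ (hS₂c.sub (Finset.mem_sdiff.1 hξ).1)) hne'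
    have e7 : (S₁.card : ℝ) * a = 2 * u := by exact_mod_cast e6
    rw [e5] at hle
    have : (S₁.card : ℝ) * (q * a) ^ 2 = 2 * (q * u) * (q * a) := by
      linear_combination (q : ℝ) ^ 2 * a * e7
    linarith
  obtain ⟨χ₀, hχ₀, hχ₀'⟩ : ∃ χ ∈ S, χ ∉ S₂ := by
    by_contra hall
    push Not at hall
    exact hnot (hS₂coh.mono hall)
  obtain ⟨e1, e2, -, e4, e5⟩ := key2 χ₀ hχ₀ hχ₀'
  subst e5
  refine ⟨by omega, le_antisymm (relIndex_eq_one.1 e2) hU'C, e4, hS₂c, hS₂coh,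
    fun χ hχ h1 => hS₀₂ (Finset.mem_filter.2 ⟨hχ, h1⟩), fun χ hχ h1 => ⟨?_, hnoext χ hχ h1⟩⟩
  rw [(hR.isChar χ hχ).apply_one, (key2 χ hχ h1).2.2.1]
  simp

/-- Peterfalvi (9.11.2). -/
theorem nGal_inf_conj (hN : NGal U W₁ 𝐇(M) H₀ H₁ lam p)
    (hd : ∀ χ ∈ seqIndD ⁅M, M⁆ M 𝐇(M) (H₀ ⊔ centMod U 𝐇(M) H₀),
      χ 1 = Nat.card W₁ * (centMod U H₁ H₀).relIndex U ∨
      χ 1 = Nat.card W₁ * (centMod U 𝐇(M) H₀).relIndex U) {w : G} (hw : w ∈ W₁) (hw1 : w ≠ 1) :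
    centMod U H₁ H₀ ⊓ w ⋆ centMod U H₁ H₀ = centMod U 𝐇(M) H₀ := by
  obtain ⟨ζ, hζ, hζ1⟩ := h.nGal_exists_deg_inf hN hw hw1
  have hq := card_ne_zero W₁
  have hU₁ := centMod_le U H₁ H₀
  have hinf := h.nGal_iInf hN
  rcases hd ζ hζ with e | e
  · rw [hζ1] at e
    have e' := eq_of_relIndex_eq inf_le_left hU₁ (by exact_mod_cast mul_left_cancel₀ hq e)
    have h1 : centMod U H₁ H₀ = w ⋆ centMod U H₁ H₀ :=
      eq_of_le_of_card_le (inf_eq_left.1 e') (Transfer.card_conj _ _).le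
    have h2 : W₁ ≤ 𝐍(centMod U H₁ H₀) := by
      rw [← zpowers_eq_of_prime h.q_prime hw hw1, zpowers_le]
      exact norm_of_conj_eq h1.symm
    rw [e', ← hinf]
    exact le_antisymm (le_iInf₂ fun v hv => (conj_eq_of_norm (h2 hv)).ge)
      ((iInf₂_le w hw).trans h1.ge)
  · rw [hζ1] at e
    refine (eq_of_relIndex_eq (le_inf (h.nGal_C_le hN) ?_) (inf_le_left.trans hU₁)
      (by exact_mod_cast (mul_left_cancel₀ hq e).symm)).symm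
    rw [← hinf]
    exact iInf₂_le w hw

theorem relIndex_H₀C : (H₀ ⊔ centMod U 𝐇(M) H₀).relIndex (𝐇(M) ⊔ (H₀ ⊔ centMod U 𝐇(M) H₀)) =
    p ^ Nat.card W₁ := by
  have sdH := TypeP.sd_core h.ftp.P
  have hC := centMod_le U 𝐇(M) H₀
  have hd : 𝐇(M) ⊓ centMod U 𝐇(M) H₀ = ⊥ := eq_bot_mono sdH.inf (inf_le_inf_left _ hC)
  have h1 := (SD.of_norm (hC.trans sdH.norm) hd).card
  have h2 := (SD.of_norm (K := H₀) (H := centMod U 𝐇(M) H₀) (fun x hx => hx.2.1)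
    (eq_bot_mono hd (inf_le_inf_right _ h.H₀_le))).card
  have h3 := BG.card_mul_relIndex (sup_le_sup_right h.H₀_le (centMod U 𝐇(M) H₀))
  rw [← h1, ← h2, ← BG.card_mul_relIndex h.H₀_le, h.index] at h3
  rw [← sup_assoc, sup_eq_left.2 h.H₀_le]
  refine Nat.eq_of_mul_eq_mul_left (Nat.mul_pos (Nat.card_pos (α := H₀))
    (Nat.card_pos (α := centMod U 𝐇(M) H₀))) ?_
  rw [h3]; ring

open Classical in
/-- Peterfalvi (9.11.3), as an inequality. -/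
theorem card_irr_bound {S₁ : Finset (G → ℂ)} {d : ℕ} (hi : S₁ ⊆ Irr M) (hd : ∀ ζ ∈ S₁, ζ 1 = d)
    (hd' : ∀ χ ∈ seqIndD ⁅M, M⁆ M 𝐇(M) (H₀ ⊔ centMod U 𝐇(M) H₀), χ ∉ S₁ →
      χ 1 = Nat.card W₁ * (centMod U 𝐇(M) H₀).relIndex U) :
    (Nat.card W₁ : ℝ) * (centMod U 𝐇(M) H₀).relIndex U * (p ^ Nat.card W₁ - 1) ≤
      S₁.card * (d : ℝ) ^ 2 +
      ((seqIndD ⁅M, M⁆ M 𝐇(M) (H₀ ⊔ centMod U 𝐇(M) H₀)).filter
        (fun χ => χ ∈ Irr M ∧ χ ∉ S₁)).card *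
          (Nat.card W₁ * (centMod U 𝐇(M) H₀).relIndex U : ℝ) ^ 2 +
      (p - 1) * (Nat.card W₁ * ((centMod U 𝐇(M) H₀).relIndex U : ℝ) ^ 2) := by
  have hC := centMod_le U 𝐇(M) H₀
  have hY := h.nml_H₀_sup le_rfl h.norm_C
  have hYK : H₀ ⊔ centMod U 𝐇(M) H₀ ≤ ⁅M, M⁆ :=
    sup_le (h.H₀_le.trans h.H_le_der) (hC.trans h.U_le_der)
  have hsum := SeqInd.sum_sq (H := 𝐇(M) ⊔ (H₀ ⊔ centMod U 𝐇(M) H₀)) (BG.der_le M)
    (Nml.der_self M).norm (sup_le h.H_le_der hYK) le_sup_right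
    (norm_sup (MF_nml M).norm hY.norm) hY.norm
  rw [← seqIndD_sup, h.relIndex_H₀C, h.relIndex_der, ← sup_assoc, sup_eq_left.2 h.H₀_le,
    h.relIndex_HC] at hsum
  have hmuj := h.muj_mem_iff hY hYK (h.H₀_sup_inf hC)
  have hcard := h.card_muj
  have hPD := h.ftp.prDadeF
  have hq0 : (0 : ℝ) < Nat.card W₁ := card_pos_real W₁
  set S := seqIndD ⁅M, M⁆ M 𝐇(M) (H₀ ⊔ centMod U 𝐇(M) H₀) with hS
  set u := (centMod U 𝐇(M) H₀).relIndex U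
  set J := Finset.univ.filter (fun j : LChar W₂ => j ≠ 1 ∧ ∀ w ∈ W₂, w ∈ H₀ → linChar W₂ j w = 1)
  set S₄ := S.filter (fun χ => χ ∈ Irr M ∧ χ ∉ S₁)
  set S₅ := S.filter (fun χ => χ ∉ Irr M)
  set f := fun φ : G → ℂ => (deg φ : ℝ) ^ 2 / cfnorm M φ with hf
  have hf0 : ∀ φ, 0 ≤ f φ := fun φ => div_nonneg (by positivity) (cfnorm_nonneg _ _)
  have hdeg : ∀ χ ∈ S, χ ∉ S₁ → deg χ = Nat.card W₁ * u := fun χ hχ h1 =>
    deg_of_eq (by rw [hd' χ hχ h1]; simp)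
  have h1 : ∑ φ ∈ S₁, f φ = S₁.card * (d : ℝ) ^ 2 := by
    rw [Finset.sum_congr rfl (g := fun _ => (d : ℝ) ^ 2) fun ζ hζ => by
      simp only [hf]
      rw [deg_of_eq (hd ζ hζ), Irr.cfnorm_eq (hi hζ), div_one], Finset.sum_const, nsmul_eq_mul]
  have h4 : ∑ φ ∈ S₄, f φ = S₄.card * (Nat.card W₁ * u : ℝ) ^ 2 := by
    rw [Finset.sum_congr rfl (g := fun _ => (Nat.card W₁ * u : ℝ) ^ 2) fun ζ hζ => by
      obtain ⟨h1, h2, h3⟩ := Finset.mem_filter.1 hζ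
      simp only [hf]
      rw [hdeg ζ h1 h3, Irr.cfnorm_eq h2, div_one]; push_cast; rfl, Finset.sum_const, nsmul_eq_mul]
  have h5' : ∀ φ ∈ S₅, ∃ j ∈ J, muj M W₁ W₂ j = φ := by
    intro φ hφ
    obtain ⟨h1, h2⟩ := Finset.mem_filter.1 hφ
    obtain ⟨j, -, rfl⟩ := (hPD.mem_Irr_or_eq_muj (SeqInd.mono le_rfl bot_le h1)).resolve_left h2
    exact ⟨j, Finset.mem_filter.2 ⟨Finset.mem_univ _, (hmuj j).1 h1⟩, rfl⟩
  have h5c : S₅.card ≤ p - 1 := by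
    rw [← hcard]
    refine le_trans (Finset.card_le_card fun φ hφ => ?_) (Finset.card_image_le (f := muj M W₁ W₂))
    exact Finset.mem_image.2 (h5' φ hφ)
  have h5 : ∑ φ ∈ S₅, f φ ≤ (p - 1) * (Nat.card W₁ * (u : ℝ) ^ 2) := by
    rw [Finset.sum_congr rfl (g := fun _ => Nat.card W₁ * (u : ℝ) ^ 2) fun ζ hζ => by
      obtain ⟨h1, h2⟩ := Finset.mem_filter.1 hζ
      obtain ⟨j, -, rfl⟩ := h5' ζ hζ
      simp only [hf]
      rw [hdeg _ h1 (fun e => h2 (hi e)), hPD.prTI.cfnorm_muj]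
      push_cast; field_simp, Finset.sum_const, nsmul_eq_mul]
    have : (S₅.card : ℝ) ≤ p - 1 := by
      rw [← Nat.cast_one, ← Nat.cast_sub h.prime.one_le]; exact_mod_cast h5c
    gcongr
  have hsub : S ⊆ S₁ ∪ S₄ ∪ S₅ := by
    intro φ hφ
    simp only [Finset.mem_union, Finset.mem_filter, S₄, S₅]
    tauto
  have hu : ∀ A B : Finset (G → ℂ), ∑ φ ∈ A ∪ B, f φ ≤ ∑ φ ∈ A, f φ + ∑ φ ∈ B, f φ := by
    intro A B
    rw [← Finset.sum_union_inter]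
    exact le_add_of_nonneg_right (Finset.sum_nonneg fun φ _ => hf0 φ)
  have := Finset.sum_le_sum_of_subset_of_nonneg hsub (fun φ _ _ => hf0 φ)
  have h6 := hu (S₁ ∪ S₄) S₅
  have h7 := hu S₁ S₄
  push_cast at hsum
  linarith

theorem mem_ftA_of_mem_sup (hN : NGal U W₁ 𝐇(M) H₀ H₁ lam p) {y : G}
    (hy : y ∈ 𝐇(M) ⊔ centMod U H₁ H₀) (h1 : y ≠ 1) : y ∈ ftA M := by
  have hU₁ := centMod_le U H₁ H₀
  have hyK : y ∈ ⁅M, M⁆ := sup_le h.H_le_der (hU₁.trans h.U_le_der) hy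
  obtain ⟨h₁, hh₁, hh₀⟩ : ∃ x ∈ H₁, x ∉ H₀ := by
    by_contra hall
    push Not at hall
    have := hN.index
    rw [relIndex_eq_one.2 hall] at this
    exact h.prime.one_lt.ne this
  obtain ⟨a, ha, b, hb, rfl⟩ :=
    (mem_sup_left_norm (hU₁.trans (TypeP.sd_core h.ftp.P).norm)).1 hy
  have hc : h₁⁻¹ * (a * b * h₁ * (a * b)⁻¹) ∈ H₀ := by
    have := H₀.mul_mem (h.der_le (comm_mem_comm (𝐇(M).inv_mem (hN.le hh₁)) ha))
      (conj_mem_of_norm (h.chief.nmlV.norm (MF_le M ha)) (hb.2.2 h₁ hh₁))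
    convert this using 1
    group
  obtain ⟨x, hx1, hx, hx'⟩ := exists_commute_of_cent_mod (h.chief.nmlV.norm (BG.der_le M hyK)) hh₀ hc
  refine h.ftp.mem_ftA.2 ⟨hyK, h1, x, MF_le_typeCore h.ftp.max ?_, hx1, hx⟩
  rcases hx' with hx' | hx'
  · exact h.H₀_le hx'
  · simpa using 𝐇(M).mul_mem (hN.le hh₁) (h.H₀_le hx')

/-- Peterfalvi (9.11.4), the norm of `γ`. -/
theorem cfnorm_gamma (hN : NGal U W₁ 𝐇(M) H₀ H₁ lam p)
    (hinf : ∀ w ∈ W₁, w ≠ 1 → centMod U H₁ H₀ ⊓ w ⋆ centMod U H₁ H₀ = centMod U 𝐇(M) H₀) :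
    cfnorm M (ind (𝐇(M) ⊔ centMod U H₁ H₀) M (cf1 (𝐇(M) ⊔ centMod U H₁ H₀))) =
      (centMod U H₁ H₀).relIndex U + ((Nat.card W₁ : ℝ) - 1) *
        ((centMod U H₁ H₀).relIndex U : ℝ) ^ 2 / (centMod U 𝐇(M) H₀).relIndex U := by
  have hU₁ := centMod_le U H₁ H₀
  have sdH := TypeP.sd_core h.ftp.P
  have sdK := TypeP.sd_der h.ftp.P
  have hT : Nml (𝐇(M) ⊔ centMod U H₁ H₀) ⁅M, M⁆ :=
    Nml.of_der_le (sdH.der_le.trans (sup_le_sup_left (h.nGal_der_le hN) _))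
      (sup_le h.H_le_der (hU₁.trans h.U_le_der))
  have hHC := h.nml_H_sup (centMod_le U 𝐇(M) H₀) h.norm_C
  have hle : 𝐇(M) ⊔ centMod U 𝐇(M) H₀ ≤ 𝐇(M) ⊔ centMod U H₁ H₀ :=
    sup_le_sup_left (h.nGal_C_le hN) _
  rw [cfnorm_ind_cf1 (N := 𝐇(M) ⊔ centMod U 𝐇(M) H₀) hT.le (BG.der_le M) (Nml.der_self M).norm
    hT.norm, h.relIndex_HC, h.relIndex_der, relIndex_sup_of_sd sdH hU₁]
  intro x hx hxK y
  refine ⟨fun ⟨hy, hxy⟩ => ?_, fun hy => ⟨hle hy, hle (conj_mem_of_norm (hHC.norm hx) hy)⟩⟩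
  obtain ⟨k, hk, w, hw, rfl⟩ := sdK.mem hx
  have hw1 : w ≠ 1 := by
    rintro rfl
    exact hxK (by simpa using hk)
  obtain ⟨a, ha, b, hb, rfl⟩ := (mem_sup_left_norm (hU₁.trans sdH.norm)).1 hy
  have h1 : w * b * w⁻¹ ∈ 𝐇(M) ⊔ centMod U H₁ H₀ := by
    have := mul_mem (inv_mem (mem_sup_left (T := centMod U H₁ H₀)
      (conj_mem_of_norm ((MF_nml M).norm (sdK.right_le hw)) ha))) (conj_mem_of_norm' (hT.norm hk) hxy)
    convert this using 1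
    group
  have h2 : w * b * w⁻¹ ∈ U := conj_mem_of_norm ((TypeP.sd_compl h.ftp.P).norm hw) (hU₁ hb)
  have h3 : w * b * w⁻¹ ∈ centMod U H₁ H₀ := by
    have := modular_right hU₁ (hU₁.trans sdH.norm)
    rw [sdH.inf, bot_sup_eq] at this
    rw [← this]
    exact ⟨h1, h2⟩
  have h4 : b ∈ centMod U 𝐇(M) H₀ := by
    rw [← hinf w⁻¹ (W₁.inv_mem hw) (inv_ne_one.2 hw1)]
    exact ⟨hb, Transfer.mem_conj.2 (by rwa [inv_inv])⟩
  exact mul_mem (mem_sup_left ha) (mem_sup_right h4)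

end PCore

/-- Peterfalvi (9.11) (Coq `Ptype_core_coherence`). -/
theorem PCore.coherent (h : PCore M U W₁ W₂ H₀ p) : Coherent M ⊤
    (seqIndD ⁅M, M⁆ M 𝐇(M) (H₀ ⊔ ⁅centMod U 𝐇(M) H₀, centMod U 𝐇(M) H₀⁆)) (ftDade M) := by
  classical
  obtain ⟨R, hR⟩ := h.exists_subcoherent (H₀ ⊔ ⁅centMod U 𝐇(M) H₀, centMod U 𝐇(M) H₀⁆)
  by_cases hG : PGalois U 𝐇(M) H₀
  · refine hR.coherent_of_uniform fun φ hφ ψ hψ => ?_
    obtain ⟨θ, hθ, h1, h2, rfl⟩ := mem_seqIndD.1 hφ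
    obtain ⟨θ', hθ', h1', h2', rfl⟩ := mem_seqIndD.1 hψ
    rw [ind_one _ (BG.der_le M), ind_one _ (BG.der_le M), (h.pGalois_deg hG hθ h1 h2).1,
      (h.pGalois_deg hG hθ' h1' h2').1]
  obtain ⟨H₁, lam, hN⟩ := h.exists_nGal hG
  by_contra hnot
  obtain ⟨hp, hC, hcard, hS₁, hcoh, hmem, hrest⟩ := h.nGal_not_coherent hN rfl rfl hnot
  have hsubC : seqIndD ⁅M, M⁆ M 𝐇(M) (H₀ ⊔ centMod U 𝐇(M) H₀) ⊆ _ :=
    SeqInd.mono le_rfl (sup_le_sup_left (BG.der_le (centMod U 𝐇(M) H₀)) H₀)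
  set S := seqIndD ⁅M, M⁆ M 𝐇(M) (H₀ ⊔ ⁅centMod U 𝐇(M) H₀, centMod U 𝐇(M) H₀⁆) with hS
  set S₁ := (seqIndD ⁅M, M⁆ M 𝐇(M) (H₀ ⊔ ⁅U, U⁆)).filter
    (fun ζ => ζ ∈ Irr M ∧ ζ 1 = Nat.card W₁ * (centMod U H₁ H₀).relIndex U) with hS₁def
  have hi₁ : S₁ ⊆ Irr M := fun ζ hζ => (Finset.mem_filter.1 hζ).2.1
  have hd₁ : ∀ ζ ∈ S₁, ζ 1 = Nat.card W₁ * (centMod U H₁ H₀).relIndex U :=
    fun ζ hζ => (Finset.mem_filter.1 hζ).2.2
  have hinf := fun w hw hw1 => h.nGal_inf_conj hN (fun χ hχ => by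
    by_cases h1 : χ ∈ S₁
    · exact Or.inl (hd₁ χ h1)
    · exact Or.inr (hrest χ (hsubC hχ) h1).1) (w := w) hw hw1
  have hbound := h.card_irr_bound (d := Nat.card W₁ * (centMod U H₁ H₀).relIndex U) hi₁
    (fun ζ hζ => by rw [hd₁ ζ hζ, Nat.cast_mul]) (fun χ hχ h1 => (hrest χ (hsubC hχ) h1).1)
  have hγ := h.cfnorm_gamma hN hinf
  have hU₁ := centMod_le U H₁ H₀
  have hq3 : 3 ≤ Nat.card W₁ := by
    have h1 := h.q_prime.two_le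
    have h2 := Nat.odd_iff.1 (minOdd_odd W₁)
    omega
  have hua : (centMod U 𝐇(M) H₀).relIndex U ≤ (centMod U H₁ H₀).relIndex U ^ 2 := by
    obtain ⟨w, hw, hw1⟩ := exists_ne_one (ne_bot_of_prime h.q_prime)
    rw [← hinf w hw hw1, sq]
    have e := Transfer.relIndex_conj w (centMod U H₁ H₀) U
    rw [conj_eq_of_norm ((TypeP.sd_compl h.ftp.P).norm hw)] at e
    exact relIndex_inf_le.trans (le_of_eq (by rw [e]))
  have hk := relIndex_mul_relIndex _ _ _ (h.nGal_C_le hN) hU₁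
  have hTK : 𝐇(M) ⊔ centMod U H₁ H₀ ≤ ⁅M, M⁆ := sup_le h.H_le_der (hU₁.trans h.U_le_der)
  have hTM := hTK.trans (BG.der_le M)
  have hTi : (𝐇(M) ⊔ centMod U H₁ H₀).relIndex M = Nat.card W₁ * (centMod U H₁ H₀).relIndex U := by
    rw [← relIndex_mul_relIndex _ _ _ hTK (BG.der_le M), h.relIndex_der,
      relIndex_sup_of_sd (TypeP.sd_core h.ftp.P) hU₁, mul_comm]
  have hA := fun y hy => h.mem_ftA_of_mem_sup hN (y := y) hy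
  set T := 𝐇(M) ⊔ centMod U H₁ H₀
  set k := (centMod U 𝐇(M) H₀).relIndex (centMod U H₁ H₀)
  set a := (centMod U H₁ H₀).relIndex U
  set u := (centMod U 𝐇(M) H₀).relIndex U
  have ha0 : 0 < a := relIndex_pos _ _
  have hu0 : 0 < u := relIndex_pos _ _
  rw [hp] at hbound
  have hlt := arith_9115 ha0 hu0 hq3 hua hcard hbound
  have hcard' : S₁.card = 2 * k := Nat.eq_of_mul_eq_mul_right ha0 (by rw [hcard, ← hk]; ring)
  have hk1 : 1 < k := by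
    obtain ⟨χ, hχ, hχ₁⟩ : ∃ χ ∈ S, χ ∉ S₁ := by
      by_contra hall
      push Not at hall
      exact hnot (hcoh.mono hall)
    have h0 : 0 < k := relIndex_pos _ _
    by_contra hle
    have e : k = 1 := by omega
    rw [e, one_mul] at hk
    exact hχ₁ (hmem χ hχ (by rw [(hrest χ hχ hχ₁).1, hk]))
  obtain ⟨ψ₁, hψ₁⟩ := Finset.card_pos.1 (by omega : 0 < S₁.card)
  have hPD := h.ftp.prDadeF
  have hD := hPD.dd
  have hSA : ∀ χ ∈ S, χ ∈ CFon M (insert 1 (ftA M)) := fun χ hχ =>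
    hPD.mem_CFon_of_mem_seqIndD (SeqInd.mono le_rfl bot_le hχ)
  set γ := ind T M (cf1 T) with hγdef
  have hγc : IsChar M γ := (Irr.isChar (cf1_mem_Irr T)).ind hTM
  have hγA : γ ∈ CFon M (insert 1 (ftA M)) := by
    refine ind_mem_CFon (le_normalizer_of_conj_mem fun x hx y hy => ?_) fun x hx hx' => ?_
    · rcases hy with rfl | hy
      · simp
      · exact Or.inr (hPD.A_conj x hx y hy)
    · exact absurd (by by_cases e : x = 1; exacts [Or.inl e, Or.inr (hA x hx e)]) hx'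
  have hγS : ∀ χ ∈ S, cfdot M γ χ = 0 := fun χ hχ =>
    SeqInd.cfdot_of_le_cfker (BG.der_le M) (Nml.der_self M).norm h.H_le_der (MF_nml M).norm hγc
      (le_cfker_ind le_sup_left (MF_le M) (MF_nml M).norm (by rw [cfker_cf1]; exact le_sup_left)) hχ
  have hαA : γ - ψ₁ ∈ CFon M (ftA0 M) := by
    refine CFon.mono hPD.A_subset (CFon.of_insert_one (sub_mem hγA (hSA _ (hS₁.sub hψ₁))) ?_)
    rw [Pi.sub_apply, hγdef, ind_one _ hTM, hTi, hd₁ _ hψ₁]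
    simp
  have hS₃ : ConjSub (S \ S₁) S := ⟨Finset.sdiff_subset, fun χ hχ => Finset.mem_sdiff.2
    ⟨hR.star_mem χ (Finset.mem_sdiff.1 hχ).1, hS₁.star_not_mem (Finset.mem_sdiff.1 hχ).2⟩⟩
  obtain ⟨χ, hχ, hc⟩ := hR.exists_extend_of_small hS₁ hS₃ Finset.disjoint_sdiff
    (S₄ := (seqIndD ⁅M, M⁆ M 𝐇(M) (H₀ ⊔ centMod U 𝐇(M) H₀)).filter (fun χ => χ ∈ Irr M ∧ χ ∉ S₁))
    (fun χ hχ => Finset.mem_sdiff.2
      ⟨hsubC (Finset.mem_filter.1 hχ).1, (Finset.mem_filter.1 hχ).2.2⟩)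
    hi₁ (fun χ hχ => (Finset.mem_filter.1 hχ).2.1) hcoh hk1 hcard' hψ₁
    (fun ψ hψ => by rw [hd₁ ψ hψ, hd₁ ψ₁ hψ₁])
    (fun χ hχ => by
      rw [(hrest χ (Finset.mem_sdiff.1 hχ).1 (Finset.mem_sdiff.1 hχ).2).1, hd₁ ψ₁ hψ₁, ← hk]
      push_cast; ring)
    (ω := ftDade M (γ - ψ₁))
    (Dade.mem_ZI hD (sub_mem hγc.mem_ZI (Irr.mem_ZI (hi₁ hψ₁))) (mem_CFon.1 hαA).2)
    (fun β hβ => by
      rw [Dade.isometry hD hαA (CFon.mono hPD.A_subset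
        (CFon.of_insert_one (ZS.mem_CFon hSA hβ.1) hβ.2)), cfdot_sub_left,
        ZS.cfdot_right_eq_zero hγS hβ.1, zero_sub])
    (by
      rw [Dade.cfnorm_dade hD hαA, cfnorm_sub_of_orth (hγS _ (hS₁.sub hψ₁)), hγ,
        Irr.cfnorm_eq (hi₁ hψ₁)]
      exact hlt)
  exact (hrest χ (Finset.mem_sdiff.1 hχ).1 (Finset.mem_sdiff.1 hχ).2).2 hc

end Cfsg.Lib.BG.Z.PF
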